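import Mathlib

/-!
# Eigenvalue orbits (helper872)

`L` algebraically closed, `A, B` matrices over `L`, `B` invertible, `s ≠ char L` prime, `k` of prime order `n` modulo `s`.

* `scalar_of_auto` : `A ^ s` scalar, `B A = ζ A ^ k B` and `card ι < n` imply that `A` is scalar;
* `two_mul_le_of_form` : `A ^ s = 1`, `A ≠ 1`, `B A = A ^ k B`, `Aᵀ J A = J` imply `2 n ≤ card ι` (`n`, `s` odd).
-/

set_option autoImplicit false

namespace Cfsg.Agent.H872.AutEig

open Matrix Polynomial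

variable {ι : Type*} [Fintype ι] [DecidableEq ι] {L : Type*} [Field L]

/-- the set of eigenvalues -/
noncomputable def eig (A : Matrix ι ι L) : Finset L := by
  classical exact A.charpoly.roots.toFinset

theorem mem_eig (A : Matrix ι ι L) (a : L) : a ∈ eig A ↔ ∃ v, v ≠ 0 ∧ A *ᵥ v = a • v := by
  classical
  unfold eig
  rw [Multiset.mem_toFinset, mem_roots (A.charpoly_monic.ne_zero), IsRoot.def, eval_charpoly,
    ← exists_mulVec_eq_zero_iff]
  refine exists_congr fun v => and_congr Iff.rfl ?_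
  rw [sub_mulVec, sub_eq_zero, eq_comm]
  simp [Matrix.scalar_apply, ← Matrix.smul_one_eq_diagonal, Matrix.smul_mulVec]

theorem card_eig_le (A : Matrix ι ι L) : (eig A).card ≤ Fintype.card ι := by
  classical
  unfold eig
  refine (Multiset.toFinset_card_le _).trans ((card_roots' _).trans ?_)
  rw [charpoly_natDegree_eq_dim]

theorem eig_nonempty [IsAlgClosed L] [Nonempty ι] (A : Matrix ι ι L) : (eig A).Nonempty := by
  classical
  have h0 : A.charpoly.degree ≠ 0 := by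
    have h1 : 0 < A.charpoly.natDegree := by
      rw [charpoly_natDegree_eq_dim]; exact Fintype.card_pos
    exact (natDegree_pos_iff_degree_pos.1 h1).ne'
  obtain ⟨a, ha⟩ := IsAlgClosed.exists_root A.charpoly h0
  refine ⟨a, ?_⟩
  unfold eig
  rw [Multiset.mem_toFinset, mem_roots (A.charpoly_monic.ne_zero)]
  exact ha

theorem pow_mulVec {A : Matrix ι ι L} {v : ι → L} {a : L} (h : A *ᵥ v = a • v) (m : ℕ) :
    (A ^ m) *ᵥ v = a ^ m • v := by
  induction m with
  | zero => simp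
  | succ m ih => rw [pow_succ', ← mulVec_mulVec, ih, mulVec_smul, h, smul_smul, pow_succ]

/-- a matrix with scalar `s`-th power and only one eigenvalue is scalar -/
theorem scalar_of_single [IsAlgClosed L] [Nonempty ι] {A : Matrix ι ι L} {s : ℕ} (hs : (s : L) ≠ 0) {c : L}
    (hc : c ≠ 0) (h : A ^ s = c • 1) {a : L} (ha : ∀ b ∈ eig A, b = a) : A = a • 1 := by
  classical
  have h1 : minpoly L A ∣ X ^ s - C c := by
    apply minpoly.dvd
    rw [map_sub, map_pow, aeval_X, aeval_C, h, Algebra.algebraMap_eq_smul_one, sub_self]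
  have h2 : Squarefree (minpoly L A) := ((separable_X_pow_sub_C c hs hc).squarefree).squarefree_of_dvd h1
  have h3 : A.charpoly = (X - C a) ^ (Multiset.card A.charpoly.roots) := by
    have h4 := (IsAlgClosed.splits A.charpoly).eq_prod_roots_of_monic A.charpoly_monic
    have h5 : A.charpoly.roots = Multiset.replicate (Multiset.card A.charpoly.roots) a := by
      apply Multiset.eq_replicate_card.2
      intro b hb
      exact ha b (by unfold eig; rw [Multiset.mem_toFinset]; exact hb)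
    conv_lhs => rw [h4]
    conv_lhs => rw [h5]
    rw [Multiset.map_replicate, Multiset.prod_replicate]
  have h6 : minpoly L A ∣ (X - C a) ^ (Multiset.card A.charpoly.roots) := by
    rw [← h3]; exact minpoly_dvd_charpoly A
  have h7 : Multiset.card A.charpoly.roots ≠ 0 := by
    rw [Ne, Multiset.card_eq_zero]
    intro h8
    obtain ⟨b, hb⟩ := eig_nonempty A
    unfold eig at hb
    rw [h8] at hb
    simp at hb
  have h8 := (h2.dvd_pow_iff_dvd h7).1 h6
  have h9 : aeval A (X - C a) = 0 := by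
    obtain ⟨r, hr⟩ := h8
    rw [hr, map_mul, minpoly.aeval, zero_mul]
  rw [map_sub, aeval_X, aeval_C, Algebra.algebraMap_eq_smul_one, sub_eq_zero] at h9
  exact h9

theorem eig_pow {A : Matrix ι ι L} {s : ℕ} {c : L} (h : A ^ s = c • 1) {a : L} (ha : a ∈ eig A) : a ^ s = c := by
  obtain ⟨v, hv, hv2⟩ := (mem_eig A a).1 ha
  have h1 := pow_mulVec hv2 s
  rw [h, smul_mulVec, one_mulVec] at h1
  exact (smul_left_injective L hv h1).symm

/-- `B A B⁻¹ = ζ A ^ k` maps eigenvalues to eigenvalues -/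
theorem eig_map {A : Matrix ι ι L} {B : (Matrix ι ι L)ˣ} {z : L} {k : ℕ}
    (h : (B : Matrix ι ι L) * A * ((B⁻¹ : (Matrix ι ι L)ˣ) : Matrix ι ι L) = z • A ^ k) {a : L}
    (ha : a ∈ eig A) : z * a ^ k ∈ eig A := by
  obtain ⟨v, hv, hv2⟩ := (mem_eig A a).1 ha
  refine (mem_eig A _).2 ⟨((B⁻¹ : (Matrix ι ι L)ˣ) : Matrix ι ι L) *ᵥ v, ?_, ?_⟩
  · intro h0
    apply hv
    have h1 : (B : Matrix ι ι L) *ᵥ (((B⁻¹ : (Matrix ι ι L)ˣ) : Matrix ι ι L) *ᵥ v) = v := by
      rw [mulVec_mulVec, Units.mul_inv, one_mulVec]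
    rw [← h1, h0, mulVec_zero]
  · have h1 : A * ((B⁻¹ : (Matrix ι ι L)ˣ) : Matrix ι ι L) =
        ((B⁻¹ : (Matrix ι ι L)ˣ) : Matrix ι ι L) * (z • A ^ k) := by
      rw [← h, ← mul_assoc, ← mul_assoc, Units.inv_mul, one_mul]
    rw [mulVec_mulVec, h1, ← mulVec_mulVec, smul_mulVec, pow_mulVec hv2, mulVec_smul, mulVec_smul, smul_smul]

/-- ratios of `s`-th roots of the same number -/
theorem div_pow_eq_one {s : ℕ} {c a b : L} (hc : c ≠ 0) (ha : a ^ s = c) (hb : b ^ s = c) : (a / b) ^ s = 1 := by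
  rw [div_pow, ha, hb, div_self hc]

theorem modEq_of_pow_eq {x : L} (hx : x ≠ 0) {i j : ℕ} (h : x ^ i = x ^ j) : i ≡ j [MOD orderOf x] := by
  have h1 : (Units.mk0 x hx) ^ i = (Units.mk0 x hx) ^ j := by
    ext; simpa using h
  have h2 := pow_eq_pow_iff_modEq.1 h1
  rwa [← orderOf_units] at h2

/-- **Orbits of an automorphism on the eigenvalues.** -/
theorem scalar_of_auto [IsAlgClosed L] [Nonempty ι] {A : Matrix ι ι L} {B : (Matrix ι ι L)ˣ} {s n k : ℕ}
    (hs : s.Prime) (hsL : (s : L) ≠ 0) (hn : n.Prime) (hk : orderOf (k : ZMod s) = n) {c : L} (hc : c ≠ 0)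
    (hA : A ^ s = c • 1) {z : L} (hz : z ≠ 0)
    (h : (B : Matrix ι ι L) * A * ((B⁻¹ : (Matrix ι ι L)ˣ) : Matrix ι ι L) = z • A ^ k)
    (hd : Fintype.card ι < n) : ∃ a : L, A = a • 1 := by
  classical
  have hfs : Fact s.Prime := ⟨hs⟩
  have hk0 : (k : ZMod s) ≠ 0 := by
    intro h0
    rw [h0, orderOf_zero] at hk
    exact hn.ne_zero hk.symm
  have hks : k.Coprime s := by
    rw [Nat.coprime_comm, hs.coprime_iff_not_dvd, ← ZMod.natCast_eq_zero_iff]
    exact hk0
  -- the permutation of the eigenvalues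
  let φ : L → L := fun a => z * a ^ k
  have hφ : ∀ a ∈ eig A, φ a ∈ eig A := fun a ha => eig_map h ha
  have hne : ∀ a ∈ eig A, a ≠ 0 := by
    intro a ha h0
    have := eig_pow hA ha
    rw [h0, zero_pow hs.ne_zero] at this
    exact hc this.symm
  have hinj : ∀ a ∈ eig A, ∀ b ∈ eig A, φ a = φ b → a = b := by
    intro a ha b hb hab
    have h1 : a ^ k = b ^ k := mul_left_cancel₀ hz hab
    have h2 : (a / b) ^ k = 1 := by rw [div_pow, h1, div_self (pow_ne_zero _ (hne b hb))]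
    have h3 : (a / b) ^ s = 1 := div_pow_eq_one hc (eig_pow hA ha) (eig_pow hA hb)
    have h4 : orderOf (a / b) ∣ Nat.gcd k s := Nat.dvd_gcd (orderOf_dvd_of_pow_eq_one h2) (orderOf_dvd_of_pow_eq_one h3)
    rw [hks] at h4
    have h5 := orderOf_eq_one_iff.1 (Nat.dvd_one.1 h4)
    exact (div_eq_one_iff_eq (hne b hb)).1 h5
  let f : {a // a ∈ eig A} → {a // a ∈ eig A} := fun a => ⟨φ a.1, hφ a.1 a.2⟩
  have hf : Function.Injective f := by
    intro a b hab
    exact Subtype.ext (hinj a.1 a.2 b.1 b.2 (congrArg Subtype.val hab))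
  let σ : Equiv.Perm {a // a ∈ eig A} := Equiv.ofBijective f (Finite.injective_iff_bijective.1 hf)
  set N := Fintype.card (Equiv.Perm {a // a ∈ eig A}) with hN
  have hσN : σ ^ N = 1 := pow_card_eq_one
  have hnN : ¬ n ∣ N := by
    rw [hN, Fintype.card_perm, hn.dvd_factorial, not_le]
    refine lt_of_le_of_lt ?_ hd
    rw [Fintype.card_coe]
    exact card_eig_le A
  have hiter : ∀ (j : ℕ) (a b : {a // a ∈ eig A}), ((σ ^ j) a).1 / ((σ ^ j) b).1 = (a.1 / b.1) ^ (k ^ j) := by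
    intro j a b
    induction j with
    | zero => simp
    | succ j ih =>
      have h1 : ∀ x : {a // a ∈ eig A}, ((σ ^ (j + 1)) x).1 = z * (((σ ^ j) x).1) ^ k := by
        intro x
        rw [pow_succ', Equiv.Perm.mul_apply]
        rfl
      rw [h1, h1, mul_div_mul_left _ _ hz, ← div_pow, ih, ← pow_mul, ← pow_succ]
  obtain ⟨b, hb⟩ := eig_nonempty A
  refine ⟨b, scalar_of_single hsL hc hA fun a ha => ?_⟩
  by_contra hab
  have h1 := hiter N ⟨a, ha⟩ ⟨b, hb⟩
  rw [hσN] at h1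
  simp only [Equiv.Perm.coe_one, id_eq] at h1
  have h2 : (a / b) ^ s = 1 := div_pow_eq_one hc (eig_pow hA ha) (eig_pow hA hb)
  have h3 : a / b ≠ 1 := fun h => hab ((div_eq_one_iff_eq (hne b hb)).1 h)
  have h4 : orderOf (a / b) = s := (Nat.dvd_prime hs).1 (orderOf_dvd_of_pow_eq_one h2) |>.resolve_left
    (fun h => h3 (orderOf_eq_one_iff.1 h))
  have h5 : 1 ≡ k ^ N [MOD s] := by
    rw [← h4]
    exact modEq_of_pow_eq (div_ne_zero (hne a ha) (hne b hb)) (by rw [pow_one]; exact h1)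
  apply hnN
  rw [← hk]
  apply orderOf_dvd_of_pow_eq_one
  have h6 := (ZMod.natCast_eq_natCast_iff _ _ _).2 h5
  rw [Nat.cast_pow, Nat.cast_one] at h6
  exact h6.symm

/-- eigenvalues of an isometry are closed under inversion -/
theorem eig_inv {A J : Matrix ι ι L} (hJ : J.det ≠ 0) (h : Aᵀ * J * A = J) {a : L} (ha : a ∈ eig A) :
    a⁻¹ ∈ eig A := by
  classical
  have ha0 : a ≠ 0 := by
    rintro rfl
    obtain ⟨v, hv, hv2⟩ := (mem_eig A 0).1 ha
    rw [zero_smul] at hv2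
    have h1 : J *ᵥ v = 0 := by rw [← h, ← mulVec_mulVec, hv2, mulVec_zero]
    exact hJ (exists_mulVec_eq_zero_iff.1 ⟨v, hv, h1⟩)
  obtain ⟨v, hv, hv2⟩ := (mem_eig A a).1 ha
  -- `Aᵀ (J v) = a⁻¹ J v`
  have h1 : Aᵀ *ᵥ (J *ᵥ v) = a⁻¹ • (J *ᵥ v) := by
    have h2 : (Aᵀ * J * A) *ᵥ v = J *ᵥ v := by rw [h]
    rw [← mulVec_mulVec, hv2, mulVec_smul, ← mulVec_mulVec] at h2
    have h3 : a⁻¹ • (a • (Aᵀ *ᵥ (J *ᵥ v))) = a⁻¹ • (J *ᵥ v) := by rw [h2]
    rwa [smul_smul, inv_mul_cancel₀ ha0, one_smul] at h3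
  have h3 : a⁻¹ ∈ eig Aᵀ := (mem_eig _ _).2 ⟨J *ᵥ v, fun h0 => hJ (exists_mulVec_eq_zero_iff.1 ⟨v, hv, h0⟩), h1⟩
  unfold eig at h3 ⊢
  rwa [charpoly_transpose] at h3

theorem zmod_two_ne {s : ℕ} (hs : s.Prime) (hs2 : s ≠ 2) : (1 : ZMod s) ≠ -1 := by
  have : Fact s.Prime := ⟨hs⟩
  have : Fact (2 < s) := ⟨lt_of_le_of_ne hs.two_le hs2.symm⟩
  exact (ZMod.neg_one_ne_one).symm

/-- **Orbits of an automorphism and of the inversion on the eigenvalues.** -/
theorem two_mul_le_of_form [IsAlgClosed L] [Nonempty ι] {A : Matrix ι ι L} {B : (Matrix ι ι L)ˣ} {s n k : ℕ}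
    (hs : s.Prime) (hs2 : s ≠ 2) (hsL : (s : L) ≠ 0) (hn : n.Prime) (hn2 : n ≠ 2) (hk : orderOf (k : ZMod s) = n)
    (hA : A ^ s = 1) (hA1 : A ≠ 1)
    (h : (B : Matrix ι ι L) * A * ((B⁻¹ : (Matrix ι ι L)ˣ) : Matrix ι ι L) = A ^ k)
    {J : Matrix ι ι L} (hJ : J.det ≠ 0) (hAJ : Aᵀ * J * A = J) : 2 * n ≤ Fintype.card ι := by
  classical
  have hfs : Fact s.Prime := ⟨hs⟩
  have hA' : A ^ s = (1 : L) • 1 := by rw [hA, one_smul]
  have hstep : ∀ a ∈ eig A, a ^ k ∈ eig A := by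
    intro a ha
    have := eig_map (z := 1) (by rw [one_smul]; exact h) ha
    rwa [one_mul] at this
  have hiter : ∀ (j : ℕ), ∀ a ∈ eig A, a ^ (k ^ j) ∈ eig A := by
    intro j
    induction j with
    | zero => intro a ha; simpa using ha
    | succ j ih => intro a ha; rw [pow_succ, pow_mul]; exact hstep _ (ih a ha)
  -- an eigenvalue of order `s`
  obtain ⟨a, ha, ha1⟩ : ∃ a ∈ eig A, a ≠ 1 := by
    by_contra hcon
    push Not at hcon
    apply hA1
    rw [scalar_of_single hsL one_ne_zero hA' hcon, one_smul]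
  have has : a ^ s = 1 := eig_pow hA' ha
  have ha0 : a ≠ 0 := by
    rintro rfl
    rw [zero_pow hs.ne_zero] at has
    exact zero_ne_one has
  have horder : orderOf a = s := ((Nat.dvd_prime hs).1 (orderOf_dvd_of_pow_eq_one has)).resolve_left
    (fun h => ha1 (orderOf_eq_one_iff.1 h))
  have hkn : (k : ZMod s) ^ n = 1 := by rw [← hk]; exact pow_orderOf_eq_one _
  have hnodd : Odd n := hn.odd_of_ne_two hn2
  let g : Fin n × Bool → L := fun x => if x.2 then a ^ (k ^ (x.1 : ℕ)) else (a ^ (k ^ (x.1 : ℕ)))⁻¹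
  have hpm : ∀ i j : ℕ, a ^ (k ^ i) = a ^ (k ^ j) → (k : ZMod s) ^ i = (k : ZMod s) ^ j := by
    intro i j hij
    have h1 := modEq_of_pow_eq ha0 hij
    rw [horder, ← ZMod.natCast_eq_natCast_iff] at h1
    simpa using h1
  have hpm' : ∀ i j : ℕ, a ^ (k ^ i) ≠ (a ^ (k ^ j))⁻¹ := by
    intro i j hij
    have h1 : a ^ (k ^ i + k ^ j) = a ^ 0 := by
      rw [pow_add, hij, inv_mul_cancel₀ (pow_ne_zero _ ha0), pow_zero]
    have h2 := modEq_of_pow_eq ha0 h1
    rw [horder, ← ZMod.natCast_eq_natCast_iff] at h2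
    push_cast at h2
    have h3 : (k : ZMod s) ^ i = - (k : ZMod s) ^ j := eq_neg_of_add_eq_zero_left h2
    have h4 : ((k : ZMod s) ^ i) ^ n = (- (k : ZMod s) ^ j) ^ n := by rw [h3]
    rw [hnodd.neg_pow, ← pow_mul, ← pow_mul, mul_comm i, mul_comm j, pow_mul, pow_mul, hkn, one_pow, one_pow] at h4
    exact zmod_two_ne hs hs2 h4
  have hinj : Function.Injective g := by
    have hlt : ∀ i j : Fin n, (k : ZMod s) ^ (i : ℕ) = (k : ZMod s) ^ (j : ℕ) → i = j := by
      intro i j hij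
      have h1 : (i : ℕ) < orderOf (k : ZMod s) := by rw [hk]; exact i.2
      have h2 : (j : ℕ) < orderOf (k : ZMod s) := by rw [hk]; exact j.2
      exact Fin.ext (pow_injOn_Iio_orderOf h1 h2 hij)
    rintro ⟨i, b⟩ ⟨j, b'⟩ hij
    cases b <;> cases b' <;> simp only [g, Bool.false_eq_true, if_false, if_true] at hij
    · rw [_root_.inv_inj] at hij
      rw [hlt i j (hpm _ _ hij)]
    · exact absurd hij.symm (hpm' _ _)
    · exact absurd hij (hpm' _ _)
    · rw [hlt i j (hpm _ _ hij)]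
  have hmem : ∀ x, g x ∈ eig A := by
    rintro ⟨i, b⟩
    cases b <;> simp only [g, Bool.false_eq_true, if_false, if_true]
    · exact eig_inv hJ hAJ (hiter _ a ha)
    · exact hiter _ a ha
  have hcard : Fintype.card (Fin n × Bool) ≤ (eig A).card := by
    rw [← Finset.card_univ]
    exact Finset.card_le_card_of_injOn g (fun x _ => hmem x) (hinj.injOn)
  have h5 := hcard.trans (card_eig_le A)
  simp only [Fintype.card_prod, Fintype.card_fin, Fintype.card_bool] at h5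
  omega

end Cfsg.Agent.H872.AutEig
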