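import Mathlib
import Cfsg.Agent.H872.AutEig

/-!
# Projective matrix representations and automisers (helper872)

`Proj G K ι P` : `G` is the quotient of a group of matrices satisfying `P` by its scalars.

* `Proj.le` : an element of prime order `s ≠ char K` conjugate to its `k`-th power, `k` of prime order `n` mod `s`:
  `n ≤ card ι`;
* `Proj.two_mul_le` : with an invariant form `2 n ≤ card ι`;
* `Proj.card_lt` : the order of an element is less than `|K| ^ card ι`;
* `Proj.unip` : an element of order `r ^ j`, `r = char K`: `r ^ (j - 1) < card ι`.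
-/

set_option autoImplicit false

namespace Cfsg.Agent.H872

open Matrix

universe u

/-- `G` is a group of matrices satisfying `P`, modulo its scalars -/
def Proj (G : Type u) [Group G] (K : Type) [Field K] (ι : Type) [Fintype ι] [DecidableEq ι]
    (P : Matrix ι ι K → Prop) : Prop :=
  ∃ (H : Type) (_ : Group H) (ρ : H →* GL ι K) (π : H →* G), Function.Surjective π ∧
    (∀ z, π z = 1 ↔ ∃ c : K, ((ρ z : GL ι K) : Matrix ι ι K) = c • 1) ∧ ∀ z, P ((ρ z : GL ι K) : Matrix ι ι K)

variable {G : Type u} [Group G] {K : Type} [Field K] {ι : Type} [Fintype ι] [DecidableEq ι]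
  {P : Matrix ι ι K → Prop}

theorem Proj.of_equiv {G' : Type*} [Group G'] (h : Proj G K ι P) (e : G' ≃* G) : Proj G' K ι P := by
  obtain ⟨H, _, ρ, π, h1, h2, h3⟩ := h
  refine ⟨H, inferInstance, ρ, e.symm.toMonoidHom.comp π, e.symm.surjective.comp h1, fun z => ?_, h3⟩
  rw [← h2]
  simp

omit [Fintype ι] in
theorem scalar_descend [Nonempty ι] {L : Type*} [Field L] (f : K →+* L) {A : Matrix ι ι K} {a : L}
    (h : A.map f = a • 1) : ∃ c : K, A = c • 1 := by
  obtain ⟨i0⟩ := (inferInstance : Nonempty ι)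
  refine ⟨A i0 i0, ?_⟩
  ext i j
  have h1 := congrFun (congrFun h i) j
  have h0 := congrFun (congrFun h i0) i0
  simp only [map_apply, Matrix.smul_apply, smul_eq_mul, one_apply] at h1 h0 ⊢
  by_cases hij : i = j
  · subst hij
    rw [if_pos rfl, mul_one] at h1 ⊢
    rw [if_pos trivial, mul_one] at h0
    exact f.injective (h1.trans h0.symm)
  · rw [if_neg hij, mul_zero] at h1 ⊢
    exact (map_eq_zero f).1 h1

theorem coe_scalar_ne_zero [Nonempty ι] {A : GL ι K} {c : K} (h : (A : Matrix ι ι K) = c • 1) : c ≠ 0 := by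
  rintro rfl
  rw [zero_smul] at h
  have := A.isUnit
  rw [h] at this
  exact not_isUnit_zero this

/-- the basic relations of lifts -/
theorem lift_rel [Nonempty ι] {H : Type} [Group H] {ρ : H →* GL ι K} {π : H →* G}
    (h2 : ∀ z, π z = 1 ↔ ∃ c : K, ((ρ z : GL ι K) : Matrix ι ι K) = c • 1) {a b : H} {k : ℕ}
    (hab : π b * π a * (π b)⁻¹ = π a ^ k) : ∃ z : K, z ≠ 0 ∧
      ((ρ b : GL ι K) : Matrix ι ι K) * ρ a * ((ρ b)⁻¹ : GL ι K) = z • ((ρ a : GL ι K) : Matrix ι ι K) ^ k := by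
  have h3 : π (b * a * b⁻¹ * (a ^ k)⁻¹) = 1 := by
    rw [map_mul, map_mul, map_mul, map_inv, map_inv, map_pow, hab, mul_inv_cancel]
  obtain ⟨c, hc⟩ := (h2 _).1 h3
  refine ⟨c, coe_scalar_ne_zero hc, ?_⟩
  have h4 : ρ b * ρ a * (ρ b)⁻¹ = ρ (b * a * b⁻¹ * (a ^ k)⁻¹) * (ρ a) ^ k := by
    rw [← map_pow, ← map_mul]
    simp
  have h5 := congrArg (fun g : GL ι K => (g : Matrix ι ι K)) h4
  simp only [Units.val_mul, Units.val_pow_eq_pow_val] at h5
  rw [hc, smul_mul_assoc, one_mul] at h5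
  exact h5

theorem Proj.le [Nonempty ι] (h : Proj G K ι P) {x g : G} {s n k : ℕ} (hs : s.Prime) (hsK : (s : K) ≠ 0)
    (hx : orderOf x = s) (hn : n.Prime) (hk : orderOf (k : ZMod s) = n) (hg : g * x * g⁻¹ = x ^ k) :
    n ≤ Fintype.card ι := by
  by_contra hcon
  rw [not_le] at hcon
  obtain ⟨H, _, ρ, π, h1, h2, h3⟩ := h
  obtain ⟨a, ha⟩ := h1 x
  obtain ⟨b, hb⟩ := h1 g
  obtain ⟨z, hz, hzr⟩ := lift_rel (k := k) h2 (a := a) (b := b) (by rw [ha, hb, hg])
  obtain ⟨c, hc⟩ := (h2 (a ^ s)).1 (by rw [map_pow, ha, ← hx, pow_orderOf_eq_one])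
  have hc0 := coe_scalar_ne_zero hc
  rw [map_pow, Units.val_pow_eq_pow_val] at hc
  let L := AlgebraicClosure K
  let f : K →+* L := algebraMap K L
  let M : Matrix ι ι K →+* Matrix ι ι L := f.mapMatrix
  have hMs : ∀ t : K, M (t • 1) = f t • 1 := by
    intro t
    ext i j
    by_cases hij : i = j
    · subst hij; simp [M, f]
    · simp [M, f, one_apply, hij]
  have hMsm : ∀ (t : K) (X : Matrix ι ι K), M (t • X) = f t • M X := by
    intro t X
    ext i j
    simp [M, f]
  obtain ⟨a', ha'⟩ := AutEig.scalar_of_auto (L := L) (A := M (ρ a : GL ι K)) (B := Units.map M.toMonoidHom (ρ b)) (c := f c)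
    (z := f z) hs (by
      intro h0
      apply hsK
      have : f (s : K) = 0 := by rw [map_natCast]; exact h0
      exact (map_eq_zero f).1 this) hn hk ((map_ne_zero f).2 hc0) (by
      rw [← map_pow, hc, hMs]) ((map_ne_zero f).2 hz) (by
      have := congrArg M hzr
      rw [map_mul, map_mul, hMsm, map_pow] at this
      exact this) hcon
  obtain ⟨c', hc'⟩ := scalar_descend f ha'
  have h4 := (h2 a).2 ⟨c', hc'⟩
  rw [ha] at h4
  rw [h4, orderOf_one] at hx
  exact hs.one_lt.ne hx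

/-- preserving a form with the Gram matrix `J` -/
def FormP (J : Matrix ι ι K) (A : Matrix ι ι K) : Prop := Aᵀ * J * A = J

theorem Proj.two_mul_le [Nonempty ι] {J : Matrix ι ι K} (hJ : J.det ≠ 0) (h : Proj G K ι (FormP J)) {x g : G}
    {s n k : ℕ} (hs : s.Prime) (hs2 : s ≠ 2) (hsK : (s : K) ≠ 0)
    (hx : orderOf x = s) (hn : n.Prime) (hn2 : n ≠ 2) (hk : orderOf (k : ZMod s) = n) (hg : g * x * g⁻¹ = x ^ k) :
    2 * n ≤ Fintype.card ι := by
  obtain ⟨H, _, ρ, π, h1, h2, h3⟩ := h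
  obtain ⟨a0, ha0⟩ := h1 x
  obtain ⟨b, hb⟩ := h1 g
  have hJ0 : J ≠ 0 := by
    rintro rfl
    exact hJ (det_zero)
  have hsc : ∀ (y : H) (c : K), ((ρ y : GL ι K) : Matrix ι ι K) = c • 1 → c * c = 1 := by
    intro y c hc
    have h4 := h3 y
    unfold FormP at h4
    rw [hc, transpose_smul, transpose_one, smul_mul_assoc, one_mul, Matrix.mul_smul, mul_one, smul_smul] at h4
    have h5 : (c * c) • J = (1 : K) • J := by rw [h4, one_smul]
    exact smul_left_injective K hJ0 h5
  -- the square of the lift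
  obtain ⟨a, haa⟩ : ∃ a, a = a0 ^ 2 := ⟨_, rfl⟩
  have hpa : π a = x ^ 2 := by rw [haa, map_pow, ha0]
  have hxs : x ^ s = 1 := by rw [← hx, pow_orderOf_eq_one]
  have hAs : ((ρ a : GL ι K) : Matrix ι ι K) ^ s = 1 := by
    obtain ⟨c, hc⟩ := (h2 (a0 ^ s)).1 (by rw [map_pow, ha0, hxs])
    have hc2 := hsc _ _ hc
    have h4 : a ^ s = a0 ^ s * a0 ^ s := by rw [haa, ← pow_mul, ← pow_add]; congr 1; ring
    have h5 : ((ρ a : GL ι K) : Matrix ι ι K) ^ s = ((ρ (a0 ^ s) : GL ι K) : Matrix ι ι K) * ρ (a0 ^ s) := by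
      rw [← Units.val_pow_eq_pow_val, ← map_pow, h4, map_mul, Units.val_mul]
    rw [h5, hc, smul_mul_smul_comm, hc2, one_smul, one_mul]
  have hA1 : ((ρ a : GL ι K) : Matrix ι ι K) ≠ 1 := by
    intro h0
    have h4 := (h2 a).2 ⟨1, by rw [h0, one_smul]⟩
    rw [hpa] at h4
    have h5 := orderOf_dvd_of_pow_eq_one h4
    rw [hx] at h5
    exact hs2 ((Nat.prime_dvd_prime_iff_eq hs Nat.prime_two).1 h5)
  have hBA : ((ρ b : GL ι K) : Matrix ι ι K) * ρ a * ((ρ b)⁻¹ : GL ι K) = ((ρ a : GL ι K) : Matrix ι ι K) ^ k := by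
    have h3' : π (b * a0 * b⁻¹ * (a0 ^ k)⁻¹) = 1 := by
      rw [map_mul, map_mul, map_mul, map_inv, map_inv, map_pow, ha0, hb, hg, mul_inv_cancel]
    obtain ⟨c, hc⟩ := (h2 _).1 h3'
    have hc2 := hsc _ _ hc
    have h4 : b * a0 * b⁻¹ = (b * a0 * b⁻¹ * (a0 ^ k)⁻¹) * a0 ^ k := by simp
    have h6 : ((ρ (b * a0 * b⁻¹) : GL ι K) : Matrix ι ι K) = c • ((ρ (a0 ^ k) : GL ι K) : Matrix ι ι K) := by
      rw [h4, map_mul, Units.val_mul, hc, smul_mul_assoc, one_mul]
    have h7 : b * a * b⁻¹ = (b * a0 * b⁻¹) * (b * a0 * b⁻¹) := by rw [haa, pow_two]; group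
    have h8 : ((ρ (b * a * b⁻¹) : GL ι K) : Matrix ι ι K) = ((ρ (a ^ k) : GL ι K) : Matrix ι ι K) := by
      rw [h7, map_mul, Units.val_mul, h6, smul_mul_smul_comm, hc2, one_smul, ← Units.val_mul, ← map_mul]
      congr 2
      rw [haa, ← pow_mul, ← pow_add]
      congr 1; ring
    rw [map_mul, map_mul, Units.val_mul, Units.val_mul, map_inv, map_pow, Units.val_pow_eq_pow_val] at h8
    exact h8
  let L := AlgebraicClosure K
  let f : K →+* L := algebraMap K L
  let M : Matrix ι ι K →+* Matrix ι ι L := f.mapMatrix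
  have hMinj : Function.Injective M := by
    intro X Y hXY
    ext i j
    exact f.injective (congrFun (congrFun hXY i) j)
  refine AutEig.two_mul_le_of_form (L := L) (A := M (ρ a : GL ι K)) (B := Units.map M.toMonoidHom (ρ b)) (J := M J)
    hs hs2 (by
      intro h0
      apply hsK
      have : f (s : K) = 0 := by rw [map_natCast]; exact h0
      exact (map_eq_zero f).1 this) hn hn2 hk ?_ ?_ ?_ ?_ ?_
  · rw [← map_pow, hAs, map_one]
  · intro h0
    exact hA1 (hMinj (by rw [h0, map_one]))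
  · have := congrArg M hBA
    rw [map_mul, map_mul, map_pow] at this
    exact this
  · have : (M J).det = f J.det := (RingHom.map_det f J).symm
    rw [this]
    exact (map_ne_zero f).2 hJ
  · have h4 := h3 a
    unfold FormP at h4
    have h5 : (M (ρ a : GL ι K))ᵀ = M ((ρ a : GL ι K) : Matrix ι ι K)ᵀ := rfl
    rw [h5, ← map_mul, ← map_mul, h4]

/-! ### orders of elements -/

/-- the powers of a matrix lie in a space of dimension at most `card ι` -/
theorem orderOf_lt [Finite K] [Nonempty ι] (A : GL ι K) : orderOf A < Nat.card K ^ Fintype.card ι := by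
  classical
  have : Fintype K := Fintype.ofFinite K
  let M : Matrix ι ι K := A
  let S : Submodule K (Matrix ι ι K) := Submodule.span K (Set.range fun i : Fin (Fintype.card ι) => M ^ (i : ℕ))
  have hpow : ∀ m : ℕ, M ^ m ∈ S := by
    have hdeg : ∀ p : Polynomial K, p.degree < Fintype.card ι → Polynomial.aeval M p ∈ S := by
      intro p hp
      rw [Polynomial.aeval_eq_sum_range' (n := Fintype.card ι) (by
        rcases eq_or_ne p 0 with rfl | h0
        · simp [Fintype.card_pos]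
        · exact (Polynomial.natDegree_lt_iff_degree_lt h0).2 hp)]
      refine Submodule.sum_mem _ fun i hi => Submodule.smul_mem _ _ (Submodule.subset_span ?_)
      exact ⟨⟨i, Finset.mem_range.1 hi⟩, rfl⟩
    intro m
    have h1 := Polynomial.modByMonic_add_div (Polynomial.X ^ m : Polynomial K) M.charpoly
    have h2 : Polynomial.aeval M ((Polynomial.X ^ m : Polynomial K) %ₘ M.charpoly) = M ^ m := by
      have h3 := congrArg (Polynomial.aeval M) h1
      rw [map_add, map_mul, aeval_self_charpoly, zero_mul, add_zero, map_pow, Polynomial.aeval_X] at h3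
      exact h3
    rw [← h2]
    apply hdeg
    have h3 := Polynomial.degree_modByMonic_lt (Polynomial.X ^ m : Polynomial K) M.charpoly_monic
    rwa [charpoly_degree_eq_dim] at h3
  have hS : Nat.card S ≤ Nat.card K ^ Fintype.card ι := by
    rw [Module.natCard_eq_pow_finrank (K := K) (V := S)]
    apply Nat.pow_le_pow_right Nat.card_pos
    have := finrank_range_le_card (R := K) (fun i : Fin (Fintype.card ι) => M ^ (i : ℕ))
    rwa [Fintype.card_fin] at this
  have hfin : Finite S := inferInstance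
  let g : Option (Fin (orderOf A)) → S := fun x => match x with
    | none => 0
    | some i => ⟨M ^ (i : ℕ), hpow i⟩
  have hne : ∀ m : ℕ, M ^ m ≠ 0 := by
    intro m h0
    have h1 : IsUnit (M ^ m) := (A.isUnit.pow m)
    rw [h0] at h1
    exact not_isUnit_zero h1
  have hg : Function.Injective g := by
    intro x y hxy
    match x, y with
    | none, none => rfl
    | none, some j =>
      exact absurd (congrArg Subtype.val hxy).symm (hne _)
    | some i, none =>
      exact absurd (congrArg Subtype.val hxy) (hne _)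
    | some i, some j =>
      have h1 : M ^ (i : ℕ) = M ^ (j : ℕ) := congrArg Subtype.val hxy
      have h2 : A ^ (i : ℕ) = A ^ (j : ℕ) := Units.ext (by simpa using h1)
      rw [Fin.ext (pow_injOn_Iio_orderOf (Set.mem_Iio.2 i.2) (Set.mem_Iio.2 j.2) h2)]
  have h1 := Nat.card_le_card_of_injective g hg
  rw [Finite.card_option, Nat.card_fin] at h1
  omega

theorem Proj.card_lt [Finite K] [Nonempty ι] (h : Proj G K ι P) (x : G) :
    orderOf x < Nat.card K ^ Fintype.card ι := by
  obtain ⟨H, _, ρ, π, h1, h2, h3⟩ := h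
  obtain ⟨a, rfl⟩ := h1 x
  refine lt_of_le_of_lt ?_ (orderOf_lt (ρ a))
  apply Nat.le_of_dvd (orderOf_pos _)
  apply orderOf_dvd_of_pow_eq_one
  rw [← map_pow, h2]
  refine ⟨1, ?_⟩
  rw [map_pow, pow_orderOf_eq_one, one_smul, Units.val_one]

/-- `A ^ (r ^ m) = 1` and `card ι ≤ r ^ j` imply `A ^ (r ^ j) = 1` in characteristic `r`. -/
theorem pow_eq_one_of_unip {r : ℕ} [Fact r.Prime] [CharP K r] {A : Matrix ι ι K} {m j : ℕ}
    (h : A ^ (r ^ m) = 1) (hj : Fintype.card ι ≤ r ^ j) : A ^ (r ^ j) = 1 := by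
  rcases isEmpty_or_nonempty ι with hι | hι
  · exact Subsingleton.elim _ _
  have hc : CharP (Matrix ι ι K) r := Matrix.charP r
  have h1 : (A - 1) ^ (r ^ m) = 0 := by
    rw [sub_pow_char_pow_of_commute r m (Commute.one_right A), h, one_pow, sub_self]
  have h2 : IsNilpotent (A - 1) := ⟨_, h1⟩
  have h3 : (A - 1) ^ Fintype.card ι = 0 := by
    have h4 := (Matrix.isNilpotent_charpoly_sub_pow_of_isNilpotent h2)
    have h5 : (A - 1).charpoly = Polynomial.X ^ Fintype.card ι := by
      have := h4.eq_zero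
      rwa [sub_eq_zero] at this
    have h6 := aeval_self_charpoly (A - 1)
    rwa [h5, map_pow, Polynomial.aeval_X] at h6
  have h4 : (A - 1) ^ (r ^ j) = 0 := pow_eq_zero_of_le hj h3
  rw [sub_pow_char_pow_of_commute r j (Commute.one_right A), one_pow, sub_eq_zero] at h4
  exact h4

/-- elements of `r`-power order in characteristic `r` -/
theorem Proj.unip [Finite K] [Nonempty ι] {r : ℕ} [hr : Fact r.Prime] [CharP K r] (h : Proj G K ι P) {x : G} {j : ℕ}
    (hx : orderOf x = r ^ j) {t : ℕ} (ht : Fintype.card ι ≤ r ^ t) : j ≤ t := by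
  obtain ⟨H, _, ρ, π, h1, h2, h3⟩ := h
  obtain ⟨a, rfl⟩ := h1 x
  -- the `r`-part of the lift
  set o := orderOf (ρ a) with ho
  have ho0 : o ≠ 0 := (orderOf_pos _).ne'
  obtain ⟨e, o', ho', hoe⟩ := Nat.exists_eq_pow_mul_and_not_dvd ho0 r hr.out.ne_one
  have hcop : (r ^ j).Coprime o' := Nat.Coprime.pow_left _ ((Nat.Prime.coprime_iff_not_dvd hr.out).2 ho')
  have h4 : ((ρ (a ^ o') : GL ι K) : Matrix ι ι K) ^ (r ^ e) = 1 := by
    rw [map_pow, ← Units.val_pow_eq_pow_val, ← pow_mul, mul_comm o', ← hoe, ho, pow_orderOf_eq_one, Units.val_one]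
  have h5 := pow_eq_one_of_unip h4 ht
  have h6 : π ((a ^ o') ^ (r ^ t)) = 1 := by
    rw [h2]
    refine ⟨1, ?_⟩
    rw [map_pow, Units.val_pow_eq_pow_val, h5, one_smul]
  rw [map_pow, map_pow, ← pow_mul] at h6
  have h7 := orderOf_dvd_of_pow_eq_one h6
  rw [hx] at h7
  have h8 := (hcop.dvd_of_dvd_mul_left h7)
  exact (Nat.pow_dvd_pow_iff_le_right hr.out.one_lt).1 h8

end Cfsg.Agent.H872
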