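import Mathlib
import Cfsg.Agent.S0588
import Cfsg.Agent.H872.AutLin

/-!
# Self-centralising cyclic subgroups with automiser of prime order (helper872)

`Auto G C n` : `C` is cyclic of odd order `> 10 n`, contains the centralisers of its nonidentity elements, and
`N_G(C) / C` has prime order `n ≥ 11`, generated by an element acting on each prime order subgroup with order `n`.
-/

set_option autoImplicit false

namespace Cfsg.Agent.H872

open Subgroup

/-- a self-centralising cyclic subgroup with automiser of prime order `n` -/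
structure Auto (G : Type*) [Group G] (C : Subgroup G) (n : ℕ) : Prop where
  prime : n.Prime
  ge : 11 ≤ n
  cyc : IsCyclic C
  cc : ∀ x ∈ C, x ≠ 1 → centralizer ({x} : Set G) ≤ C
  odd : Odd (Nat.card C)
  big : 10 * n < Nat.card C
  act : ∃ g : G, ∃ k : ℕ, (∀ x ∈ C, g * x * g⁻¹ = x ^ k) ∧
    ∀ s : ℕ, s.Prime → s ∣ Nat.card C → orderOf (k : ZMod s) = n
  nrm : Nat.card (normalizer (C : Set G)) = n * Nat.card C

variable {G : Type*} [Group G] {C : Subgroup G} {n : ℕ}

theorem Auto.congr {H : Type*} [Group H] (e : G ≃* H) (h : Auto G C n) : Auto H (C.map e.toMonoidHom) n := by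
  have hc : Nat.card (C.map e.toMonoidHom) = Nat.card C :=
    (Nat.card_congr (C.equivMapOfInjective e.toMonoidHom e.injective).toEquiv).symm
  have := h.cyc
  refine ⟨h.prime, h.ge, ?_, ?_, by rw [hc]; exact h.odd, by rw [hc]; exact h.big, ?_, ?_⟩
  · exact (C.equivMapOfInjective e.toMonoidHom e.injective).isCyclic.1 inferInstance
  · rintro _ ⟨x, hx, rfl⟩ hx1 y hy
    rw [mem_centralizer_singleton_iff] at hy
    refine ⟨e.symm y, h.cc x hx ?_ ?_, by simp⟩
    · rintro rfl
      exact hx1 (map_one _)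
    · rw [mem_centralizer_singleton_iff]
      apply e.injective
      simpa using hy
  · obtain ⟨g, k, h1, h2⟩ := h.act
    refine ⟨e g, k, ?_, fun s hs hd => h2 s hs (hc ▸ hd)⟩
    rintro _ ⟨x, hx, rfl⟩
    have := congrArg e (h1 x hx)
    simpa using this
  · rw [hc, ← h.nrm]
    have h1 : normalizer ((C.map e.toMonoidHom : Subgroup H) : Set H) = (normalizer (C : Set G)).map e.toMonoidHom :=
      (map_equiv_normalizer_eq C e).symm
    rw [h1]
    exact (Nat.card_congr ((normalizer (C : Set G)).equivMapOfInjective e.toMonoidHom e.injective).toEquiv).symm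

theorem Auto.ne_bot (h : Auto G C n) : C ≠ ⊥ := by
  rintro rfl
  have := h.big
  rw [card_bot] at this
  have := h.ge
  omega

theorem Auto.two_mul_dvd (h : Auto G C n) {s : ℕ} (hs : s.Prime) (hd : s ∣ Nat.card C) : 2 * n ∣ s - 1 := by
  have : Fact s.Prime := ⟨hs⟩
  obtain ⟨g, k, -, h2⟩ := h.act
  have hk := h2 s hs hd
  have h1 : n ∣ s - 1 := by
    rw [← hk]
    apply ZMod.orderOf_dvd_card_sub_one
    intro h0
    rw [h0, orderOf_zero] at hk
    exact h.prime.ne_zero hk.symm
  have hsodd : Odd s := by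
    rw [← Nat.not_even_iff_odd]
    intro he
    have := (Nat.not_even_iff_odd.2 h.odd)
    exact this (even_iff_two_dvd.2 ((even_iff_two_dvd.1 he).trans hd))
  have h3 : 2 ∣ s - 1 := by
    obtain ⟨m, hm⟩ := hsodd
    exact ⟨m, by omega⟩
  have hn2 : Nat.Coprime 2 n := by
    rw [Nat.coprime_primes Nat.prime_two h.prime]
    have := h.ge
    omega
  exact hn2.mul_dvd_of_dvd_of_dvd h3 h1

theorem Auto.le_prime (h : Auto G C n) {s : ℕ} (hs : s.Prime) (hd : s ∣ Nat.card C) : 2 * n + 1 ≤ s := by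
  have h1 := h.two_mul_dvd hs hd
  have h2 := hs.two_le
  have := Nat.le_of_dvd (by omega) h1
  omega

theorem Auto.exists_prime (h : Auto G C n) : ∃ s : ℕ, s.Prime ∧ s ∣ Nat.card C := by
  apply Nat.exists_prime_and_dvd
  intro h1
  have h2 : 10 * n < 1 := by rw [← h1]; exact h.big
  have h3 : 11 ≤ n := h.ge
  omega

variable [Finite G]

theorem Auto.coprime (h : Auto G C n) : (Nat.card C).Coprime C.index := S0588.result C h.cc

theorem Auto.pow_dvd (h : Auto G C n) {s : ℕ} (hs : s.Prime) (hd : s ∣ Nat.card C) {j : ℕ} (hj : s ^ j ∣ Nat.card G) :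
    s ^ j ∣ Nat.card C := by
  have h1 := h.coprime
  rw [← C.card_mul_index] at hj
  refine Nat.Coprime.dvd_of_dvd_mul_right ?_ hj
  apply Nat.Coprime.pow_left
  rw [hs.coprime_iff_not_dvd]
  intro h2
  have := Nat.dvd_gcd hd h2
  rw [h1] at this
  exact hs.one_lt.ne' (Nat.dvd_one.1 this)

theorem Auto.exists_order (h : Auto G C n) {d : ℕ} (hd : d ∣ Nat.card C) : ∃ x ∈ C, orderOf x = d := by
  have := h.cyc
  obtain ⟨g, hg⟩ := IsCyclic.exists_generator (α := C)
  have hgo : orderOf g = Nat.card C := orderOf_eq_card_of_forall_mem_zpowers hg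
  obtain ⟨e, he⟩ := hd
  have hC0 : Nat.card C ≠ 0 := Nat.card_pos.ne'
  have he0 : e ≠ 0 := by rintro rfl; exact hC0 (by rw [he, mul_zero])
  refine ⟨(g ^ e : C), (g ^ e).2, ?_⟩
  rw [Subgroup.orderOf_coe, orderOf_pow_of_dvd he0 (by rw [hgo, he]; exact Dvd.intro_left _ rfl), hgo, he,
    Nat.mul_div_cancel _ (Nat.pos_of_ne_zero he0)]

theorem Auto.fus (h : Auto G C n) {s : ℕ} (hs : s.Prime) (hd : s ∣ Nat.card C) :
    ∃ x g : G, ∃ k : ℕ, orderOf x = s ∧ g * x * g⁻¹ = x ^ k ∧ orderOf (k : ZMod s) = n := by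
  obtain ⟨x, hx, hxs⟩ := h.exists_order hd
  obtain ⟨g, k, h1, h2⟩ := h.act
  exact ⟨x, g, k, hxs, h1 x hx, h2 s hs hd⟩

omit [Finite G] in
/-- the number of conjugates -/
theorem Auto.card_eq (h : Auto G C n) : ∃ m : ℕ, Nat.card G = n * Nat.card C * m := by
  refine ⟨(normalizer (C : Set G)).index, ?_⟩
  rw [← h.nrm, card_mul_index]

end Cfsg.Agent.H872
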