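import Cfsg.Agent.H872.AutLin
import Cfsg.Agent.ClassicalGeometry.UnitAutBasic
import Cfsg.Agent.LieClassical.OrthCenter
import Cfsg.Agent.LieClassical.OmegaReindex
import Cfsg.Agent.LieClassical.SympCenter

/-!
# The natural projective representations of the simple classical groups (helper872)
-/

set_option autoImplicit false

namespace Cfsg.Agent.H872

open Matrix QuadraticMap

variable {F : Type} [Field F]

theorem eq_smul_one_of_mulVec {ι : Type} [Fintype ι] [DecidableEq ι] {A : Matrix ι ι F} {c : F}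
    (h : ∀ x : ι → F, A *ᵥ x = c • x) : A = c • 1 := by
  apply Matrix.mulVec_injective
  funext x
  rw [Matrix.smul_mulVec, Matrix.one_mulVec]
  exact h x

theorem proj_psl {n : ℕ} : Proj (Matrix.ProjectiveSpecialLinearGroup (Fin n) F) F (Fin n) (fun _ => True) := by
  refine ⟨Matrix.SpecialLinearGroup (Fin n) F, inferInstance, Matrix.SpecialLinearGroup.toGL, QuotientGroup.mk' _,
    QuotientGroup.mk'_surjective _, fun z => ?_, fun _ => trivial⟩
  rw [QuotientGroup.mk'_apply, QuotientGroup.eq_one_iff]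
  constructor
  · intro h
    obtain ⟨r, -, hr⟩ := Matrix.SpecialLinearGroup.mem_center_iff.1 h
    refine ⟨r, ?_⟩
    change z.1 = _
    rw [← hr, Matrix.scalar_apply, Matrix.smul_one_eq_diagonal]
  · rintro ⟨c, hc⟩
    rw [Subgroup.mem_center_iff]
    intro g
    apply Subtype.ext
    change g.1 * z.1 = z.1 * g.1
    have hc' : z.1 = c • 1 := hc
    rw [hc', smul_mul_assoc, one_mul, mul_smul_comm, mul_one]

theorem proj_psu [Fintype F] {n q : ℕ} (hF : Fintype.card F = q ^ 2) (hn : 3 ≤ n) :
    Proj (PSU n F q) F (Fin n) (fun _ => True) := by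
  refine ⟨SU n F q, inferInstance, Matrix.SpecialLinearGroup.toGL.comp (SU n F q).subtype, QuotientGroup.mk' _,
    QuotientGroup.mk'_surjective _, fun z => ?_, fun _ => trivial⟩
  rw [QuotientGroup.mk'_apply, QuotientGroup.eq_one_iff]
  constructor
  · intro h
    obtain ⟨c, -, hc⟩ := ClassicalGeometry.UnitAutBasic.exists_scalar_of_mem_center hF hn h
    exact ⟨c, eq_smul_one_of_mulVec hc⟩
  · rintro ⟨c, hc⟩
    rw [Subgroup.mem_center_iff]
    intro g
    apply Subtype.ext
    apply Subtype.ext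
    change g.1.1 * z.1.1 = z.1.1 * g.1.1
    have hc' : z.1.1 = c • 1 := hc
    rw [hc', smul_mul_assoc, one_mul, mul_smul_comm, mul_one]

/-- symplectic matrices as invertible matrices -/
def spToGL (m : ℕ) : symplecticGroup (Fin m) F →* GL (Fin m ⊕ Fin m) F :=
  MonoidHom.toHomUnits (symplecticGroup (Fin m) F).subtype

theorem coe_spToGL {m : ℕ} (A : symplecticGroup (Fin m) F) : ((spToGL m A : GL _ F) : Matrix _ _ F) = A.1 := rfl

theorem proj_psp {m : ℕ} : Proj (PSp m F) F (Fin m ⊕ Fin m) (FormP (Matrix.J (Fin m) F)) := by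
  refine ⟨symplecticGroup (Fin m) F, inferInstance, spToGL m, QuotientGroup.mk' _,
    QuotientGroup.mk'_surjective _, fun z => ?_, fun z => ?_⟩
  · rw [QuotientGroup.mk'_apply, QuotientGroup.eq_one_iff, LieClassical.SympCenter.mem_center_iff]
    rfl
  · exact SymplecticGroup.mem_iff'.1 z.2

/-! ### orthogonal groups -/

variable {ι : Type} [Fintype ι] [DecidableEq ι]

/-- the Gram matrix -/
noncomputable def gram (Q : QuadraticForm F (ι → F)) : Matrix ι ι F :=
  Matrix.of fun i j => polar Q (Pi.single i 1) (Pi.single j 1)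

theorem dot_gram (Q : QuadraticForm F (ι → F)) (u v : ι → F) : u ⬝ᵥ (gram Q *ᵥ v) = polar Q u v := by
  have hu : u = ∑ i, u i • (Pi.single i 1 : ι → F) := by
    ext j
    simp [Finset.sum_apply, Pi.single_apply]
  have hv : v = ∑ i, v i • (Pi.single i 1 : ι → F) := by
    ext j
    simp [Finset.sum_apply, Pi.single_apply]
  have h1 : polar Q u v = ∑ i, ∑ j, u i * (v j * polar Q (Pi.single i 1) (Pi.single j 1)) := by
    conv_lhs => rw [hu, hv]
    rw [← polarBilin_apply_apply, map_sum, Finset.sum_comm]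
    refine Finset.sum_congr rfl fun j _ => ?_
    rw [map_sum, LinearMap.sum_apply]
    refine Finset.sum_congr rfl fun i _ => ?_
    rw [map_smul, map_smul, LinearMap.smul_apply, polarBilin_apply_apply, smul_eq_mul, smul_eq_mul]
    ring
  rw [h1]
  simp only [dotProduct, mulVec, gram, Matrix.of_apply, Finset.mul_sum]
  refine Finset.sum_congr rfl fun i _ => Finset.sum_congr rfl fun j _ => ?_
  ring

theorem ext_dot {M N : Matrix ι ι F} (h : ∀ u v : ι → F, u ⬝ᵥ (M *ᵥ v) = u ⬝ᵥ (N *ᵥ v)) : M = N := by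
  ext i j
  have := h (Pi.single i 1) (Pi.single j 1)
  simpa using this

theorem det_gram {Q : QuadraticForm F (ι → F)} (hQ : (polarBilin Q).Nondegenerate) : (gram Q).det ≠ 0 := by
  intro h0
  obtain ⟨v, hv, hv0⟩ := exists_mulVec_eq_zero_iff.2 h0
  apply hv
  have h1 : ∀ u, polarBilin Q u v = 0 := by
    intro u
    rw [polarBilin_apply_apply, ← dot_gram, hv0, dotProduct_zero]
  exact hQ.2 v h1

theorem proj_pomega {Q : QuadraticForm F (ι → F)} (hQ : (polarBilin Q).Nondegenerate) (hn : 3 ≤ Fintype.card ι)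
    (hs : ∃ u : ι → F, u ≠ 0 ∧ Q u = 0) : Proj (POmega F (⇑Q)) F ι (FormP (gram Q)) := by
  refine ⟨Omega F (⇑Q), inferInstance, (isometryGroup F (⇑Q)).subtype.comp (Omega F (⇑Q)).subtype,
    QuotientGroup.mk' _, QuotientGroup.mk'_surjective _, fun z => ?_, fun z => ?_⟩
  · rw [QuotientGroup.mk'_apply, QuotientGroup.eq_one_iff]
    constructor
    · intro h
      rcases (LieClassical.OrthCenter.mem_center_omega_iff hQ hn hs z).1 h with h1 | h1
      · exact ⟨1, by rw [one_smul]; exact h1⟩
      · exact ⟨-1, by rw [neg_smul, one_smul]; exact h1⟩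
    · rintro ⟨c, hc⟩
      rw [Subgroup.mem_center_iff]
      intro g
      apply Subtype.ext
      apply Subtype.ext
      apply Units.ext
      have hc' : ((z.1.1 : GL ι F) : Matrix ι ι F) = c • 1 := hc
      change ((g.1.1 : GL ι F) : Matrix ι ι F) * ((z.1.1 : GL ι F) : Matrix ι ι F) =
        ((z.1.1 : GL ι F) : Matrix ι ι F) * ((g.1.1 : GL ι F) : Matrix ι ι F)
      rw [hc', smul_mul_assoc, one_mul, mul_smul_comm, mul_one]
  · unfold FormP
    apply ext_dot
    intro u v
    have h1 := LieClassical.OrthCenter.polar_act z.1 u v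
    rw [← dot_gram, ← dot_gram] at h1
    rw [← h1, ← mulVec_mulVec, ← mulVec_mulVec, dotProduct_mulVec, vecMul_transpose]
    rfl

end Cfsg.Agent.H872
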