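import Mathlib
import Cfsg.Agent.H872.AutBasic
import Cfsg.Agent.H872.AutClass
import Cfsg.Agent.H436.Names

/-!
# `Auto` subgroups of classical groups: the dimension is at least `n` (helper872)
-/

set_option autoImplicit false

namespace Cfsg.Agent.H872

open Subgroup Cfsg Cfsg.Agent.OrdDiv Cfsg.Agent.H436

universe u

variable {G : Type u} [Group G] [Finite G] {C : Subgroup G} {n : ℕ}

/-- `card C` is a power of `r` if all its prime divisors are `r` -/
theorem Auto.card_pow (_h : Auto G C n) {r : ℕ} (hall : ∀ s : ℕ, s.Prime → s ∣ Nat.card C → s = r) :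
    ∃ j, Nat.card C = r ^ j :=
  ⟨_, Nat.eq_prime_pow_of_unique_prime_dvd Nat.card_pos.ne' (fun {d} h1 h2 => hall d h1 h2)⟩

theorem Auto.exists_gen (h : Auto G C n) : ∃ x ∈ C, orderOf x = Nat.card C :=
  h.exists_order dvd_rfl

/-- there is a prime divisor of `card C` different from the characteristic -/
theorem Auto.exists_ne (h : Auto G C n) {r N : ℕ} [hr : Fact r.Prime] {K : Type} [Field K] [Finite K] [CharP K r]
    {ι : Type} [Fintype ι] [DecidableEq ι] [Nonempty ι] {P : Matrix ι ι K → Prop} (hp : Proj G K ι P)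
    (hN : r ^ N ∣ Nat.card G) (hN1 : 1 ≤ N) (hd : Fintype.card ι ≤ 23 ^ (N - 1)) :
    ∃ s : ℕ, s.Prime ∧ s ∣ Nat.card C ∧ s ≠ r := by
  by_contra hcon
  push Not at hcon
  obtain ⟨s, hs, hsd⟩ := h.exists_prime
  have hsr := hcon s hs hsd
  subst hsr
  obtain ⟨j, hj⟩ := h.card_pow hcon
  obtain ⟨x, hx, hxo⟩ := h.exists_gen
  have h23 : 23 ≤ s := by
    have := h.le_prime hs hsd
    have := h.ge
    omega
  have h1 : j ≤ N - 1 := hp.unip (hxo.trans hj) (hd.trans (Nat.pow_le_pow_left h23 _))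
  have h2 : s ^ N ∣ s ^ j := by
    rw [← hj]
    exact h.pow_dvd hs hsd hN
  have h3 := (Nat.pow_dvd_pow_iff_le_right hs.one_lt).1 h2
  omega

/-- the general dimension bound -/
theorem Auto.dim_le (h : Auto G C n) {Q N : ℕ} {K : Type} [Field K] [Finite K] {e : ℕ} (he : e ≠ 0)
    (hK : Nat.card K = Q ^ e) {ι : Type} [Fintype ι] [DecidableEq ι] [Nonempty ι] {P : Matrix ι ι K → Prop}
    (hp : Proj G K ι P)
    (hN : Q ^ N ∣ Nat.card G) (hN1 : 1 ≤ N) (hd : Fintype.card ι ≤ 23 ^ (N - 1)) : n ≤ Fintype.card ι := by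
  obtain ⟨r, hrK⟩ := CharP.exists K
  have hr : Fact r.Prime := ⟨(CharP.char_is_prime_or_zero K r).resolve_right (CharP.char_ne_zero_of_finite K r)⟩
  have hrQ : r ∣ Q := by
    apply hr.out.dvd_of_dvd_pow (n := e)
    rw [← hK]
    have := Fintype.ofFinite K
    rw [Nat.card_eq_fintype_card]
    obtain ⟨f, -, hf⟩ := FiniteField.card K r
    rw [hf]
    exact dvd_pow_self r f.ne_zero
  obtain ⟨s, hs, hsd, hsr⟩ := h.exists_ne hp ((pow_dvd_pow_of_dvd hrQ N).trans hN) hN1 hd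
  obtain ⟨x, g, k, h1, h2, h3⟩ := h.fus hs hsd
  refine hp.le hs ?_ h1 h.prime h3 h2
  intro h0
  have := (CharP.cast_eq_zero_iff K r s).1 h0
  exact hsr ((Nat.prime_dvd_prime_iff_eq hr.out hs).1 this).symm

/-- the general dimension bound, with a form -/
theorem Auto.two_mul_dim_le (h : Auto G C n) {Q N : ℕ} {K : Type} [Field K] [Finite K]
    (hK : Nat.card K = Q) {ι : Type} [Fintype ι] [DecidableEq ι] [Nonempty ι] {J : Matrix ι ι K} (hJ : J.det ≠ 0)
    (hp : Proj G K ι (FormP J))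
    (hN : Q ^ N ∣ Nat.card G) (hN1 : 1 ≤ N) (hd : Fintype.card ι ≤ 23 ^ (N - 1)) : 2 * n ≤ Fintype.card ι := by
  obtain ⟨r, hrK⟩ := CharP.exists K
  have hr : Fact r.Prime := ⟨(CharP.char_is_prime_or_zero K r).resolve_right (CharP.char_ne_zero_of_finite K r)⟩
  have hrQ : r ∣ Q := by
    rw [← hK]
    have := Fintype.ofFinite K
    rw [Nat.card_eq_fintype_card]
    obtain ⟨f, -, hf⟩ := FiniteField.card K r
    rw [hf]
    exact dvd_pow_self r f.ne_zero
  obtain ⟨s, hs, hsd, hsr⟩ := h.exists_ne hp ((pow_dvd_pow_of_dvd hrQ N).trans hN) hN1 hd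
  obtain ⟨x, g, k, h1, h2, h3⟩ := h.fus hs hsd
  have hn := h.ge
  have hs2 := h.le_prime hs hsd
  refine hp.two_mul_le hJ hs (by omega) ?_ h1 h.prime (by omega) h3 h2
  intro h0
  have := (CharP.cast_eq_zero_iff K r s).1 h0
  exact hsr ((Nat.prime_dvd_prime_iff_eq hr.out hs).1 this).symm

theorem Auto.card_lt_pow (h : Auto G C n) {K : Type} [Field K] [Finite K]
    {ι : Type} [Fintype ι] [DecidableEq ι] [Nonempty ι] {P : Matrix ι ι K → Prop}
    (hp : Proj G K ι P) : Nat.card C < Nat.card K ^ Fintype.card ι := by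
  obtain ⟨x, hx, hxo⟩ := h.exists_gen
  rw [← hxo]
  exact hp.card_lt x

/-! ### the order divisibilities -/

theorem dvd_of_cop {d c Q N m : ℕ} (h : d * c = Q ^ N * m) (hcop : d.Coprime Q) : Q ^ N ∣ c :=
  Nat.Coprime.dvd_of_dvd_mul_left (Nat.Coprime.pow_left N hcop.symm) (Dvd.intro _ h.symm)

theorem le_pow_tri {m : ℕ} (hm : 3 ≤ m) : m ≤ 23 ^ (m * (m - 1) / 2 - 1) := by
  have h1 : m - 1 ≤ m * (m - 1) / 2 - 1 + 1 - 1 := by
    have : 2 * m ≤ m * (m - 1) := by
      obtain ⟨t, rfl⟩ : ∃ t, m = t + 3 := ⟨m - 3, by omega⟩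
      have : t + 3 - 1 = t + 2 := by omega
      rw [this]
      nlinarith
    omega
  have h2 : m - 1 ≤ m * (m - 1) / 2 - 1 := by omega
  calc m = (m - 1) + 1 := by omega
    _ ≤ 23 ^ (m - 1) := by
        have := Nat.lt_pow_self (show 1 < 23 by norm_num) (n := m - 1)
        omega
    _ ≤ _ := Nat.pow_le_pow_right (by norm_num) h2

theorem le_pow_aux {m k : ℕ} (hm : 1 ≤ m) (h : m ≤ k) : 2 * m + 1 ≤ 23 ^ k := by
  have h1 := Nat.lt_pow_self (show 1 < 2 by norm_num) (n := m)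
  calc 2 * m + 1 ≤ 2 * 2 ^ m + 2 ^ m := by
        have : 1 ≤ 2 ^ m := Nat.one_le_two_pow
        omega
    _ = 3 * 2 ^ m := by ring
    _ ≤ 23 * 23 ^ (m - 1) := by
        obtain ⟨t, rfl⟩ : ∃ t, m = t + 1 := ⟨m - 1, by omega⟩
        rw [show t + 1 - 1 = t by omega, pow_succ]
        have := Nat.pow_le_pow_left (show 2 ≤ 23 by norm_num) t
        omega
    _ = 23 ^ m := by
        rw [← pow_succ']
        congr 1
        omega
    _ ≤ _ := Nat.pow_le_pow_right (by norm_num) h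

end Cfsg.Agent.H872
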