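import Cfsg.Agent.H872.AutExc
import Cfsg.Agent.H436.Names

/-!
# No `Auto` subgroups in the groups of exceptional Lie type (helper872)

`false_of_exceptional` : no group named `g2, f4, e6, e7, e8, te6, td4, sz, ree, tf4` has an `Auto` subgroup.
-/

set_option autoImplicit false
set_option linter.unusedSectionVars false

namespace Cfsg.Agent.H872

open Subgroup Cfsg Cfsg.Lie Cfsg.Lie.ChevalleyDatum Cfsg.Agent.ChevalleyStructure Cfsg.Agent.ChevalleyStructure.Elts
open Cfsg.Agent.H872.AutWeyl Cfsg.Agent.H436 Cfsg.Agent.OrdDiv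

universe u

theorem orderOf_zmod_one {s n k : ℕ} (hn : n.Prime) (hk : orderOf (k : ZMod s) = n) : ¬ k ≡ 1 [MOD s] := by
  intro h
  have h1 := (ZMod.natCast_eq_natCast_iff _ _ _).2 h
  rw [h1, Nat.cast_one, orderOf_one] at hk
  exact hn.one_lt.ne hk

/-- the bound for linear groups -/
theorem le_of_gl {K : Type} [Field K] {ι : Type} [Fintype ι] [DecidableEq ι] [Nonempty ι] {x g : GL ι K} {s n k : ℕ}
    (hs : s.Prime) (hsK : (s : K) ≠ 0) (hx : orderOf x = s) (hn : n.Prime) (hk : orderOf (k : ZMod s) = n)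
    (hg : g * x * g⁻¹ = x ^ k) : n ≤ Fintype.card ι := by
  by_contra hcon
  rw [not_le] at hcon
  let L := AlgebraicClosure K
  let f : K →+* L := algebraMap K L
  let M : Matrix ι ι K →+* Matrix ι ι L := f.mapMatrix
  have hxs : ((x : GL ι K) : Matrix ι ι K) ^ s = 1 := by
    have h1 : x ^ s = 1 := by rw [← hx]; exact pow_orderOf_eq_one x
    have := congrArg (fun g : GL ι K => (g : Matrix ι ι K)) h1
    simpa using this
  obtain ⟨a', ha'⟩ := AutEig.scalar_of_auto (L := L) (A := M (x : Matrix ι ι K)) (B := Units.map M.toMonoidHom g)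
    (c := 1) (z := 1) hs (by
      intro h0
      apply hsK
      have : f (s : K) = 0 := by rw [map_natCast]; exact h0
      exact (map_eq_zero f).1 this) hn hk one_ne_zero (by
      rw [← map_pow, hxs, map_one, one_smul]) one_ne_zero (by
      have h1 : (g : Matrix ι ι K) * x * (g⁻¹ : GL ι K) = (x : Matrix ι ι K) ^ k := by
        have := congrArg (fun g : GL ι K => (g : Matrix ι ι K)) hg
        simpa using this
      have h2 := congrArg M h1
      rw [map_mul, map_mul, map_pow] at h2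
      rw [one_smul]
      exact h2) hcon
  obtain ⟨c, hc⟩ := scalar_descend f ha'
  have h1 : g * x * g⁻¹ = x := by
    apply Units.ext
    simp only [Units.val_mul]
    rw [hc, Matrix.mul_smul, mul_one, Matrix.smul_mul, ← Units.val_mul, mul_inv_cancel, Units.val_one]
  rw [hg] at h1
  have h2 : x ^ k = x ^ 1 := by rw [pow_one]; exact h1
  have h3 := (pow_eq_pow_iff_modEq).1 h2
  rw [hx] at h3
  exact orderOf_zmod_one hn hk h3

theorem cube_dvd {N d q r a m : ℕ} (hr : r.Prime) (h23 : 23 ≤ r) (hrq : r ∣ q) (ha : 3 ≤ a) (hd0 : 0 < d) (hd : d ≤ 4)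
    (h : d * N = q ^ a * m) : r ^ 3 ∣ N := by
  have h1 : r ^ 3 ∣ d * N := by
    rw [h]
    exact Dvd.dvd.mul_right ((pow_dvd_pow r ha).trans (pow_dvd_pow_of_dvd hrq a)) m
  refine Nat.Coprime.dvd_of_dvd_mul_left ?_ h1
  apply Nat.Coprime.pow_left
  rw [hr.coprime_iff_not_dvd]
  intro h2
  have := Nat.le_of_dvd hd0 h2
  omega

/-- the ten families -/
def IsExc : Grp → Prop
  | .g2 _ => True
  | .f4 _ => True
  | .e6 _ => True
  | .e7 _ => True
  | .e8 _ => True
  | .te6 _ => True
  | .td4 _ => True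
  | .sz _ => True
  | .ree _ => True
  | .tf4 _ => True
  | _ => False

theorem card_le_500 (m n : ℕ) (h : m + n ≤ 500) : Fintype.card (Fin m ⊕ Fin n) ≤ 500 := by
  rwa [Fintype.card_sum, Fintype.card_fin, Fintype.card_fin]

theorem false_of_exceptional {G : Type u} [Group G] [Finite G] {g : Grp} (hg : IsNamed g G) (he : IsExc g)
    {C : Subgroup G} {n : ℕ} (h : Auto G C n) : False := by
  obtain ⟨hr, hc, heq, -⟩ := hg
  cases g with
  | g2 q =>
    obtain ⟨F, _, _, hF, ⟨e⟩⟩ := hr
    refine (h.congr e).false_of_small small_G2 (card_le_500 _ _ (by decide +kernel)) le_rfl fun r hr h23 hrF => ?_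
    rw [Nat.card_eq_fintype_card, hF] at hrF
    rw [← Nat.card_congr e.toEquiv]
    exact cube_dvd hr h23 hrF (a := 6) (d := 1) (by norm_num) one_pos (by norm_num) heq
  | f4 q =>
    obtain ⟨F, _, _, hF, ⟨e⟩⟩ := hr
    refine (h.congr e).false_of_small small_F4 (card_le_500 _ _ (by decide +kernel)) le_rfl fun r hr h23 hrF => ?_
    rw [Nat.card_eq_fintype_card, hF] at hrF
    rw [← Nat.card_congr e.toEquiv]
    exact cube_dvd hr h23 hrF (a := 24) (d := 1) (by norm_num) one_pos (by norm_num) heq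
  | e6 q =>
    obtain ⟨F, _, _, hF, ⟨e⟩⟩ := hr
    refine (h.congr e).false_of_small small_E6 (card_le_500 _ _ (by decide +kernel)) le_rfl fun r hr h23 hrF => ?_
    rw [Nat.card_eq_fintype_card, hF] at hrF
    rw [← Nat.card_congr e.toEquiv]
    refine cube_dvd hr h23 hrF (a := 36) (d := Nat.gcd 3 (q - 1)) (by norm_num) (Nat.gcd_pos_of_pos_left _ (by norm_num)) ?_ heq
    exact (Nat.gcd_le_left _ (by norm_num)).trans (by norm_num)
  | e7 q =>
    obtain ⟨F, _, _, hF, ⟨e⟩⟩ := hr
    refine (h.congr e).false_of_small small_E7 (card_le_500 _ _ (by decide +kernel)) le_rfl fun r hr h23 hrF => ?_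
    rw [Nat.card_eq_fintype_card, hF] at hrF
    rw [← Nat.card_congr e.toEquiv]
    refine cube_dvd hr h23 hrF (a := 63) (d := Nat.gcd 2 (q - 1)) (by norm_num) (Nat.gcd_pos_of_pos_left _ (by norm_num)) ?_ heq
    exact (Nat.gcd_le_left _ (by norm_num)).trans (by norm_num)
  | e8 q =>
    obtain ⟨F, _, _, hF, ⟨e⟩⟩ := hr
    refine (h.congr e).false_of_small small_E8 (card_le_500 _ _ (by decide +kernel)) le_rfl fun r hr h23 hrF => ?_
    rw [Nat.card_eq_fintype_card, hF] at hrF
    rw [← Nat.card_congr e.toEquiv]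
    exact cube_dvd hr h23 hrF (a := 120) (d := 1) (by norm_num) one_pos (by norm_num) heq
  | te6 q =>
    obtain ⟨F, _, _, hF, ⟨e⟩⟩ := hr
    refine (h.congr e).false_of_small small_E6 (card_le_500 _ _ (by decide +kernel))
      (genSubgroup_le_group (by simp) _) fun r hr h23 hrF => ?_
    rw [Nat.card_eq_fintype_card, hF] at hrF
    have hrF := hr.dvd_of_dvd_pow hrF
    change r ^ 3 ∣ Nat.card ↥(twistedE6 F q)
    rw [← Nat.card_congr e.toEquiv]
    refine cube_dvd hr h23 hrF (a := 36) (d := Nat.gcd 3 (q + 1)) (by norm_num) (Nat.gcd_pos_of_pos_left _ (by norm_num)) ?_ heq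
    exact (Nat.gcd_le_left _ (by norm_num)).trans (by norm_num)
  | td4 q =>
    obtain ⟨F, _, _, hF, ⟨e⟩⟩ := hr
    refine (h.congr e).false_of_small small_D4 (card_le_500 _ _ (by decide +kernel))
      (genSubgroup_le_group (by simp) _) fun r hr h23 hrF => ?_
    rw [Nat.card_eq_fintype_card, hF] at hrF
    have hrF := hr.dvd_of_dvd_pow hrF
    change r ^ 3 ∣ Nat.card ↥(twistedD4 F q)
    rw [← Nat.card_congr e.toEquiv]
    exact cube_dvd hr h23 hrF (a := 12) (d := 1) (by norm_num) one_pos (by norm_num) heq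
  | sz q =>
    obtain ⟨F, _, _, m, hm, hF, hq, ⟨e⟩⟩ := hr
    have h' := h.congr e
    obtain ⟨s, hs, hd⟩ := h'.exists_prime
    obtain ⟨x, y, k, hx, hy, hk⟩ := h'.fus hs hd
    have h1 := h'.le_prime hs hd
    have h2 := h'.ge
    have hsF : (s : F) ≠ 0 := by
      intro h0
      obtain ⟨r, hr⟩ := CharP.exists F
      have hrp : r.Prime := CharP.char_is_prime F r
      obtain ⟨j, -, hj⟩ := FiniteField.card F r
      have h3 : r ∣ 2 ^ (2 * m + 1) := by
        rw [← hq, ← hF, hj]
        exact dvd_pow_self _ j.ne_zero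
      have h4 := (Nat.prime_dvd_prime_iff_eq hrp Nat.prime_two).1 (hrp.dvd_of_dvd_pow h3)
      have h5 := (CharP.cast_eq_zero_iff F r s).1 h0
      rw [h4] at h5
      have := (Nat.prime_dvd_prime_iff_eq Nat.prime_two hs).1 h5
      omega
    have h3 := le_of_gl (x := (x : GL (Fin 4) F)) (g := (y : GL (Fin 4) F)) hs hsF (by rw [Subgroup.orderOf_coe, hx])
      h'.prime hk (by
        have := congrArg (fun z : Lie.Sz F (2 ^ (m + 1)) => (z : GL (Fin 4) F)) hy
        simpa using this)
    rw [Fintype.card_fin] at h3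
    omega
  | ree q =>
    obtain ⟨F, _, _, m, hm, hF, hq, ⟨e⟩⟩ := hr
    refine (h.congr e).false_of_small small_G2 (card_le_500 _ _ (by decide +kernel))
      (genSubgroup_le_group (by simp) _) fun r hr h23 hrF => ?_
    rw [Nat.card_eq_fintype_card, hF, hq] at hrF
    have := (Nat.prime_dvd_prime_iff_eq hr Nat.prime_three).1 (hr.dvd_of_dvd_pow hrF)
    omega
  | tf4 q =>
    obtain ⟨F, _, _, m, hm, hF, hq, ⟨e⟩⟩ := hr
    refine (h.congr e).false_of_small small_F4 (card_le_500 _ _ (by decide +kernel))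
      (genSubgroup_le_group (by simp) _) fun r hr h23 hrF => ?_
    rw [Nat.card_eq_fintype_card, hF, hq] at hrF
    have := (Nat.prime_dvd_prime_iff_eq hr Nat.prime_two).1 (hr.dvd_of_dvd_pow hrF)
    omega
  | _ => exact he

end Cfsg.Agent.H872
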