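import Cfsg.Agent.H872.AutBasic
import Cfsg.Agent.H436.Names

/-!
# No `Auto` subgroups in the sporadic groups and the Tits group (helper872)
-/

set_option autoImplicit false

namespace Cfsg.Agent.H872

open Subgroup Cfsg Cfsg.Agent.H436 Cfsg.Agent.OrdDiv

universe u

theorem spor_facts : ∀ x ∈ spor, ¬ 23 ^ 2 ∣ x.2 ∧ ¬ 47 ^ 2 ∣ x.2 ∧ ¬ 59 ^ 2 ∣ x.2 ∧ ¬ 67 ^ 2 ∣ x.2 ∧ ¬ 23 * 67 ∣ x.2 ∧
    x.2 ∣ (Nat.factorial 71) ^ 46 ∧ ¬ 53 ∣ x.2 := by
  decide +kernel

theorem prime_pairs {s n : ℕ} (hs : s.Prime) (hn : n.Prime) (h11 : 11 ≤ n) (h71 : s ≤ 71) (h53 : s ≠ 53)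
    (hd : 2 * n ∣ s - 1) :
    (s = 23 ∧ n = 11) ∨ (s = 67 ∧ n = 11) ∨ (s = 47 ∧ n = 23) ∨ (s = 59 ∧ n = 29) := by
  obtain ⟨t, ht⟩ := hd
  have hs1 := hs.two_le
  have ht0 : t ≠ 0 := by rintro rfl; omega
  have ht3 : t ≤ 3 := by
    by_contra h4
    have : 2 * 11 * 4 ≤ 2 * n * t := Nat.mul_le_mul (by omega) (by omega)
    omega
  have hs' : s = 2 * n * t + 1 := by omega
  have h53' : ¬ (n = 13 ∧ t = 2) := by rintro ⟨rfl, rfl⟩; omega
  subst hs'
  interval_cases t
  · exact absurd rfl ht0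
  · have hn35 : n ≤ 35 := by omega
    interval_cases n <;> first | (exfalso; revert hn; norm_num; done) | (exfalso; revert hs; norm_num; done) | simp
  · have hn35 : n ≤ 17 := by omega
    interval_cases n <;> first | (exfalso; omega) | (exfalso; revert hn; norm_num; done) | (exfalso; revert hs; norm_num; done) | simp
  · have hn35 : n ≤ 11 := by omega
    interval_cases n <;> first | (exfalso; revert hn; norm_num; done) | (exfalso; revert hs; norm_num; done) | simp

theorem le_of_unique {v p N : ℕ} (hp : p.Prime) (hv : v ≠ 0) (h : ∀ s : ℕ, s.Prime → s ∣ v → s = p) (hN : v ∣ N)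
    (h2 : ¬ p ^ 2 ∣ N) : v ≤ p := by
  have h1 := Nat.eq_prime_pow_of_unique_prime_dvd hv (p := p) (fun {d} hd hdv => h d hd hdv)
  rw [h1]
  have h3 : v.primeFactorsList.length ≤ 1 := by
    by_contra h4
    apply h2
    exact (pow_dvd_pow p (by omega)).trans (h1 ▸ hN)
  calc p ^ v.primeFactorsList.length ≤ p ^ 1 := Nat.pow_le_pow_right hp.pos h3
    _ = p := pow_one p

theorem Auto.false_of_spor {G : Type u} [Group G] [Finite G] {C : Subgroup G} {n : ℕ} (h : Auto G C n) {x : Grp × ℕ}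
    (hx : x ∈ spor) (hc : Nat.card G = x.2) : False := by
  obtain ⟨h1, h2, h3, h4, h5, h6, h53⟩ := spor_facts x hx
  rw [← hc] at h1 h2 h3 h4 h5 h6 h53
  have hdv : Nat.card C ∣ Nat.card G := C.card_subgroup_dvd_card
  have hv0 : Nat.card C ≠ 0 := Nat.card_pos.ne'
  have key : ∀ s : ℕ, s.Prime → s ∣ Nat.card C →
      (s = 23 ∧ n = 11) ∨ (s = 67 ∧ n = 11) ∨ (s = 47 ∧ n = 23) ∨ (s = 59 ∧ n = 29) := by
    intro s hs hd
    refine prime_pairs hs h.prime h.ge ?_ (by rintro rfl; exact h53 (hd.trans hdv)) (h.two_mul_dvd hs hd)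
    have h7 : s ∣ (Nat.factorial 71) ^ 46 := (hd.trans hdv).trans h6
    exact (hs.dvd_factorial).1 (hs.dvd_of_dvd_pow h7)
  have hbig := h.big
  obtain ⟨s, hs, hd⟩ := h.exists_prime
  rcases key s hs hd with ⟨hs', hn'⟩ | ⟨hs', hn'⟩ | ⟨hs', hn'⟩ | ⟨hs', hn'⟩
  · have : Nat.card C ≤ 23 := by
      apply le_of_unique (by norm_num) hv0 _ hdv h1
      intro t ht htd
      rcases key t ht htd with h7 | h7 | h7 | h7
      · exact h7.1
      · exfalso
        apply h5
        refine Dvd.dvd.trans ?_ hdv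
        rw [hs'] at hd
        rw [h7.1] at htd
        exact Nat.Coprime.mul_dvd_of_dvd_of_dvd (by norm_num) hd htd
      · omega
      · omega
    omega
  · have : Nat.card C ≤ 67 := by
      apply le_of_unique (by norm_num) hv0 _ hdv h4
      intro t ht htd
      rcases key t ht htd with h7 | h7 | h7 | h7
      · exfalso
        apply h5
        refine Dvd.dvd.trans ?_ hdv
        rw [hs'] at hd
        rw [h7.1] at htd
        exact Nat.Coprime.mul_dvd_of_dvd_of_dvd (by norm_num) htd hd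
      · exact h7.1
      · omega
      · omega
    omega
  · have : Nat.card C ≤ 47 := by
      apply le_of_unique (by norm_num) hv0 _ hdv h2
      intro t ht htd
      rcases key t ht htd with h7 | h7 | h7 | h7 <;> omega
    omega
  · have : Nat.card C ≤ 59 := by
      apply le_of_unique (by norm_num) hv0 _ hdv h3
      intro t ht htd
      rcases key t ht htd with h7 | h7 | h7 | h7 <;> omega
    omega

end Cfsg.Agent.H872
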