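import Mathlib
import Cfsg.Agent.H872.AutDim
import Cfsg.Agent.H872.AutAlt
import Cfsg.Agent.H872.AutExcAll
import Cfsg.Agent.H872.AutSpor

/-!
# Known simple groups with an `Auto` subgroup (helper872)

`auto_class` : a known simple group with a self-centralising cyclic subgroup `C`, whose automiser has prime order
`n ≥ 11` and acts faithfully on each Sylow subgroup of `C`, is classical, with `n ≤ m` where `m` is the dimension
(linear and unitary groups) or the rank; and `|C| < Q ^ D`.
-/

set_option autoImplicit false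

namespace Cfsg.Agent.H872

open Subgroup Cfsg Cfsg.Agent.OrdDiv Cfsg.Agent.H436

universe u

variable {G : Type u} [Group G] [Finite G] {C : Subgroup G} {n : ℕ}

/-- the classical names, with dimension/rank `m`, field `Q`, exponent `D` -/
inductive Cls : Grp → ℕ → ℕ → ℕ → Prop
  | psl (m Q : ℕ) : Cls (.psl m Q) m Q m
  | psu (m Q : ℕ) : Cls (.psu m Q) m Q (2 * m)
  | psp (m Q : ℕ) : Cls (.psp m Q) m Q (2 * m)
  | oodd (m Q : ℕ) : Cls (.oodd m Q) m Q (2 * m + 1)
  | oplus (m Q : ℕ) : Cls (.oplus m Q) m Q (2 * m)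
  | ominus (m Q : ℕ) : Cls (.ominus m Q) m Q (2 * m)

theorem Auto.false_of_psl_two {Q : ℕ} (hg : IsNamed (.psl 2 Q) G) (h : Auto G C n) : False := by
  obtain ⟨F, _, _, hF, ⟨e⟩⟩ := hg.real
  have hp : Proj G F (Fin 2) (fun _ => True) := Proj.of_equiv proj_psl e
  obtain ⟨r, hrK⟩ := CharP.exists F
  have hr : Fact r.Prime := ⟨(CharP.char_is_prime_or_zero F r).resolve_right (CharP.char_ne_zero_of_finite F r)⟩
  obtain ⟨f, -, hf⟩ := FiniteField.card F r
  rw [hF] at hf
  have hf0 : (f : ℕ) ≠ 0 := f.ne_zero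
  generalize (f : ℕ) = f' at hf hf0
  have hQ1 : 1 < Q := by rw [← hF]; exact Fintype.one_lt_card
  have heq : Nat.gcd 2 (Q - 1) * (Q - 1) * Nat.card G = (Q ^ 2 - 1) * (Q ^ 2 - Q) := by
    have h1 : Nat.gcd 2 (Q - 1) * (Q - 1) * Nat.card G = glN 2 Q := hg.eq
    rw [h1]
    unfold glN
    simp [List.range_succ]
  have hn := h.ge
  by_cases hall : ∀ s : ℕ, s.Prime → s ∣ Nat.card C → s = r
  · obtain ⟨j, hj⟩ := h.card_pow hall
    obtain ⟨x, hx, hxo⟩ := h.exists_gen
    have hr2 : 2 ≤ r := hr.out.two_le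
    have hj1 : j ≤ 1 := hp.unip (hxo.trans hj) (by simpa using hr2)
    have hbig := h.big
    have hj0 : j ≠ 0 := by
      rintro rfl
      rw [hj, pow_zero] at hbig
      omega
    have hj' : j = 1 := by omega
    subst hj'
    rw [pow_one] at hj
    have hrd : r ∣ Nat.card C := hj ▸ dvd_rfl
    have h2n := h.le_prime hr.out hrd
    have hcopQ : (Nat.gcd 2 (Q - 1) * (Q - 1)).Coprime Q := by
      have h1 := cop_sub (q := Q) (k := 1) (by omega) le_rfl
      rw [pow_one] at h1
      exact Nat.Coprime.mul_left (Nat.Coprime.coprime_dvd_left (Nat.gcd_dvd_right _ _) h1) h1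
    have hQG : Q ^ 1 ∣ Nat.card G := by
      refine dvd_of_cop (m := (Q ^ 2 - 1) * (Q - 1)) (heq.trans ?_) hcopQ
      have : Q ^ 2 - Q = Q * (Q - 1) := by
        rw [Nat.mul_sub, mul_one, pow_two]
      rw [this]
      ring
    rw [pow_one, hf] at hQG
    have h3 := h.pow_dvd hr.out hrd hQG
    rw [hj] at h3
    have hf1 : f' = 1 := by
      have h4 : r ^ f' ∣ r ^ 1 := by rw [pow_one]; exact h3
      have h5 := (Nat.pow_dvd_pow_iff_le_right hr.out.one_lt).1 h4
      omega
    subst hf1
    rw [pow_one] at hf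
    subst hf
    -- the order
    have hodd : Odd Q := hr.out.odd_of_ne_two (by omega)
    have hgcd : Nat.gcd 2 (Q - 1) = 2 := by
      apply Nat.gcd_eq_left
      obtain ⟨k, hk⟩ := hodd
      exact ⟨k, by omega⟩
    have hcard : 2 * Nat.card G = (Q ^ 2 - 1) * Q := by
      rw [hgcd] at heq
      have h1 : Q ^ 2 - Q = Q * (Q - 1) := by
        rw [Nat.mul_sub, mul_one, pow_two]
      rw [h1] at heq
      have h2 : (Q - 1) * (2 * Nat.card G) = (Q - 1) * ((Q ^ 2 - 1) * Q) := by
        calc (Q - 1) * (2 * Nat.card G) = 2 * (Q - 1) * Nat.card G := by ring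
          _ = (Q ^ 2 - 1) * (Q * (Q - 1)) := heq
          _ = (Q - 1) * ((Q ^ 2 - 1) * Q) := by ring
      exact Nat.eq_of_mul_eq_mul_left (by omega) h2
    have hPC : IsPGroup Q C := IsPGroup.of_card (n := 1) (by rw [pow_one]; exact hj)
    have hndvd : ¬ Q ∣ C.index := by
      intro h1
      have h2 := h.coprime
      rw [hj] at h2
      exact hr.out.one_lt.ne' (Nat.dvd_one.1 (h2 ▸ Nat.dvd_gcd dvd_rfl h1))
    let S : Sylow Q G := hPC.toSylow hndvd
    have hS : Nat.card (Sylow Q G) = (normalizer (C : Set G)).index := Sylow.card_eq_index_normalizer S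
    have hmod := card_sylow_modEq_one Q G
    rw [hS] at hmod
    have hidx : n * Q * (normalizer (C : Set G)).index = Nat.card G := by
      rw [← hj, ← h.nrm, card_mul_index]
    generalize (normalizer (C : Set G)).index = m at hmod hidx
    have h5 : 2 * (n * m) = Q ^ 2 - 1 := by
      have : Q * (2 * (n * m)) = Q * (Q ^ 2 - 1) := by
        calc Q * (2 * (n * m)) = 2 * (n * Q * m) := by ring
          _ = 2 * Nat.card G := by rw [hidx]
          _ = Q * (Q ^ 2 - 1) := by rw [hcard]; ring
      exact Nat.eq_of_mul_eq_mul_left (by omega) this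
    have h6 : 2 * (n * m) + 1 = Q ^ 2 := by
      have : 1 ≤ Q ^ 2 := Nat.one_le_pow _ _ (by omega)
      omega
    have h7 : 2 * (n * 1) + 1 ≡ 0 [MOD Q] := by
      have h8 : 2 * (n * 1) + 1 ≡ 2 * (n * m) + 1 [MOD Q] :=
        Nat.ModEq.add_right 1 (Nat.ModEq.mul_left 2 (Nat.ModEq.mul_left n hmod.symm))
      refine h8.trans ?_
      rw [h6]
      exact (Nat.modEq_zero_iff_dvd).2 (dvd_pow_self Q (by norm_num))
    have h8 := Nat.le_of_dvd (by omega) ((Nat.modEq_zero_iff_dvd).1 h7)
    rw [hj] at hbig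
    omega
  · push Not at hall
    obtain ⟨s, hs, hsd, hsr⟩ := hall
    obtain ⟨x, g, k, h1, h2, h3⟩ := h.fus hs hsd
    have := hp.le hs (by
      intro h0
      have := (CharP.cast_eq_zero_iff F r s).1 h0
      exact hsr ((Nat.prime_dvd_prime_iff_eq hr.out hs).1 this).symm) h1 h.prime h3 h2
    rw [Fintype.card_fin] at this
    omega

theorem auto_class {g : Grp} (hg : IsNamed g G) (h : Auto G C n) :
    ∃ m Q D, Cls g m Q D ∧ n ≤ m ∧ IsPrimePow Q ∧ Nat.card C < Q ^ D := by
  have hexc : ¬ IsExc g := fun he => false_of_exceptional hg he h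
  have hsp : ∀ x ∈ spor, x.1 ≠ g := by
    intro x hx hxg
    refine h.false_of_spor hx ?_
    rw [hg.ord, ← hxg]
    exact spor_ord x hx
  cases g with
  | alt m =>
    exfalso
    obtain ⟨e⟩ := hg.real
    exact (h.congr e).false_of_alt
  | psl m Q =>
    obtain ⟨hm, hm2, hQ⟩ := hg.cond
    have hQ1 := hQ.one_lt
    have hm3 : 3 ≤ m := by
      by_contra hlt
      have : m = 2 := by omega
      subst this
      exact h.false_of_psl_two hg
    obtain ⟨F, _, _, hF, ⟨e⟩⟩ := hg.real
    have hp : Proj G F (Fin m) (fun _ => True) := Proj.of_equiv proj_psl e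
    have : Nonempty (Fin m) := ⟨⟨0, by omega⟩⟩
    refine ⟨m, Q, m, Cls.psl m Q, ?_, hQ, ?_⟩
    · have h1 := h.dim_le (Q := Q) (N := m * (m - 1) / 2) (e := 1) one_ne_zero
        (by rw [pow_one, Nat.card_eq_fintype_card, hF]) hp ?_ ?_ ?_
      · rwa [Fintype.card_fin] at h1
      · have h2 : Nat.gcd m (Q - 1) * (Q - 1) * Nat.card G = glN m Q := hg.eq
        obtain ⟨c, hc⟩ := pow_dvd_glN m Q
        rw [hc] at h2
        refine dvd_of_cop h2 ?_
        have h1 := cop_sub (q := Q) (k := 1) (by omega) le_rfl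
        rw [pow_one] at h1
        exact Nat.Coprime.mul_left (Nat.Coprime.coprime_dvd_left (Nat.gcd_dvd_right _ _) h1) h1
      · exact (le_tri hm).2
      · rw [Fintype.card_fin]
        exact le_pow_tri hm3
    · have := h.card_lt_pow hp
      rwa [Nat.card_eq_fintype_card (α := F), hF, Fintype.card_fin] at this
  | psp m Q =>
    obtain ⟨hm, hm2, hQ⟩ := hg.cond
    have hQ1 := hQ.one_lt
    obtain ⟨F, _, _, hF, ⟨e⟩⟩ := hg.real
    have hp : Proj G F (Fin m ⊕ Fin m) (FormP (Matrix.J (Fin m) F)) := Proj.of_equiv proj_psp e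
    have : Nonempty (Fin m ⊕ Fin m) := ⟨Sum.inl ⟨0, by omega⟩⟩
    have hcard : Fintype.card (Fin m ⊕ Fin m) = 2 * m := by
      rw [Fintype.card_sum, Fintype.card_fin]
      ring
    refine ⟨m, Q, 2 * m, Cls.psp m Q, ?_, hQ, ?_⟩
    · have h1 := h.two_mul_dim_le (Q := Q) (N := m ^ 2) (by rw [Nat.card_eq_fintype_card, hF])
        (Matrix.isUnit_det_J (Fin m) F).ne_zero hp ?_ ?_ ?_
      · rw [hcard] at h1
        omega
      · have h2 : Nat.gcd 2 (Q - 1) * Nat.card G = Q ^ (m ^ 2) * prB Q m := hg.eq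
        refine dvd_of_cop h2 ?_
        have h1 := cop_sub (q := Q) (k := 1) (by omega) le_rfl
        rw [pow_one] at h1
        exact Nat.Coprime.coprime_dvd_left (Nat.gcd_dvd_right _ _) h1
      · exact Nat.one_le_pow _ _ (by omega)
      · rw [hcard]
        refine le_trans ?_ (le_pow_aux (m := m) (k := m ^ 2 - 1) (by omega) ?_)
        · omega
        · have : 2 * m ≤ m ^ 2 := by nlinarith
          omega
    · have := h.card_lt_pow hp
      rwa [Nat.card_eq_fintype_card (α := F), hF, hcard] at this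
  | psu m Q =>
    obtain ⟨hm, hm2, hQ⟩ := hg.cond
    have hQ1 := hQ.one_lt
    obtain ⟨F, _, _, hF, ⟨e⟩⟩ := hg.real
    have hp : Proj G F (Fin m) (fun _ => True) := Proj.of_equiv (proj_psu hF hm) e
    have : Nonempty (Fin m) := ⟨⟨0, by omega⟩⟩
    refine ⟨m, Q, 2 * m, Cls.psu m Q, ?_, hQ, ?_⟩
    · have h1 := h.dim_le (Q := Q) (N := m * (m - 1) / 2) (e := 2) two_ne_zero
        (by rw [Nat.card_eq_fintype_card, hF]) hp ?_ ?_ ?_
      · rwa [Fintype.card_fin] at h1
      · have h2 : Nat.gcd m (Q + 1) * (Q + 1) * Nat.card G = Q ^ (m * (m - 1) / 2) * prU Q m := hg.eq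
        refine dvd_of_cop h2 ?_
        have h1 := cop_add (q := Q) (k := 1) le_rfl
        rw [pow_one] at h1
        exact Nat.Coprime.mul_left (Nat.Coprime.coprime_dvd_left (Nat.gcd_dvd_right _ _) h1) h1
      · exact (le_tri (by omega)).2
      · rw [Fintype.card_fin]
        exact le_pow_tri hm
    · have := h.card_lt_pow hp
      rwa [Nat.card_eq_fintype_card (α := F), hF, Fintype.card_fin, ← pow_mul] at this
  | oodd m Q =>
    obtain ⟨hm, hodd, hQ⟩ := hg.cond
    have hQ1 := hQ.one_lt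
    obtain ⟨F, _, _, hF, ⟨e⟩⟩ := hg.real
    have h2F : (2 : F) ≠ 0 := by
      have h1 : ringChar F ≠ 2 := by
        intro h1
        have h2 : Even Q := by
          rw [← hF]
          exact Nat.even_iff.2 (FiniteField.even_card_iff_char_two.1 h1)
        exact (Nat.not_even_iff_odd.2 hodd) h2
      exact Ring.two_ne_zero h1
    have hcard : Fintype.card (Unit ⊕ (Fin m ⊕ Fin m)) = 2 * m + 1 := by
      rw [Fintype.card_sum, Fintype.card_sum, Fintype.card_fin, Fintype.card_unit]
      ring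
    have hp : Proj G F (Unit ⊕ (Fin m ⊕ Fin m)) (FormP (gram (LieClassical.OmegaReindex.quadOdd m F))) := by
      refine Proj.of_equiv (proj_pomega (LieClassical.OmegaReindex.quadOdd_nondegenerate h2F)
        (by rw [hcard]; omega) (LieClassical.OmegaReindex.quadOdd_isotropic (by omega))) ?_
      rw [LieClassical.OmegaReindex.coe_quadOdd]
      exact e
    refine ⟨m, Q, 2 * m + 1, Cls.oodd m Q, ?_, hQ, ?_⟩
    · have h1 := h.two_mul_dim_le (Q := Q) (N := m ^ 2) (by rw [Nat.card_eq_fintype_card, hF])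
        (det_gram (LieClassical.OmegaReindex.quadOdd_nondegenerate h2F)) hp ?_ ?_ ?_
      · rw [hcard] at h1
        omega
      · have h2 : 2 * Nat.card G = Q ^ (m ^ 2) * prB Q m := hg.eq
        refine dvd_of_cop h2 ?_
        exact (Nat.coprime_two_left).2 hodd
      · exact Nat.one_le_pow _ _ (by omega)
      · rw [hcard]
        refine le_pow_aux (m := m) (k := m ^ 2 - 1) (by omega) ?_
        have : 2 * m ≤ m ^ 2 := by nlinarith
        omega
    · have := h.card_lt_pow hp
      rwa [Nat.card_eq_fintype_card (α := F), hF, hcard] at this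
  | oplus m Q =>
    obtain ⟨hm, hQ⟩ := hg.cond
    have hQ1 := hQ.one_lt
    obtain ⟨F, _, _, hF, ⟨e⟩⟩ := hg.real
    have hcard : Fintype.card (Fin m ⊕ Fin m) = 2 * m := by
      rw [Fintype.card_sum, Fintype.card_fin]
      ring
    have : Nonempty (Fin m ⊕ Fin m) := ⟨Sum.inl ⟨0, by omega⟩⟩
    have hp : Proj G F (Fin m ⊕ Fin m) (FormP (gram (LieClassical.OmegaReindex.quadPlus m F))) := by
      refine Proj.of_equiv (proj_pomega LieClassical.OmegaReindex.quadPlus_nondegenerate
        (by rw [hcard]; omega) (LieClassical.OmegaReindex.quadPlus_isotropic (by omega))) ?_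
      rw [LieClassical.OmegaReindex.coe_quadPlus]
      exact e
    refine ⟨m, Q, 2 * m, Cls.oplus m Q, ?_, hQ, ?_⟩
    · have h1 := h.two_mul_dim_le (Q := Q) (N := m * (m - 1)) (by rw [Nat.card_eq_fintype_card, hF])
        (det_gram LieClassical.OmegaReindex.quadPlus_nondegenerate) hp ?_ ?_ ?_
      · rw [hcard] at h1
        omega
      · have h2 : Nat.gcd 4 (Q ^ m - 1) * Nat.card G = Q ^ (m * (m - 1)) * ((Q ^ m - 1) * prB Q (m - 1)) := hg.eq
        refine dvd_of_cop h2 ?_
        exact Nat.Coprime.coprime_dvd_left (Nat.gcd_dvd_right _ _) (cop_sub (by omega) (by omega))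
      · exact Nat.mul_pos (by omega) (by omega)
      · rw [hcard]
        refine le_trans ?_ (le_pow_aux (m := m) (k := m * (m - 1) - 1) (by omega) ?_)
        · omega
        · have : m * 3 ≤ m * (m - 1) := Nat.mul_le_mul_left _ (by omega)
          omega
    · have := h.card_lt_pow hp
      rwa [Nat.card_eq_fintype_card (α := F), hF, hcard] at this
  | ominus m Q =>
    obtain ⟨hm, hQ⟩ := hg.cond
    have hQ1 := hQ.one_lt
    obtain ⟨F, _, _, a, b, hF, hab, ⟨e⟩⟩ := hg.real
    have hcard : Fintype.card ((Fin (m - 1) ⊕ Fin (m - 1)) ⊕ Fin 2) = 2 * m := by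
      rw [Fintype.card_sum, Fintype.card_sum, Fintype.card_fin, Fintype.card_fin]
      omega
    have : Nonempty ((Fin (m - 1) ⊕ Fin (m - 1)) ⊕ Fin 2) := ⟨Sum.inr 0⟩
    have hp : Proj G F ((Fin (m - 1) ⊕ Fin (m - 1)) ⊕ Fin 2)
        (FormP (gram (LieClassical.OmegaReindex.quadMinus (m - 1) F a b))) := by
      refine Proj.of_equiv (proj_pomega (LieClassical.OmegaReindex.quadMinus_nondegenerate hab)
        (by rw [hcard]; omega) (LieClassical.OmegaReindex.quadMinus_isotropic (by omega) a b)) ?_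
      rw [LieClassical.OmegaReindex.coe_quadMinus]
      exact e
    refine ⟨m, Q, 2 * m, Cls.ominus m Q, ?_, hQ, ?_⟩
    · have h1 := h.two_mul_dim_le (Q := Q) (N := m * (m - 1)) (by rw [Nat.card_eq_fintype_card, hF])
        (det_gram (LieClassical.OmegaReindex.quadMinus_nondegenerate hab)) hp ?_ ?_ ?_
      · rw [hcard] at h1
        omega
      · have h2 : Nat.gcd 4 (Q ^ m + 1) * Nat.card G = Q ^ (m * (m - 1)) * ((Q ^ m + 1) * prB Q (m - 1)) := hg.eq
        refine dvd_of_cop h2 ?_
        exact Nat.Coprime.coprime_dvd_left (Nat.gcd_dvd_right _ _) (cop_add (by omega))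
      · exact Nat.mul_pos (by omega) (by omega)
      · rw [hcard]
        refine le_trans ?_ (le_pow_aux (m := m) (k := m * (m - 1) - 1) (by omega) ?_)
        · omega
        · have : m * 3 ≤ m * (m - 1) := Nat.mul_le_mul_left _ (by omega)
          omega
    · have := h.card_lt_pow hp
      rwa [Nat.card_eq_fintype_card (α := F), hF, hcard] at this
  | g2 q => exact absurd trivial hexc
  | f4 q => exact absurd trivial hexc
  | e6 q => exact absurd trivial hexc
  | e7 q => exact absurd trivial hexc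
  | e8 q => exact absurd trivial hexc
  | te6 q => exact absurd trivial hexc
  | td4 q => exact absurd trivial hexc
  | sz q => exact absurd trivial hexc
  | ree q => exact absurd trivial hexc
  | tf4 q => exact absurd trivial hexc
  | _ => exact absurd rfl (hsp (_, _) (by unfold spor; simp only [List.mem_cons, Prod.mk.injEq, true_and, reduceCtorEq, false_and, false_or]; first | rfl | (left; rfl)))

end Cfsg.Agent.H872
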