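import Mathlib
import Cfsg.Agent.H872.AutMain
import Cfsg.Agent.H872.AutNum
import Cfsg.Agent.Lib.Zsigmondy

/-!
# Arithmetic: a classical group of rank at least `n` inside `PSL_n(q)` containing the Singer torus (helper872)

`numeric` : if the order `c` of the classical group named `g` (dimension / rank `m ≥ n`, `n ≥ 11` prime) divides
`|GL_n(q)|` and is divisible by `v = (q^n - 1) / ((q - 1) (n, q - 1))`, where `v < Q ^ D`, then `g = PSL_n(q)`.
-/

set_option autoImplicit false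

namespace Cfsg.Agent.H872

open Cfsg Cfsg.Agent.OrdDiv Cfsg.Agent.H436 Finset

/-- the exponent of the characteristic part -/
def expo : Grp → ℕ
  | .psl m _ => m * (m - 1) / 2
  | .psu m _ => m * (m - 1) / 2
  | .psp m _ => m ^ 2
  | .oodd m _ => m ^ 2
  | .oplus m _ => m * (m - 1)
  | .ominus m _ => m * (m - 1)
  | _ => 0

theorem two_mul_tri (m : ℕ) : 2 * (m * (m - 1) / 2) = m * (m - 1) := by
  have h : 2 ∣ m * (m - 1) := by
    rcases Nat.even_or_odd m with h | h
    · exact Dvd.dvd.mul_right h.two_dvd _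
    · refine Dvd.dvd.mul_left ?_ _
      obtain ⟨k, hk⟩ := h
      exact ⟨k, by omega⟩
  exact Nat.mul_div_cancel' h

theorem pow_expo_dvd {g : Grp} {m Q D c : ℕ} (hcls : Cls g m Q D) (hg : Cond g) (hm1 : 2 ≤ m)
    (hQ : IsPrimePow Q) (hc : den g * c = num g) : Q ^ expo g ∣ c := by
  have hQ1 := hQ.one_lt
  cases hcls with
  | psl =>
    have h2 : Nat.gcd m (Q - 1) * (Q - 1) * c = glN m Q := hc
    obtain ⟨c, hc⟩ := pow_dvd_glN m Q
    rw [hc] at h2
    refine dvd_of_cop h2 ?_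
    have h1 := cop_sub (q := Q) (k := 1) (by omega) le_rfl
    rw [pow_one] at h1
    exact Nat.Coprime.mul_left (Nat.Coprime.coprime_dvd_left (Nat.gcd_dvd_right _ _) h1) h1
  | psu =>
    have h2 : Nat.gcd m (Q + 1) * (Q + 1) * c = Q ^ (m * (m - 1) / 2) * prU Q m := hc
    refine dvd_of_cop h2 ?_
    have h1 := cop_add (q := Q) (k := 1) le_rfl
    rw [pow_one] at h1
    exact Nat.Coprime.mul_left (Nat.Coprime.coprime_dvd_left (Nat.gcd_dvd_right _ _) h1) h1
  | psp =>
    have h2 : Nat.gcd 2 (Q - 1) * c = Q ^ (m ^ 2) * prB Q m := hc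
    refine dvd_of_cop h2 ?_
    have h1 := cop_sub (q := Q) (k := 1) (by omega) le_rfl
    rw [pow_one] at h1
    exact Nat.Coprime.coprime_dvd_left (Nat.gcd_dvd_right _ _) h1
  | oodd =>
    have h2 : 2 * c = Q ^ (m ^ 2) * prB Q m := hc
    refine dvd_of_cop h2 ?_
    exact (Nat.coprime_two_left).2 hg.2.1
  | oplus =>
    have h2 : Nat.gcd 4 (Q ^ m - 1) * c = Q ^ (m * (m - 1)) * ((Q ^ m - 1) * prB Q (m - 1)) := hc
    refine dvd_of_cop h2 ?_
    exact Nat.Coprime.coprime_dvd_left (Nat.gcd_dvd_right _ _) (cop_sub (by omega) (by omega))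
  | ominus =>
    have h2 : Nat.gcd 4 (Q ^ m + 1) * c = Q ^ (m * (m - 1)) * ((Q ^ m + 1) * prB Q (m - 1)) := hc
    refine dvd_of_cop h2 ?_
    exact Nat.Coprime.coprime_dvd_left (Nat.gcd_dvd_right _ _) (cop_add (by omega))

theorem expo_ge {g : Grp} {m Q D : ℕ} (hcls : Cls g m Q D) (hm : 11 ≤ m) : 5 * D ≤ 2 * expo g := by
  obtain ⟨t, rfl⟩ : ∃ t, m = t + 11 := ⟨m - 11, by omega⟩
  have h0 : t + 11 - 1 = t + 10 := by omega
  cases hcls with
  | psl =>
    change _ ≤ 2 * ((t + 11) * (t + 11 - 1) / 2)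
    rw [two_mul_tri, h0]
    nlinarith
  | psu =>
    change _ ≤ 2 * ((t + 11) * (t + 11 - 1) / 2)
    rw [two_mul_tri, h0]
    nlinarith
  | psp =>
    change _ ≤ 2 * (t + 11) ^ 2
    nlinarith
  | oodd =>
    change _ ≤ 2 * (t + 11) ^ 2
    nlinarith
  | oplus =>
    change _ ≤ 2 * ((t + 11) * (t + 11 - 1))
    rw [h0]
    nlinarith
  | ominus =>
    change _ ≤ 2 * ((t + 11) * (t + 11 - 1))
    rw [h0]
    nlinarith

/-! ### primes dividing the orders -/

theorem glN_split (n q : ℕ) :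
    glN n q = q ^ (n * (n - 1) / 2) * ∏ i ∈ range n, (q ^ (i + 1) - 1) := by
  unfold glN
  rw [prod_list, ← Finset.prod_range_reflect (fun i => q ^ (i + 1) - 1), ← Finset.sum_range_id,
    ← Finset.prod_pow_eq_pow_sum, ← Finset.prod_mul_distrib]
  apply Finset.prod_congr rfl
  intro i hi
  rw [Finset.mem_range] at hi
  rw [Nat.mul_sub, mul_one, ← pow_add]
  congr 2
  omega

theorem dvd_glN {n q s : ℕ} (hs : s.Prime) (hsq : ¬ s ∣ q) (h : s ∣ glN n q) :
    ∃ i, 1 ≤ i ∧ i ≤ n ∧ s ∣ q ^ i - 1 := by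
  rw [glN_split] at h
  rcases hs.dvd_mul.1 h with h1 | h1
  · exact absurd (hs.dvd_of_dvd_pow h1) hsq
  · obtain ⟨i, hi, h2⟩ := (hs.prime.dvd_finsetProd_iff _).1 h1
    rw [Finset.mem_range] at hi
    exact ⟨i + 1, by omega, by omega, h2⟩

theorem dvd_prB {m q s : ℕ} (hs : s.Prime) (h : s ∣ prB q m) :
    ∃ i, 1 ≤ i ∧ i ≤ m ∧ s ∣ q ^ (2 * i) - 1 := by
  unfold prB at h
  rw [prod_list] at h
  obtain ⟨i, hi, h2⟩ := (hs.prime.dvd_finsetProd_iff _).1 h
  rw [Finset.mem_range] at hi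
  exact ⟨i + 1, by omega, by omega, h2⟩

theorem dvd_prU {m q s : ℕ} (hs : s.Prime) (h : s ∣ prU q m) :
    ∃ i, 1 ≤ i ∧ i ≤ m ∧ ((Odd i ∧ s ∣ q ^ i + 1) ∨ (Even i ∧ s ∣ q ^ i - 1)) := by
  unfold prU at h
  rw [prod_list] at h
  obtain ⟨i, hi, h2⟩ := (hs.prime.dvd_finsetProd_iff _).1 h
  rw [Finset.mem_range] at hi
  refine ⟨i + 1, by omega, by omega, ?_⟩
  by_cases hb : i % 2 = 0
  · rw [if_pos (by rw [Nat.beq_eq]; exact hb)] at h2
    left
    exact ⟨by rw [Nat.odd_iff]; omega, h2⟩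
  · rw [if_neg (by rw [Nat.beq_eq]; exact hb)] at h2
    right
    exact ⟨by rw [Nat.even_iff]; omega, h2⟩

/-! ### defining characteristic -/

section Def

variable {p t s : ℕ}

/-- `s` is a primitive prime divisor of `p ^ t - 1` -/
structure Ppd (p t s : ℕ) : Prop where
  pr : s.Prime
  iff : ∀ m, s ∣ p ^ m - 1 ↔ t ∣ m
  dvd : t ∣ s - 1
  nd : ¬ s ∣ p

theorem exists_ppd (hp : 2 ≤ p) (ht : 7 ≤ t) : ∃ s, Ppd p t s := by
  obtain ⟨s, h1, h2, h3, h4⟩ := Cfsg.Agent.Lib.Zsigmondy.exists_primitive (a := p) (n := t) hp (by omega) (by omega)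
    (by omega)
  exact ⟨s, h1, h2, h3, h4⟩

theorem Ppd.odd (h : Ppd p t s) (ht : 7 ≤ t) : s ≠ 2 := by
  rintro rfl
  have := Nat.le_of_dvd (by norm_num) h.dvd
  omega

theorem Ppd.sub (h : Ppd p t s) {f Q i : ℕ} (hQ : Q = p ^ f) (hs : s ∣ Q ^ i - 1) : t ∣ f * i := by
  rw [hQ, ← pow_mul] at hs
  exact (h.iff _).1 hs

theorem Ppd.add (h : Ppd p t s) (ht : 7 ≤ t) {f Q i : ℕ} (hQ : Q = p ^ f) (hp : 2 ≤ p) (hs : s ∣ Q ^ i + 1) :
    t ∣ 2 * (f * i) ∧ ¬ t ∣ f * i := by
  have hQ1 : 1 ≤ Q ^ i := Nat.one_le_pow _ _ (by rw [hQ]; exact Nat.pow_pos (by omega))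
  constructor
  · have h1 : s ∣ Q ^ (2 * i) - 1 := by
      obtain ⟨u, hu⟩ : ∃ u, Q ^ i = u + 1 := ⟨Q ^ i - 1, by omega⟩
      have h2 : Q ^ (2 * i) - 1 = (Q ^ i - 1) * (Q ^ i + 1) := by
        rw [mul_comm 2 i, pow_mul, hu, Nat.add_sub_cancel]
        have : (u + 1) ^ 2 = u * (u + 1 + 1) + 1 := by ring
        omega
      rw [h2]
      exact Dvd.dvd.mul_left hs _
    have h3 := h.sub hQ h1
    rwa [show 2 * (f * i) = f * (2 * i) by ring]
  · intro h1
    have h2 : s ∣ Q ^ i - 1 := by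
      rw [hQ, ← pow_mul]
      exact (h.iff _).2 h1
    have h3 : s ∣ 2 := by
      have h4 := (Nat.dvd_sub hs h2)
      have : Q ^ i + 1 - (Q ^ i - 1) = 2 := by omega
      rwa [this] at h4
    exact h.odd ht ((Nat.prime_dvd_prime_iff_eq h.pr Nat.prime_two).1 h3)

/-- the final arithmetic in the linear case -/
theorem lin_arith {n m a f : ℕ} (hn : 2 ≤ n) (ha : a ≠ 0) (hnm : n ≤ m) (h1 : a * n ≤ f * m)
    (h2 : f * (m * (m - 1)) ≤ a * (n * (n - 1))) : m = n ∧ f = a := by
  have hmn : m = n := by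
    have h3 : a * n * (m - 1) ≤ a * n * (n - 1) := by
      calc a * n * (m - 1) ≤ f * m * (m - 1) := Nat.mul_le_mul_right _ h1
        _ = f * (m * (m - 1)) := by ring
        _ ≤ a * (n * (n - 1)) := h2
        _ = a * n * (n - 1) := by ring
    have h4 := Nat.le_of_mul_le_mul_left h3 (Nat.mul_pos (Nat.pos_of_ne_zero ha) (by omega))
    omega
  subst hmn
  refine ⟨rfl, ?_⟩
  have h3 : a ≤ f := Nat.le_of_mul_le_mul_right h1 (by omega)
  have h4 : f ≤ a := Nat.le_of_mul_le_mul_right h2 (Nat.mul_pos (by omega) (by omega))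
  omega

end Def

/-- the lower bound for `v` -/
theorem v_ge {v q n : ℕ} (hq : 2 ≤ q) (hn : 2 ≤ n) (hv : v * ((q - 1) * Nat.gcd n (q - 1)) = q ^ n - 1) :
    q ^ (n - 2) ≤ v := by
  by_contra hlt
  rw [not_le] at hlt
  have h1 : Nat.gcd n (q - 1) ≤ q - 1 := Nat.le_of_dvd (by omega) (Nat.gcd_dvd_right _ _)
  obtain ⟨k, rfl⟩ : ∃ k, q = k + 2 := ⟨q - 2, by omega⟩
  have h0 : k + 2 - 1 = k + 1 := by omega
  rw [h0] at h1 hv
  have h3 : (k + 2) ^ n = (k + 2) ^ (n - 2) * (k + 2) ^ 2 := by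
    rw [← pow_add]
    congr 1
    omega
  have h4 : v * ((k + 1) * Nat.gcd n (k + 1)) ≤ v * ((k + 1) * (k + 1)) :=
    Nat.mul_le_mul_left _ (Nat.mul_le_mul_left _ h1)
  have h5 : (v + 1) * ((k + 1) * (k + 1)) ≤ (k + 2) ^ (n - 2) * ((k + 1) * (k + 1)) :=
    Nat.mul_le_mul_right _ hlt
  have h6 : 1 ≤ (k + 2) ^ (n - 2) := Nat.one_le_pow _ _ (by omega)
  have h7 : 1 ≤ (k + 2) ^ n := Nat.one_le_pow _ _ (by omega)
  have h8 : (k + 2) ^ n ≤ v * ((k + 1) * (k + 1)) + 1 := by omega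
  rw [h3] at h8
  generalize (k + 2) ^ (n - 2) = X at *
  nlinarith

/-- **The arithmetic**: only `PSL_n(q)` survives. -/
theorem numeric {g : Grp} {m Q D c n p a q v : ℕ} (hcls : Cls g m Q D) (hcond : Cond g) (hQ : IsPrimePow Q)
    (hc : den g * c = num g) (hn : n.Prime) (hn11 : 11 ≤ n) (hnm : n ≤ m) (hp : p.Prime) (ha : a ≠ 0) (hq : q = p ^ a)
    (hcq : c ∣ glN n q) (hvc : v ∣ c) (hv : v * ((q - 1) * Nat.gcd n (q - 1)) = q ^ n - 1) (hvQ : v < Q ^ D) :
    g = .psl n q := by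
  have hp2 := hp.two_le
  have hq2 : 2 ≤ q := by
    rw [hq]
    calc 2 ≤ p := hp2
      _ = p ^ 1 := (pow_one p).symm
      _ ≤ p ^ a := Nat.pow_le_pow_right hp.pos (Nat.one_le_iff_ne_zero.2 ha)
  have hQN := pow_expo_dvd hcls hcond (by omega) hQ hc
  obtain ⟨r, f, hr, hf, hrf⟩ := hQ
  rw [← Nat.prime_iff] at hr
  by_cases hrp : r = p
  swap
  · -- cross characteristic
    exfalso
    have hrq : ¬ r ∣ q := by
      intro h
      rw [hq] at h
      exact hrp ((Nat.prime_dvd_prime_iff_eq hr hp).1 (hr.dvd_of_dvd_pow h))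
    have h1 : Q ^ expo g ∣ ∏ i ∈ range n, (q ^ (i + 1) - 1) := by
      have h2 : Q ^ expo g ∣ q ^ (n * (n - 1) / 2) * ∏ i ∈ range n, (q ^ (i + 1) - 1) := by
        rw [← glN_split]
        exact hQN.trans hcq
      refine Nat.Coprime.dvd_of_dvd_mul_left ?_ h2
      apply Nat.Coprime.pow
      rw [← hrf]
      apply Nat.Coprime.pow_left
      exact (hr.coprime_iff_not_dvd).2 hrq
    exact AutNum.cross hr hq2 hrq hrf.symm h1 (expo_ge hcls (by omega)) (by omega) hvQ (v_ge hq2 (by omega) hv)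
  subst hrp
  have hrQ : Q = r ^ f := hrf.symm
  have hf0 : f ≠ 0 := hf.ne'
  -- the bound for the characteristic part
  have hpp : f * (2 * expo g) ≤ a * (n * (n - 1)) := by
    have h1 : r ^ (f * expo g) ∣ r ^ (a * (n * (n - 1) / 2)) * ∏ i ∈ range n, (q ^ (i + 1) - 1) := by
      rw [pow_mul, ← hrQ, pow_mul, ← hq, ← glN_split]
      exact hQN.trans hcq
    have h2 : (r ^ (f * expo g)).Coprime (∏ i ∈ range n, (q ^ (i + 1) - 1)) := by
      apply Nat.Coprime.pow_left
      rw [hr.coprime_iff_not_dvd]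
      intro h3
      obtain ⟨i, -, h4⟩ := (hr.prime.dvd_finsetProd_iff _).1 h3
      have h5 : r ∣ q ^ (i + 1) := by
        rw [hq, ← pow_mul]
        exact dvd_pow_self r (by positivity)
      have h6 : 1 ≤ q ^ (i + 1) := Nat.one_le_pow _ _ (by omega)
      have h7 := (Nat.dvd_sub h5 h4)
      rw [Nat.sub_sub_self h6] at h7
      exact hr.one_lt.ne' (Nat.dvd_one.1 h7)
    have h3 := h2.dvd_of_dvd_mul_right h1
    have h4 := (Nat.pow_dvd_pow_iff_le_right hr.one_lt).1 h3
    calc f * (2 * expo g) = 2 * (f * expo g) := by ring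
      _ ≤ 2 * (a * (n * (n - 1) / 2)) := Nat.mul_le_mul_left 2 h4
      _ = a * (2 * (n * (n - 1) / 2)) := by ring
      _ = a * (n * (n - 1)) := by rw [two_mul_tri]
  -- the primitive divisors
  have hppd : ∀ t, 7 ≤ t → t ∣ a * n → ¬ t ∣ a → ∃ s, Ppd r t s ∧ s ∣ num g := by
    intro t ht htan hta
    obtain ⟨s, hs⟩ := exists_ppd hp2 ht
    refine ⟨s, hs, ?_⟩
    have h1 : s ∣ q ^ n - 1 := by
      rw [hq, ← pow_mul]
      exact (hs.iff _).2 htan
    have h2 : ¬ s ∣ q - 1 := by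
      intro h3
      apply hta
      rw [hq] at h3
      exact (hs.iff _).1 h3
    rw [← hv] at h1
    rcases hs.pr.dvd_mul.1 h1 with h3 | h3
    · rw [← hc]
      exact Dvd.dvd.mul_left (h3.trans hvc) _
    · exfalso
      rcases hs.pr.dvd_mul.1 h3 with h4 | h4
      · exact h2 h4
      · exact h2 (h4.trans (Nat.gcd_dvd_right _ _))
  have hapos : 0 < a := Nat.pos_of_ne_zero ha
  have hann : 11 ≤ a * n := by
    calc 11 ≤ n := hn11
      _ = 1 * n := (one_mul n).symm
      _ ≤ a * n := Nat.mul_le_mul_right n hapos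
  have hann' : ¬ a * n ∣ a := by
    intro h
    have := Nat.le_of_dvd hapos h
    have h2 : a * 2 ≤ a * n := Nat.mul_le_mul_left a (by omega)
    omega
  obtain ⟨s, hs, hsg⟩ := hppd (a * n) (by omega) dvd_rfl hann'
  have hsQ : ∀ {s t}, Ppd r t s → ¬ s ∣ Q := by
    intro s t hs h
    rw [hrQ] at h
    exact hs.nd (hs.pr.dvd_of_dvd_pow h)
  cases hcls with
  | psl =>
    have hsg' : s ∣ glN m Q := hsg
    obtain ⟨i, hi1, him, hi⟩ := dvd_glN hs.pr (hsQ hs) hsg'
    have h1 := hs.sub hrQ hi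
    have h2 : a * n ≤ f * m :=
      (Nat.le_of_dvd (Nat.mul_pos hf (by omega)) h1).trans (Nat.mul_le_mul_left f him)
    have h3 : f * (m * (m - 1)) ≤ a * (n * (n - 1)) := by
      have h4 : 2 * expo (Grp.psl m Q) = m * (m - 1) := two_mul_tri m
      rw [← h4]
      exact hpp
    obtain ⟨rfl, rfl⟩ := lin_arith (by omega) ha hnm h2 h3
    rw [hrQ, hq]
  | psu =>
    exfalso
    have h3 : f * (m * (m - 1)) ≤ a * (n * (n - 1)) := by
      have h4 : 2 * expo (Grp.psu m Q) = m * (m - 1) := two_mul_tri m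
      rw [← h4]
      exact hpp
    have hU : ∀ {s t}, 7 ≤ t → Ppd r t s → s ∣ num (Grp.psu m Q) →
        ∃ i, 1 ≤ i ∧ i ≤ m ∧ ((Odd i ∧ t ∣ 2 * (f * i) ∧ ¬ t ∣ f * i) ∨ (Even i ∧ t ∣ f * i)) := by
      intro s t ht hs hsg
      have hsg' : s ∣ Q ^ (m * (m - 1) / 2) * prU Q m := hsg
      rcases hs.pr.dvd_mul.1 hsg' with h4 | h4
      · exact absurd (hs.pr.dvd_of_dvd_pow h4) (hsQ hs)
      · obtain ⟨i, hi1, him, hi⟩ := dvd_prU hs.pr h4
        refine ⟨i, hi1, him, ?_⟩
        rcases hi with ⟨ho, hi⟩ | ⟨he, hi⟩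
        · exact Or.inl ⟨ho, hs.add ht hrQ hp2 hi⟩
        · exact Or.inr ⟨he, hs.sub hrQ hi⟩
    -- `a * n ≤ f * m` suffices when `a * n` divides `f * i` with `i` even
    have hnodd : Odd n := hn.odd_of_ne_two (by omega)
    obtain ⟨i, hi1, him, hi⟩ := hU (by omega) hs hsg
    rcases hi with ⟨hio, hi2, hi3⟩ | ⟨hie, hi2⟩
    · -- `a` is even
      have hae : Even a := by
        by_contra hne
        rw [Nat.not_even_iff_odd] at hne
        apply hi3
        exact (Nat.coprime_two_right.2 (hne.mul hnodd)).dvd_of_dvd_mul_left hi2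
      obtain ⟨b, rfl⟩ := hae
      have hb : 0 < b := by omega
      have h4 : (b + b) * n = 2 * (b * n) := by ring
      rw [h4] at hi2 hi3
      have h5 : b * n ∣ f * i := Nat.dvd_of_mul_dvd_mul_left (by norm_num) hi2
      obtain ⟨u, hu⟩ := h5
      have huo : Odd u := by
        by_contra hne
        rw [Nat.not_odd_iff_even] at hne
        obtain ⟨w, rfl⟩ := hne
        apply hi3
        exact ⟨w, by rw [hu]; ring⟩
      have hbn : 11 ≤ b * n := by
        calc 11 ≤ n := hn11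
          _ = 1 * n := (one_mul n).symm
          _ ≤ b * n := Nat.mul_le_mul_right n hb
      have hbn' : ¬ b * n ∣ b + b := by
        intro h
        have h6 : b * n ∣ b * 2 := by
          rw [mul_two]
          exact h
        have := Nat.le_of_dvd (by norm_num) (Nat.dvd_of_mul_dvd_mul_left hb h6)
        omega
      obtain ⟨s', hs', hsg'⟩ := hppd (b * n) (by omega) ⟨2, by ring⟩ hbn'
      obtain ⟨i', hi1', him', hi'⟩ := hU (by omega) hs' hsg'
      have hbn0 : 0 < b * n := by omega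
      rcases hi' with ⟨hio', hi2', hi3'⟩ | ⟨hie', w, hw⟩
      · obtain ⟨w, hw⟩ := hi2'
        have hwo : Odd w := by
          by_contra hne
          rw [Nat.not_odd_iff_even] at hne
          obtain ⟨w', rfl⟩ := hne
          apply hi3'
          refine ⟨w', ?_⟩
          have : 2 * (f * i') = 2 * (b * n * w') := by rw [hw]; ring
          omega
        have h6 : (b * n) * (2 * u * i') = (b * n) * (w * i) := by
          calc (b * n) * (2 * u * i') = 2 * (b * n * u) * i' := by ring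
            _ = 2 * (f * i) * i' := by rw [hu]
            _ = 2 * (f * i') * i := by ring
            _ = (b * n) * (w * i) := by rw [hw]; ring
        have h7 := Nat.eq_of_mul_eq_mul_left hbn0 h6
        have h8 : Odd (w * i) := hwo.mul hio
        rw [← h7, ← Nat.not_even_iff_odd] at h8
        exact h8 (by rw [mul_assoc]; exact even_two_mul _)
      · have h6 : (b * n) * (u * i') = (b * n) * (w * i) := by
          calc (b * n) * (u * i') = (b * n * u) * i' := by ring
            _ = (f * i) * i' := by rw [hu]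
            _ = (f * i') * i := by ring
            _ = (b * n) * (w * i) := by rw [hw]; ring
        have h7 := Nat.eq_of_mul_eq_mul_left hbn0 h6
        have h8 : Even w := by
          have h9 : Even (w * i) := by rw [← h7]; exact hie'.mul_left u
          rcases Nat.even_mul.1 h9 with h10 | h10
          · exact h10
          · exact absurd hio (Nat.not_odd_iff_even.2 h10)
        obtain ⟨w', rfl⟩ := h8
        have hw0 : w' ≠ 0 := by
          rintro rfl
          rw [add_zero, mul_zero] at hw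
          exact (Nat.mul_pos hf (by omega : 0 < i')).ne' hw
        have h9 : (b + b) * n ≤ f * m := by
          calc (b + b) * n = b * n * 2 := by ring
            _ ≤ b * n * (w' + w') := Nat.mul_le_mul_left _ (by omega)
            _ = f * i' := hw.symm
            _ ≤ f * m := Nat.mul_le_mul_left f him'
        obtain ⟨hmn, hfa⟩ := lin_arith (by omega) ha hnm h9 h3
        subst hfa
        have h10 : (b + b) * n ∣ (b + b) * (2 * i) := by
          rw [show (b + b) * n = 2 * (b * n) by ring, show (b + b) * (2 * i) = 2 * ((b + b) * i) by ring]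
          exact hi2
        have h11 : n ∣ 2 * i := Nat.dvd_of_mul_dvd_mul_left hf h10
        have h12 : n ∣ i := (Nat.coprime_two_right.2 hnodd).dvd_of_dvd_mul_left h11
        apply hi3
        rw [show 2 * (b * n) = (b + b) * n by ring]
        exact Nat.mul_dvd_mul_left _ h12
    · have h2 : a * n ≤ f * m :=
        (Nat.le_of_dvd (Nat.mul_pos hf (by omega)) hi2).trans (Nat.mul_le_mul_left f him)
      obtain ⟨hmn, hfa⟩ := lin_arith (by omega) ha hnm h2 h3
      subst hfa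
      have h4 : n ∣ i := Nat.dvd_of_mul_dvd_mul_left hf hi2
      have h5 := Nat.le_of_dvd (by omega) h4
      have h6 : i = n := by omega
      rw [h6] at hie
      exact (Nat.not_even_iff_odd.2 hnodd) hie
  | psp =>
    exfalso
    have hsg' : s ∣ Q ^ (m ^ 2) * prB Q m := hsg
    rcases hs.pr.dvd_mul.1 hsg' with h4 | h4
    · exact absurd (hs.pr.dvd_of_dvd_pow h4) (hsQ hs)
    obtain ⟨i, hi1, him, hi⟩ := dvd_prB hs.pr h4
    have h1 := hs.sub hrQ hi
    have h2 : a * n ≤ 2 * (f * m) := by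
      have h5 := Nat.le_of_dvd (Nat.mul_pos hf (by omega)) h1
      have h6 := Nat.mul_le_mul_left (f * 2) him
      calc a * n ≤ f * (2 * i) := h5
        _ = f * 2 * i := by ring
        _ ≤ f * 2 * m := h6
        _ = 2 * (f * m) := by ring
    have h3 : f * (2 * m ^ 2) ≤ a * (n * (n - 1)) := hpp
    have h5 : (2 * (f * m)) * m ≤ (2 * (f * m)) * (n - 1) := by
      calc (2 * (f * m)) * m = f * (2 * m ^ 2) := by ring
        _ ≤ a * (n * (n - 1)) := h3
        _ = (a * n) * (n - 1) := by ring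
        _ ≤ (2 * (f * m)) * (n - 1) := Nat.mul_le_mul_right _ h2
    have h6 := Nat.le_of_mul_le_mul_left h5 (Nat.mul_pos (by norm_num) (Nat.mul_pos hf (by omega)))
    omega
  | oodd =>
    exfalso
    have hsg' : s ∣ Q ^ (m ^ 2) * prB Q m := hsg
    rcases hs.pr.dvd_mul.1 hsg' with h4 | h4
    · exact absurd (hs.pr.dvd_of_dvd_pow h4) (hsQ hs)
    obtain ⟨i, hi1, him, hi⟩ := dvd_prB hs.pr h4
    have h1 := hs.sub hrQ hi
    have h2 : a * n ≤ 2 * (f * m) := by
      have h5 := Nat.le_of_dvd (Nat.mul_pos hf (by omega)) h1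
      have h6 := Nat.mul_le_mul_left (f * 2) him
      calc a * n ≤ f * (2 * i) := h5
        _ = f * 2 * i := by ring
        _ ≤ f * 2 * m := h6
        _ = 2 * (f * m) := by ring
    have h3 : f * (2 * m ^ 2) ≤ a * (n * (n - 1)) := hpp
    have h5 : (2 * (f * m)) * m ≤ (2 * (f * m)) * (n - 1) := by
      calc (2 * (f * m)) * m = f * (2 * m ^ 2) := by ring
        _ ≤ a * (n * (n - 1)) := h3
        _ = (a * n) * (n - 1) := by ring
        _ ≤ (2 * (f * m)) * (n - 1) := Nat.mul_le_mul_right _ h2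
    have h6 := Nat.le_of_mul_le_mul_left h5 (Nat.mul_pos (by norm_num) (Nat.mul_pos hf (by omega)))
    omega
  | oplus =>
    exfalso
    have h3 : f * (2 * (m * (m - 1))) ≤ a * (n * (n - 1)) := hpp
    have hsg' : s ∣ Q ^ (m * (m - 1)) * ((Q ^ m - 1) * prB Q (m - 1)) := hsg
    rcases hs.pr.dvd_mul.1 hsg' with h4 | h4
    · exact absurd (hs.pr.dvd_of_dvd_pow h4) (hsQ hs)
    rcases hs.pr.dvd_mul.1 h4 with h4 | h4
    · have h1 := Nat.le_of_dvd (Nat.mul_pos hf (by omega)) (hs.sub hrQ h4)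
      have h5 : (f * m) * (2 * (m - 1)) ≤ (f * m) * (n - 1) := by
        calc (f * m) * (2 * (m - 1)) = f * (2 * (m * (m - 1))) := by ring
          _ ≤ a * (n * (n - 1)) := h3
          _ = (a * n) * (n - 1) := by ring
          _ ≤ (f * m) * (n - 1) := Nat.mul_le_mul_right _ h1
      have h6 := Nat.le_of_mul_le_mul_left h5 (Nat.mul_pos hf (by omega))
      omega
    · obtain ⟨i, hi1, him, hi⟩ := dvd_prB hs.pr h4
      have h1 := hs.sub hrQ hi
      have h2 : a * n ≤ 2 * (f * (m - 1)) := by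
        have h5 := Nat.le_of_dvd (Nat.mul_pos hf (by omega)) h1
        have h6 := Nat.mul_le_mul_left (f * 2) him
        calc a * n ≤ f * (2 * i) := h5
          _ = f * 2 * i := by ring
          _ ≤ f * 2 * (m - 1) := h6
          _ = 2 * (f * (m - 1)) := by ring
      have h5 : (2 * (f * (m - 1))) * m ≤ (2 * (f * (m - 1))) * (n - 1) := by
        calc (2 * (f * (m - 1))) * m = f * (2 * (m * (m - 1))) := by ring
          _ ≤ a * (n * (n - 1)) := h3
          _ = (a * n) * (n - 1) := by ring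
          _ ≤ (2 * (f * (m - 1))) * (n - 1) := Nat.mul_le_mul_right _ h2
      have h6 := Nat.le_of_mul_le_mul_left h5 (Nat.mul_pos (by norm_num) (Nat.mul_pos hf (by omega)))
      omega
  | ominus =>
    exfalso
    have h3 : f * (2 * (m * (m - 1))) ≤ a * (n * (n - 1)) := hpp
    have hM : ∀ {s t}, 7 ≤ t → Ppd r t s → s ∣ num (Grp.ominus m Q) →
        (t ∣ 2 * (f * m) ∧ ¬ t ∣ f * m) ∨ ∃ i, 1 ≤ i ∧ i ≤ m - 1 ∧ t ∣ f * (2 * i) := by
      intro s t ht hs hsg
      have hsg' : s ∣ Q ^ (m * (m - 1)) * ((Q ^ m + 1) * prB Q (m - 1)) := hsg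
      rcases hs.pr.dvd_mul.1 hsg' with h4 | h4
      · exact absurd (hs.pr.dvd_of_dvd_pow h4) (hsQ hs)
      rcases hs.pr.dvd_mul.1 h4 with h4 | h4
      · exact Or.inl (hs.add ht hrQ hp2 h4)
      · obtain ⟨i, hi1, him, hi⟩ := dvd_prB hs.pr h4
        exact Or.inr ⟨i, hi1, him, hs.sub hrQ hi⟩
    rcases hM (by omega) hs hsg with ⟨h1, h1'⟩ | ⟨i, hi1, him, h1⟩
    · have h2 := Nat.le_of_dvd (Nat.mul_pos (by norm_num) (Nat.mul_pos hf (by omega))) h1
      have h5 : (2 * (f * m)) * (m - 1) ≤ (2 * (f * m)) * (n - 1) := by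
        calc (2 * (f * m)) * (m - 1) = f * (2 * (m * (m - 1))) := by ring
          _ ≤ a * (n * (n - 1)) := h3
          _ = (a * n) * (n - 1) := by ring
          _ ≤ (2 * (f * m)) * (n - 1) := Nat.mul_le_mul_right _ h2
      have h6 := Nat.le_of_mul_le_mul_left h5 (Nat.mul_pos (by norm_num) (Nat.mul_pos hf (by omega)))
      have hmn : m = n := by omega
      subst hmn
      have h7 : a ≤ 2 * f := by
        have h8 : a * m ≤ (2 * f) * m := by
          calc a * m ≤ 2 * (f * m) := h2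
            _ = (2 * f) * m := by ring
        exact Nat.le_of_mul_le_mul_right h8 (by omega)
      have h8 : 2 * f ≤ a := by
        have h9 : (2 * f) * (m * (m - 1)) ≤ a * (m * (m - 1)) := by
          calc (2 * f) * (m * (m - 1)) = f * (2 * (m * (m - 1))) := by ring
            _ ≤ _ := h3
        exact Nat.le_of_mul_le_mul_right h9 (Nat.mul_pos (by omega) (by omega))
      have h9 : a = 2 * f := by omega
      subst h9
      have hfm : 11 ≤ f * m := by
        calc 11 ≤ m := hn11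
          _ = 1 * m := (one_mul m).symm
          _ ≤ f * m := Nat.mul_le_mul_right m hf
      have hfm' : ¬ f * m ∣ 2 * f := by
        intro h
        have h10 : f * m ∣ f * 2 := by rwa [mul_comm f 2]
        have := Nat.le_of_dvd (by norm_num) (Nat.dvd_of_mul_dvd_mul_left hf h10)
        omega
      obtain ⟨s', hs', hsg'⟩ := hppd (f * m) (by omega) ⟨2, by ring⟩ hfm'
      rcases hM (by omega) hs' hsg' with ⟨-, h10⟩ | ⟨i, hi1, him, h10⟩
      · exact h10 dvd_rfl
      · have h11 : m ∣ 2 * i := Nat.dvd_of_mul_dvd_mul_left hf h10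
        have hmodd : Odd m := hn.odd_of_ne_two (by omega)
        have h12 : m ∣ i := (Nat.coprime_two_right.2 hmodd).dvd_of_dvd_mul_left h11
        have := Nat.le_of_dvd (by omega) h12
        omega
    · have h2 : a * n ≤ 2 * (f * (m - 1)) := by
        have h5 := Nat.le_of_dvd (Nat.mul_pos hf (by omega)) h1
        have h6 := Nat.mul_le_mul_left (f * 2) him
        calc a * n ≤ f * (2 * i) := h5
          _ = f * 2 * i := by ring
          _ ≤ f * 2 * (m - 1) := h6
          _ = 2 * (f * (m - 1)) := by ring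
      have h5 : (2 * (f * (m - 1))) * m ≤ (2 * (f * (m - 1))) * (n - 1) := by
        calc (2 * (f * (m - 1))) * m = f * (2 * (m * (m - 1))) := by ring
          _ ≤ a * (n * (n - 1)) := h3
          _ = (a * n) * (n - 1) := by ring
          _ ≤ (2 * (f * (m - 1))) * (n - 1) := Nat.mul_le_mul_right _ h2
      have h6 := Nat.le_of_mul_le_mul_left h5 (Nat.mul_pos (by norm_num) (Nat.mul_pos hf (by omega)))
      omega

end Cfsg.Agent.H872
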