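import Cfsg.Agent.H872.AutWeyl
import Cfsg.Agent.H872.AutBasic

/-!
# No `Auto` subgroups in exceptional groups of Lie type (helper872)
-/

set_option autoImplicit false
set_option linter.unusedSectionVars false

namespace Cfsg.Agent.H872

open Subgroup Cfsg Cfsg.Lie Cfsg.Lie.ChevalleyDatum Cfsg.Agent.ChevalleyStructure Cfsg.Agent.ChevalleyStructure.Elts
open Cfsg.Agent.H872.AutWeyl

theorem genSubgroup_le_group {D : ChevalleyDatum} (hD : InList D) {F : Type*} [Field F] (S : Set (List (ℕ × F))) :
    D.genSubgroup F S ≤ D.group F := by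
  refine (Subgroup.closure_le _).2 ?_
  rintro g ⟨w, -, hg⟩
  rw [(eq_wordG_iff hD g w).2 hg]
  exact wordG_mem_group hD w

/-- an `Auto` subgroup in a group of matrices contained in a Chevalley group -/
theorem Auto.false_of_small {D : ChevalleyDatum} (hS : Small.{0} D) (hI : Fintype.card D.Idx ≤ 500)
    {F : Type} [Field F] [Finite F] {S : Subgroup (GL D.Idx F)} (hle : S ≤ D.group F) {C : Subgroup S} {n : ℕ}
    (h : Auto S C n) (h3 : ∀ r : ℕ, r.Prime → 23 ≤ r → r ∣ Nat.card F → r ^ 3 ∣ Nat.card S) : False := by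
  obtain ⟨s, hs, hd⟩ := h.exists_prime
  obtain ⟨w, hw, hW⟩ := hS
  have hs23 : 23 ≤ s := by
    have h1 := h.le_prime hs hd
    have := h.ge
    omega
  by_cases hsF : s ∣ Nat.card F
  · -- unipotent elements
    obtain ⟨x, -, hx⟩ := h.exists_order (h.pow_dvd hs hd (h3 s hs hs23 hsF))
    have hfs : Fact s.Prime := ⟨hs⟩
    have hch : CharP F s := by
      have := Fintype.ofFinite F
      obtain ⟨r, hr⟩ := CharP.exists F
      have hrp : r.Prime := CharP.char_is_prime F r
      obtain ⟨m, -, hm⟩ := FiniteField.card F r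
      rw [Nat.card_eq_fintype_card, hm] at hsF
      rw [(Nat.prime_dvd_prime_iff_eq hs hrp).1 (hs.dvd_of_dvd_pow hsF)]
      exact hr
    have h4 : (((x : S) : GL D.Idx F) : Matrix D.Idx D.Idx F) ^ (s ^ 3) = 1 := by
      have h5 : (x : S) ^ (s ^ 3) = 1 := by rw [← hx]; exact pow_orderOf_eq_one x
      have h6 := congrArg (fun g : S => ((g : GL D.Idx F) : Matrix D.Idx D.Idx F)) h5
      simpa using h6
    have h5 := pow_eq_one_of_unip (r := s) (j := 2) h4 (by nlinarith)
    have h6 : (x : S) ^ (s ^ 2) = 1 := by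
      apply Subtype.ext
      apply Units.ext
      simpa using h5
    have h7 := orderOf_dvd_of_pow_eq_one h6
    rw [hx] at h7
    have := (Nat.pow_dvd_pow_iff_le_right hs.one_lt).1 h7
    omega
  · obtain ⟨x, g, k, hx, hg, hk⟩ := h.fus hs hd
    let φ : S →* ↥(D.group F) := Subgroup.inclusion hle
    have hφ : Function.Injective φ := Subgroup.inclusion_injective hle
    have h4 := hW F inferInstance inferInstance (φ x) (φ g) s k hs hsF
      (by rw [orderOf_injective φ hφ, hx]) (by rw [← map_mul, ← map_inv, ← map_mul, hg, map_pow])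
    apply hw n h.prime h.ge
    rw [← hk]
    apply orderOf_dvd_of_pow_eq_one
    have h5 := (ZMod.natCast_eq_natCast_iff _ _ _).2 h4
    simpa using h5

end Cfsg.Agent.H872
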