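import Mathlib
import Cfsg.Agent.H872.AutBasic
import Cfsg.Agent.S0033

/-!
# Relative version, and the passage to a normal simple subgroup (helper872)

`RelAuto H C n` : `C` is cyclic in `H`, contains the `H`-centralisers of its nonidentity elements, and the automiser
in `H` has prime order `n`. If `T` is a nonabelian simple subgroup normalised by `H` then `C ≤ T` and
`RelAuto T C n` (Thompson's theorem on fixed point free automorphisms and Burnside's transfer theorem).
-/

set_option autoImplicit false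

namespace Cfsg.Agent.H872

open Subgroup

/-- relative version of `Auto` -/
structure RelAuto {G : Type*} [Group G] (H C : Subgroup G) (n : ℕ) : Prop where
  le : C ≤ H
  prime : n.Prime
  ge : 11 ≤ n
  cyc : IsCyclic C
  cc : ∀ x ∈ C, x ≠ 1 → ∀ g ∈ H, g * x = x * g → g ∈ C
  odd : Odd (Nat.card C)
  big : 10 * n < Nat.card C
  act : ∃ g ∈ H, ∃ k : ℕ, (∀ x ∈ C, g * x * g⁻¹ = x ^ k) ∧
    ∀ s : ℕ, s.Prime → s ∣ Nat.card C → orderOf (k : ZMod s) = n
  nrm : Nat.card (normalizer (C : Set G) ⊓ H : Subgroup G) = n * Nat.card C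

variable {G : Type*} [Group G] {H C T : Subgroup G} {n : ℕ}

theorem RelAuto.comm (h : RelAuto H C n) {x y : G} (hx : x ∈ C) (hy : y ∈ C) : x * y = y * x := by
  have hcyc := h.cyc
  let _ : CommGroup C := IsCyclic.commGroup
  have := mul_comm (⟨x, hx⟩ : C) ⟨y, hy⟩
  exact congrArg Subtype.val this

theorem mem_normalizer_of_finite [Finite G] {C : Subgroup G} {g : G} (hg : ∀ x ∈ C, g * x * g⁻¹ ∈ C) :
    g ∈ normalizer (C : Set G) := by
  have hinj : Function.Injective (fun x : C => (⟨g * x * g⁻¹, hg x x.2⟩ : C)) := by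
    intro x y hxy
    have := congrArg Subtype.val hxy
    simp only at this
    exact Subtype.ext (mul_left_cancel (mul_right_cancel this))
  have hsurj := Finite.surjective_of_injective hinj
  rw [mem_normalizer_iff]
  intro x
  constructor
  · intro hx
    exact hg x hx
  · intro hx
    obtain ⟨y, hy⟩ := hsurj ⟨_, hx⟩
    have := congrArg Subtype.val hy
    simp only at this
    have h3 : (y : G) = x := mul_left_cancel (mul_right_cancel this)
    rw [← h3]
    exact y.2

/-- restriction to a smaller group containing the normaliser -/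
theorem RelAuto.restrict [Finite G] (h : RelAuto H C n) {K : Subgroup G} (hKH : K ≤ H)
    (hN : normalizer (C : Set G) ⊓ H ≤ K) : RelAuto K C n := by
  obtain ⟨g, hg, k, hk, hks⟩ := h.act
  refine ⟨?_, h.prime, h.ge, h.cyc, fun x hx hx1 g hg => h.cc x hx hx1 g (hKH hg), h.odd, h.big, ?_, ?_⟩
  · exact fun x hx => hN ⟨le_normalizer hx, h.le hx⟩
  · refine ⟨g, hN ⟨?_, hg⟩, k, hk, hks⟩
    exact mem_normalizer_of_finite (fun x hx => by rw [hk x hx]; exact C.pow_mem hx k)
  · rw [← h.nrm]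
    congr 2
    apply le_antisymm
    · exact inf_le_inf_left _ hKH
    · exact le_inf inf_le_left hN

theorem RelAuto.toAuto (h : RelAuto H C n) : Auto H (C.subgroupOf H) n := by
  have e : C.subgroupOf H ≃* C := subgroupOfEquivOfLe h.le
  have hc : Nat.card (C.subgroupOf H) = Nat.card C := Nat.card_congr e.toEquiv
  obtain ⟨g, hg, k, hk, hks⟩ := h.act
  refine ⟨h.prime, h.ge, ?_, ?_, hc ▸ h.odd, hc ▸ h.big, ⟨⟨g, hg⟩, k, ?_, fun s hs hd => hks s hs (hc ▸ hd)⟩, ?_⟩
  · exact e.isCyclic.2 h.cyc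
  · intro x hx hx1 g hg
    rw [mem_centralizer_singleton_iff] at hg
    rw [mem_subgroupOf] at hx ⊢
    refine h.cc x hx (fun h1 => hx1 (Subtype.ext h1)) g g.2 ?_
    exact congrArg Subtype.val hg
  · intro x hx
    exact Subtype.ext (hk x (mem_subgroupOf.1 hx))
  · rw [hc, ← h.nrm]
    have h1 : normalizer ((C.subgroupOf H : Subgroup H) : Set H) = (normalizer (C : Set G)).subgroupOf H := by
      ext x
      rw [mem_subgroupOf, mem_normalizer_iff, mem_normalizer_iff]
      constructor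
      · intro hx y
        constructor
        · intro hy
          have := (hx ⟨y, h.le hy⟩).1 (mem_subgroupOf.2 hy)
          exact mem_subgroupOf.1 this
        · intro hy
          have hyH : y ∈ H := by
            have h2 : (x : G) * y * (x : G)⁻¹ ∈ H := h.le hy
            have h3 := H.mul_mem (H.mul_mem (H.inv_mem x.2) h2) x.2
            have h4 : (x : G)⁻¹ * (x * y * (x : G)⁻¹) * x = y := by group
            rwa [h4] at h3
          exact mem_subgroupOf.1 ((hx ⟨y, hyH⟩).2 (mem_subgroupOf.2 hy))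
      · intro hx y
        exact hx (y : G)
    rw [h1, ← subgroupOf_map_subtype]
    exact Nat.card_congr (((normalizer (C : Set G)).subgroupOf H).equivMapOfInjective H.subtype
      H.subtype_injective).toEquiv

/-- the normaliser modulo `C` -/
theorem RelAuto.gen [Finite G] (h : RelAuto H C n) {g g' : G} (hg : g ∈ normalizer (C : Set G) ⊓ H) (hgC : g ∉ C)
    (hg' : g' ∈ normalizer (C : Set G) ⊓ H) : ∃ j : ℕ, (g ^ j)⁻¹ * g' ∈ C := by
  classical
  set N : Subgroup G := normalizer (C : Set G) ⊓ H with hN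
  have hCN : C ≤ N := le_inf le_normalizer h.le
  have hCn : (C.subgroupOf N).Normal := by
    constructor
    intro x hx y
    rw [mem_subgroupOf] at hx ⊢
    exact ((mem_normalizer_iff.1 y.2.1) x).1 hx
  have hidx : Nat.card (N ⧸ C.subgroupOf N) = n := by
    have h1 := (C.subgroupOf N).card_eq_card_quotient_mul_card_subgroup
    have h2 : Nat.card (C.subgroupOf N) = Nat.card C := Nat.card_congr (subgroupOfEquivOfLe hCN).toEquiv
    rw [h2, h.nrm] at h1
    exact (Nat.eq_of_mul_eq_mul_right Nat.card_pos h1).symm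
  have : Fact n.Prime := ⟨h.prime⟩
  let a : N ⧸ C.subgroupOf N := QuotientGroup.mk' _ ⟨g, hg⟩
  let b : N ⧸ C.subgroupOf N := QuotientGroup.mk' _ ⟨g', hg'⟩
  have ha : a ≠ 1 := by
    intro h1
    have := (QuotientGroup.eq_one_iff _).1 h1
    exact hgC (mem_subgroupOf.1 this)
  have htop : b ∈ zpowers a := mem_zpowers_of_prime_card hidx ha
  rw [mem_zpowers_iff_mem_range_orderOf] at htop
  obtain ⟨j, -, hj⟩ := Finset.mem_image.1 htop
  refine ⟨j, ?_⟩
  have h2 : (QuotientGroup.mk' (C.subgroupOf N)) ((⟨g, hg⟩ : N) ^ j) = QuotientGroup.mk' _ ⟨g', hg'⟩ := by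
    rw [map_pow]
    exact hj
  have h3 := QuotientGroup.eq.1 h2
  exact mem_subgroupOf.1 h3

/-- the powers in the action -/
theorem act_pow {g : G} {k : ℕ} (hk : ∀ x ∈ C, g * x * g⁻¹ = x ^ k) (j : ℕ) :
    ∀ x ∈ C, g ^ j * x * (g ^ j)⁻¹ = x ^ (k ^ j) := by
  induction j with
  | zero => intro x _; simp
  | succ j ih =>
    intro x hx
    calc g ^ (j + 1) * x * (g ^ (j + 1))⁻¹ = g ^ j * (g * x * g⁻¹) * (g ^ j)⁻¹ := by rw [pow_succ]; group
      _ = g ^ j * x ^ k * (g ^ j)⁻¹ := by rw [hk x hx]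
      _ = (g ^ j * x * (g ^ j)⁻¹) ^ k := by rw [conj_pow]
      _ = x ^ (k ^ (j + 1)) := by rw [ih x hx, ← pow_mul, pow_succ]

/-- `x ↦ x ^ m` is onto `C` -/
theorem pow_surj [Finite G] {m : ℕ} (hm : (Nat.card C).Coprime m) {x : G} (hx : x ∈ C) : ∃ y ∈ C, y ^ m = x := by
  obtain ⟨y, hy⟩ := (powCoprime hm).surjective ⟨x, hx⟩
  exact ⟨y, y.2, congrArg Subtype.val hy⟩

/-- **passage to a normal simple subgroup** -/
theorem RelAuto.simple [Finite G] (h : RelAuto H C n) (hTH : T ≤ H) (hTn : ∀ g ∈ H, ∀ x ∈ T, g * x * g⁻¹ ∈ T)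
    (hsimp : IsSimpleGroup T) (hna : ∃ a ∈ T, ∃ b ∈ T, a * b ≠ b * a) : RelAuto T C n := by
  have hTna : ¬ Group.IsNilpotent T := by
    intro hnil
    obtain ⟨a, ha, b, hb, hab⟩ := hna
    have h1 : center T ≠ ⊥ := Group.IsNilpotent.center_ne_bot _
    rcases hsimp.eq_bot_or_eq_top_of_normal (center T) inferInstance with h2 | h2
    · exact h1 h2
    · have h3 : (⟨a, ha⟩ : T) ∈ center T := by rw [h2]; trivial
      have h4 := (mem_center_iff.1 h3) ⟨b, hb⟩
      exact hab (congrArg Subtype.val h4).symm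
  -- Step 1
  have step1 : ∃ x ∈ C, x ∈ T ∧ x ≠ 1 := by
    by_contra hcon
    push Not at hcon
    obtain ⟨s, hs, hsd⟩ : ∃ s : ℕ, s.Prime ∧ s ∣ Nat.card C := by
      apply Nat.exists_prime_and_dvd
      intro h1
      have h2 := h.big
      have h3 := h.ge
      omega
    have : Fact s.Prime := ⟨hs⟩
    obtain ⟨x, hxs⟩ := exists_prime_orderOf_dvd_card' (G := C) s hsd
    have hx1 : (x : G) ≠ 1 := by
      intro h1
      have : x = 1 := Subtype.ext h1
      rw [this, orderOf_one] at hxs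
      exact hs.one_lt.ne hxs
    let φ : T ≃* T := MulEquiv.mk'
      { toFun := fun t => ⟨x * t * (x : G)⁻¹, hTn x (h.le x.2) t t.2⟩
        invFun := fun t => ⟨(x : G)⁻¹ * t * x, by
          have := hTn (x : G)⁻¹ (H.inv_mem (h.le x.2)) t t.2
          rwa [inv_inv] at this⟩
        left_inv := fun t => Subtype.ext (by simp only; group)
        right_inv := fun t => Subtype.ext (by simp only; group) }
      (fun a b => Subtype.ext (by simp only [Equiv.coe_fn_mk, Subgroup.coe_mul]; group))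
    have hφ : ∀ t : T, ((φ t : T) : G) = x * t * (x : G)⁻¹ := fun t => rfl
    have hφn : ∀ (m : ℕ) (t : T), (((φ ^ m) t : T) : G) = (x : G) ^ m * t * ((x : G) ^ m)⁻¹ := by
      intro m
      induction m with
      | zero => intro t; simp
      | succ m ih =>
        intro t
        rw [pow_succ, MulAut.mul_apply, ih, hφ, pow_succ]
        group
    have hfix : ∀ t : T, φ t = t → t = 1 := by
      intro t ht
      have h1 := congrArg Subtype.val ht
      rw [hφ] at h1
      have h2 : (t : G) * x = x * t := by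
        calc (t : G) * x = (x * t * (x : G)⁻¹) * x := by rw [h1]
          _ = x * t := by group
      have h3 := h.cc x x.2 hx1 t (hTH t.2) h2
      by_contra ht1
      exact ht1 (Subtype.ext (hcon t h3 t.2))
    have hφ1 : φ ≠ 1 := by
      intro h1
      obtain ⟨t, ht⟩ := exists_ne (1 : T)
      apply ht
      apply hfix
      rw [h1]
      rfl
    have hφs : φ ^ s = 1 := by
      ext t
      rw [hφn]
      have h1 : (x : G) ^ s = 1 := by
        rw [← Subgroup.coe_pow, ← hxs, pow_orderOf_eq_one]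
        rfl
      rw [h1]
      simp
    have hord : orderOf φ = s := orderOf_eq_prime hφs hφ1
    exact hTna (S0033.result φ (fun t ht => hfix t ht) s hs hord)
  -- Step 2
  have step2 : ∃ g ∈ T, g ∈ normalizer (C : Set G) ∧ g ∉ C := by
    obtain ⟨x0, hx0C, hx0T, hx01⟩ := step1
    obtain ⟨s, hs, hsd⟩ : ∃ s : ℕ, s.Prime ∧ s ∣ orderOf x0 := by
      apply Nat.exists_prime_and_dvd
      intro h1
      exact hx01 (orderOf_eq_one_iff.1 h1)
    have : Fact s.Prime := ⟨hs⟩
    obtain ⟨x, hxC, hxT, hxs⟩ : ∃ x ∈ C, x ∈ T ∧ orderOf x = s := by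
      obtain ⟨m, hm⟩ := hsd
      have hm0 : m ≠ 0 := by
        rintro rfl
        rw [mul_zero] at hm
        exact (orderOf_pos x0).ne' hm
      refine ⟨x0 ^ m, C.pow_mem hx0C m, T.pow_mem hx0T m, ?_⟩
      rw [orderOf_pow_of_dvd hm0 (by rw [hm]; exact Dvd.intro_left _ rfl), hm, Nat.mul_div_cancel _ (Nat.pos_of_ne_zero hm0)]
    have hx1 : x ≠ 1 := by
      rintro rfl
      rw [orderOf_one] at hxs
      exact hs.one_lt.ne hxs
    have hxp : IsPGroup s (zpowers (⟨x, hxT⟩ : T)) := by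
      apply IsPGroup.of_card (n := 1)
      rw [Nat.card_zpowers, pow_one, ← hxs]
      exact (Subgroup.orderOf_mk _ _)
    obtain ⟨P, hP⟩ := hxp.exists_le_sylow
    have hxP : (⟨x, hxT⟩ : T) ∈ P := hP (mem_zpowers _)
    have hPnt : Nontrivial P := ⟨⟨⟨⟨x, hxT⟩, hxP⟩, 1, fun h1 => hx1 (by
      have := congrArg Subtype.val (congrArg Subtype.val h1)
      exact this)⟩⟩
    have hZ : Nontrivial (center P) := P.isPGroup'.center_nontrivial
    obtain ⟨z, hz⟩ := exists_ne (1 : center P)
    have hz1 : ((z : P) : T) ≠ 1 := fun h1 => hz (Subtype.ext (Subtype.ext h1))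
    have hz1' : (((z : P) : T) : G) ≠ 1 := fun h1 => hz1 (Subtype.ext h1)
    have hzc : ∀ y ∈ P, (((z : P) : T) : G) * (y : T) = (y : T) * (((z : P) : T) : G) := by
      intro y hy
      have := (mem_center_iff.1 z.2) ⟨y, hy⟩
      exact (congrArg Subtype.val (congrArg Subtype.val this)).symm
    have hzC : (((z : P) : T) : G) ∈ C := by
      refine h.cc x hxC hx1 _ (hTH z.1.1.2) ?_
      exact hzc ⟨x, hxT⟩ hxP
    have hPC : ∀ y ∈ P, (y : G) ∈ C := by
      intro y hy
      exact h.cc _ hzC hz1' _ (hTH y.2) (hzc y hy).symm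
    by_cases hburn : normalizer ((P : Subgroup T) : Set T) ≤ centralizer ((P : Subgroup T) : Set T)
    · exfalso
      have hcompl := MonoidHom.ker_transferSylow_isComplement' P hburn
      rcases hsimp.eq_bot_or_eq_top_of_normal (MonoidHom.transferSylow P hburn).ker inferInstance with h2 | h2
      · rw [h2] at hcompl
        have h3 := isComplement'_bot_left.1 hcompl
        obtain ⟨a, ha, b, hb, hab⟩ := hna
        apply hab
        have h5 : ∀ t : T, t ∈ P := by
          intro t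
          have h6 : t ∈ (P : Subgroup T) := by
            rw [h3]
            trivial
          exact h6
        exact h.comm (hPC ⟨a, ha⟩ (h5 _)) (hPC ⟨b, hb⟩ (h5 _))
      · rw [h2] at hcompl
        have h3 := isComplement'_top_left.1 hcompl
        have h4 : (⟨x, hxT⟩ : T) ∈ (P : Subgroup T) := hxP
        rw [h3, mem_bot] at h4
        exact hx1 (congrArg Subtype.val h4)
    · rw [SetLike.not_le_iff_exists] at hburn
      obtain ⟨g, hgN, hgC⟩ := hburn
      have hgN' := mem_normalizer_iff.1 hgN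
      refine ⟨g, g.2, ?_, ?_⟩
      · apply mem_normalizer_of_finite
        intro c hc
        -- `y = g⁻¹ x g ∈ P`
        have hy : g⁻¹ * ⟨x, hxT⟩ * g ∈ (P : Subgroup T) := by
          rw [hgN']
          have : g * (g⁻¹ * ⟨x, hxT⟩ * g) * g⁻¹ = ⟨x, hxT⟩ := by group
          rw [this]
          exact hxP
        have hyC := hPC _ hy
        refine h.cc x hxC hx1 _ (H.mul_mem (H.mul_mem (hTH g.2) (h.le hc)) (H.inv_mem (hTH g.2))) ?_
        have h5 := h.comm hc hyC
        simp only [Subgroup.coe_mul, Subgroup.coe_inv] at h5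
        calc (g : G) * c * (g : G)⁻¹ * x = g * (c * ((g : G)⁻¹ * x * g)) * (g : G)⁻¹ := by group
          _ = g * ((g : G)⁻¹ * x * g * c) * (g : G)⁻¹ := by rw [h5]
          _ = x * (g * c * (g : G)⁻¹) := by group
      · intro hgC'
        apply hgC
        rw [mem_centralizer_iff]
        intro y hy
        exact Subtype.ext (h.comm (hPC y hy) hgC')
  -- Step 3
  obtain ⟨g, hgT, hgN, hgC⟩ := step2
  obtain ⟨g0, hg0H, k, hk, hks⟩ := h.act
  have hg0N : g0 ∈ normalizer (C : Set G) :=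
    mem_normalizer_of_finite (fun x hx => by rw [hk x hx]; exact C.pow_mem hx k)
  obtain ⟨s0, hs0, hsd0⟩ : ∃ s : ℕ, s.Prime ∧ s ∣ Nat.card C := by
    apply Nat.exists_prime_and_dvd
    intro h1
    have h2 := h.big
    have h3 := h.ge
    omega
  -- no power of `g0` prime to `n` acts trivially
  have hg0C : g0 ∉ C := by
    intro hmem
    have : Fact s0.Prime := ⟨hs0⟩
    obtain ⟨x, hxs⟩ := exists_prime_orderOf_dvd_card' (G := C) s0 hsd0
    have h1 := hk x x.2
    have h2 : g0 * x * g0⁻¹ = x := by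
      rw [h.comm hmem x.2]
      group
    rw [h2] at h1
    have h3 : (x : G) ^ 1 = (x : G) ^ k := by rw [pow_one]; exact h1
    rw [pow_inj_mod, Subgroup.orderOf_coe, hxs] at h3
    have h4 : ((1 : ℕ) : ZMod s0) = (k : ZMod s0) := (ZMod.natCast_eq_natCast_iff' _ _ _).2 h3
    have h5 := hks s0 hs0 hsd0
    rw [← h4, Nat.cast_one, orderOf_one] at h5
    exact h.prime.one_lt.ne h5
  obtain ⟨j, hj⟩ := h.gen ⟨hg0N, hg0H⟩ hg0C ⟨hgN, hTH hgT⟩
  -- `n` does not divide `j`
  have hact : ∀ x ∈ C, g * x * g⁻¹ = x ^ (k ^ j) := by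
    intro x hx
    have h1 : g = g0 ^ j * ((g0 ^ j)⁻¹ * g) := by group
    calc g * x * g⁻¹ = g0 ^ j * (((g0 ^ j)⁻¹ * g) * x * ((g0 ^ j)⁻¹ * g)⁻¹) * (g0 ^ j)⁻¹ := by group
      _ = g0 ^ j * x * (g0 ^ j)⁻¹ := by
          rw [h.comm hj hx]
          group
      _ = x ^ (k ^ j) := act_pow hk j x hx
  have hnj : ¬ n ∣ j := by
    rintro ⟨u, rfl⟩
    apply hgC
    -- `g` centralises an element of prime order
    have : Fact s0.Prime := ⟨hs0⟩
    obtain ⟨x, hxs⟩ := exists_prime_orderOf_dvd_card' (G := C) s0 hsd0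
    have hx1 : (x : G) ≠ 1 := by
      intro h1
      have : x = 1 := Subtype.ext h1
      rw [this, orderOf_one] at hxs
      exact hs0.one_lt.ne hxs
    refine h.cc x x.2 hx1 g (hTH hgT) ?_
    have h1 := hact x x.2
    have h2 : (x : G) ^ (k ^ (n * u)) = x := by
      have h3 : (x : G) ^ (k ^ (n * u)) = (x : G) ^ 1 := by
        rw [pow_inj_mod, Subgroup.orderOf_coe, hxs]
        have h4 : ((k ^ (n * u) : ℕ) : ZMod s0) = ((1 : ℕ) : ZMod s0) := by
          rw [Nat.cast_pow, pow_mul, ← hks s0 hs0 hsd0, pow_orderOf_eq_one, one_pow, Nat.cast_one]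
        exact (ZMod.natCast_eq_natCast_iff' _ _ _).1 h4
      rw [h3, pow_one]
    rw [h2] at h1
    calc g * x = (g * x * g⁻¹) * g := by group
      _ = x * g := by rw [h1]
  have hord : ∀ s : ℕ, s.Prime → s ∣ Nat.card C → orderOf (((k ^ j : ℕ)) : ZMod s) = n := by
    intro s hs hsd
    rw [Nat.cast_pow, Nat.Coprime.orderOf_pow]
    · exact hks s hs hsd
    · rw [hks s hs hsd]
      exact (h.prime.coprime_iff_not_dvd).2 hnj
  have hkj : 1 ≤ k ^ j := by
    rw [Nat.one_le_iff_ne_zero]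
    intro h0
    have h1 := hord s0 hs0 hsd0
    rw [h0, Nat.cast_zero] at h1
    have : Fact s0.Prime := ⟨hs0⟩
    rw [orderOf_zero] at h1
    exact h.prime.ne_zero h1.symm
  have hcop : (Nat.card C).Coprime (k ^ j - 1) := by
    rw [Nat.coprime_iff_gcd_eq_one]
    by_contra hne
    obtain ⟨s, hs, hsd⟩ := Nat.exists_prime_and_dvd hne
    have h1 := hord s hs (hsd.trans (Nat.gcd_dvd_left _ _))
    have h2 := (ZMod.natCast_eq_zero_iff (k ^ j - 1) s).2 (hsd.trans (Nat.gcd_dvd_right _ _))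
    rw [Nat.cast_sub hkj, Nat.cast_one, sub_eq_zero] at h2
    rw [h2, orderOf_one] at h1
    exact h.prime.one_lt.ne h1
  have hCT : C ≤ T := by
    intro x hx
    obtain ⟨y, hy, rfl⟩ := pow_surj hcop hx
    have h1 : y ^ (k ^ j - 1) = g * (y * g⁻¹ * y⁻¹) := by
      have h2 : y ^ (k ^ j - 1) * y = y ^ (k ^ j) := by
        rw [← pow_succ, Nat.sub_add_cancel hkj]
      rw [← hact y hy] at h2
      calc y ^ (k ^ j - 1) = (y ^ (k ^ j - 1) * y) * y⁻¹ := by group
        _ = g * (y * g⁻¹ * y⁻¹) := by rw [h2]; group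
    rw [h1]
    exact T.mul_mem hgT (hTn y (h.le hy) _ (T.inv_mem hgT))
  refine ⟨hCT, h.prime, h.ge, h.cyc, fun x hx hx1 g hg => h.cc x hx hx1 g (hTH hg), h.odd, h.big,
    ⟨g, hgT, k ^ j, hact, hord⟩, ?_⟩
  -- the normaliser
  have h1 : Nat.card C ∣ Nat.card (normalizer (C : Set G) ⊓ T : Subgroup G) :=
    Subgroup.card_dvd_of_le (le_inf le_normalizer hCT)
  have h2 : Nat.card (normalizer (C : Set G) ⊓ T : Subgroup G) ∣ n * Nat.card C := by
    rw [← h.nrm]
    exact Subgroup.card_dvd_of_le (inf_le_inf_left _ hTH)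
  obtain ⟨d, hd⟩ := h1
  rw [hd, mul_comm n] at h2
  have h3 : d ∣ n := Nat.dvd_of_mul_dvd_mul_left Nat.card_pos h2
  rcases (Nat.dvd_prime h.prime).1 h3 with rfl | rfl
  · exfalso
    rw [mul_one] at hd
    have h4 : C = normalizer (C : Set G) ⊓ T :=
      Subgroup.eq_of_le_of_card_ge (le_inf le_normalizer hCT) hd.le
    apply hgC
    rw [h4]
    exact ⟨hgN, hgT⟩
  · rw [hd, mul_comm]

end Cfsg.Agent.H872
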