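import Cfsg.Agent.H872.KronTvTwo

/-!
Elements of `M` acting trivially on a column `col w` and on the quotient by it; the stabiliser of a
column.
-/

set_option autoImplicit false
set_option linter.unusedSectionVars false

namespace Cfsg.Agent.H872

open Matrix Cfsg.Agent.H873
open scoped Kronecker

variable {α β : Type} [Fintype α] [DecidableEq α] [Fintype β] [DecidableEq β] {F : Type*} [Field F]

theorem scalar_of_comm_scalar {Y : Matrix α α F}
    (hF : 3 ≤ Fintype.card α ∨ ∃ t : F, t ≠ 0 ∧ t ≠ 1)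
    (h : ∀ u φ : α → F, φ ⬝ᵥ u = 0 → ∃ c : F, (1 + vecMulVec u φ) * Y =
      Y * (1 + vecMulVec u φ) + c • (1 + vecMulVec u φ)) :
    ∃ c : F, Y = c • (1 : Matrix α α F) := by
  refine exists_scalar_of_dual fun u φ hφu => ?_
  by_cases hu : u = 0
  · rw [hu, mulVec_zero, dotProduct_zero]
  by_cases hφ : φ = 0
  · rw [hφ, zero_dotProduct]
  set c0 := φ ⬝ᵥ (Y *ᵥ u) with hc0
  -- the relation, for all t
  have key : ∀ t : F, ∀ x : α → F, t • ((φ ⬝ᵥ (Y *ᵥ x)) • u) = t • ((φ ⬝ᵥ x) • (Y *ᵥ u)) +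
      (t * c0) • (x + (t * (φ ⬝ᵥ x)) • u) := by
    intro t x
    obtain ⟨c, hc⟩ := h (t • u) φ (by rw [dotProduct_smul, hφu, smul_zero])
    have h1 : ∀ x : α → F, t • ((φ ⬝ᵥ (Y *ᵥ x)) • u) = t • ((φ ⬝ᵥ x) • (Y *ᵥ u)) +
        c • (x + (t * (φ ⬝ᵥ x)) • u) := by
      intro x
      have h2 := congrArg (fun N => N *ᵥ x) hc
      simp only [add_mulVec, ← mulVec_mulVec, one_mulVec, vecMulVec_mulVec, op_smul_eq_smul,
        smul_mulVec, mulVec_add, mulVec_smul] at h2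
      have h3 : Y *ᵥ x + (φ ⬝ᵥ (Y *ᵥ x)) • t • u = Y *ᵥ x + ((φ ⬝ᵥ x) • t • (Y *ᵥ u) +
          c • (x + (φ ⬝ᵥ x) • t • u)) := by
        rw [← add_assoc]; exact h2
      have h4 := add_left_cancel h3
      rw [smul_comm t, h4, smul_comm (φ ⬝ᵥ x) t (Y *ᵥ u), smul_smul (φ ⬝ᵥ x) t u, mul_comm]
    have h2 := h1 u
    rw [hφu, mul_zero, zero_smul, smul_zero, zero_smul, add_zero, zero_add, ← hc0, smul_smul] at h2
    have h3 : t * c0 = c := by
      obtain ⟨i, hi⟩ : ∃ i, u i ≠ 0 := by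
        by_contra hcon
        push Not at hcon
        exact hu (funext hcon)
      have h4 := congrFun h2 i
      simp only [Pi.smul_apply, smul_eq_mul] at h4
      exact mul_right_cancel₀ hi h4
    rw [h3]
    exact h1 x
  rcases hF with hα | ⟨t, ht0, ht1⟩
  · obtain ⟨x, hx0, hx1, hx2⟩ := exists_kill_two (F := F) hα φ (φ ᵥ* Y)
    rw [dotProduct_comm] at hx1 hx2
    rw [← dotProduct_mulVec] at hx2
    have h1 := key 1 x
    rw [hx1, hx2] at h1
    simp only [one_mul, zero_smul, smul_zero, add_zero, zero_add] at h1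
    rcases smul_eq_zero.1 h1.symm with h2 | h2
    · exact h2
    · exact absurd h2 hx0
  · obtain ⟨x, hx⟩ := exists_dot_one hφ
    have h1 := key 1 x
    have h2 := key t x
    rw [hx] at h1 h2
    have h3 : t • ((φ ⬝ᵥ (Y *ᵥ x)) • u) = t • ((Y *ᵥ u) + c0 • (x + u)) := by
      rw [show (φ ⬝ᵥ (Y *ᵥ x)) • u = (Y *ᵥ u) + c0 • (x + u) by simpa using h1]
    rw [h3] at h2
    have h4 : (t * c0 * (1 - t)) • u = 0 := by
      have h5 : t • ((Y *ᵥ u) + c0 • (x + u)) - (t • ((1 : F) • (Y *ᵥ u)) +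
        (t * c0) • (x + (t * 1) • u)) = 0 := sub_eq_zero.2 h2
      rw [← h5]
      module
    rcases smul_eq_zero.1 h4 with h5 | h5
    · rcases mul_eq_zero.1 h5 with h6 | h6
      · rcases mul_eq_zero.1 h6 with h7 | h7
        · exact absurd h7 ht0
        · exact h7
      · exact absurd (sub_eq_zero.1 h6).symm ht1
    · exact absurd h5 hu

theorem kr_one_one : kr ((1 : GL α F), (1 : GL β F)) = 1 := map_one kr

/-- `g` acts trivially on `col w` and on the quotient by it. -/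
def IsUc (w : β → F) (g : GL (α × β) F) : Prop :=
  (∀ v, (g : Matrix (α × β) (α × β) F) *ᵥ v - v ∈ col w) ∧
    ∀ u, (g : Matrix (α × β) (α × β) F) *ᵥ ten u w = ten u w

theorem exists_Z {w : β → F} (hw : w ≠ 0) {g : GL (α × β) F} (h : IsUc w g) :
    ∃ Z : (α × β → F) →ₗ[F] (α → F), (∀ v, (g : Matrix (α × β) (α × β) F) *ᵥ v = v + ten (Z v) w) ∧
      ∀ u, Z (ten u w) = 0 := by
  obtain ⟨ξ, hξ⟩ := exists_dot_one hw
  rw [dotProduct_comm] at hξ
  refine ⟨rc ξ ∘ₗ (Matrix.toLin' ((g : Matrix (α × β) (α × β) F) - 1)), fun v => ?_, fun u => ?_⟩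
  · obtain ⟨x, hx⟩ := mem_col.1 (h.1 v)
    rw [LinearMap.comp_apply, Matrix.toLin'_apply, sub_mulVec, one_mulVec, ← hx, rc_ten, hξ,
      one_smul, hx]
    abel
  · rw [LinearMap.comp_apply, Matrix.toLin'_apply, sub_mulVec, one_mulVec, h.2, sub_self, map_zero]

theorem eq_sum_ten_right (u : α → F) (w : β → F) : ten u w = ∑ j, w j • ten u (Pi.single j (1 : F)) := by
  funext p
  simp only [ten_apply, Finset.sum_apply, Pi.smul_apply, smul_eq_mul]
  rw [Finset.sum_eq_single p.2]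
  · simp; ring
  · intro j _ hj
    simp [Ne.symm hj]
  · intro h; exact absurd (Finset.mem_univ _) h

/-- The matrix of `u ↦ Z (u ⊗ y)`. -/
noncomputable def Zy (Z : (α × β → F) →ₗ[F] (α → F)) (y : β → F) : Matrix α α F :=
  LinearMap.toMatrix' (Z ∘ₗ { toFun := fun u => ten u y
                              map_add' := fun u u' => ten_add_left u u' y
                              map_smul' := fun c u => ten_smul_left c u y })

theorem Zy_mulVec (Z : (α × β → F) →ₗ[F] (α → F)) (y : β → F) (u : α → F) :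
    Zy Z y *ᵥ u = Z (ten u y) := by
  rw [Zy, ← Matrix.toLin'_apply, Matrix.toLin'_toMatrix']
  rfl

theorem eq_rt_of_scalar [Nonempty α] {w : β → F} {g : GL (α × β) F}
    {Z : (α × β → F) →ₗ[F] (α → F)} (hg : ∀ v, (g : Matrix (α × β) (α × β) F) *ᵥ v = v + ten (Z v) w)
    (hZ : ∀ u, Z (ten u w) = 0) (hs : ∀ y, ∃ c : F, Zy Z y = c • (1 : Matrix α α F)) :
    ∃ (ψ : β → F) (h : ψ ⬝ᵥ w = 0), g = rt w ψ h := by
  choose c hc using hs
  let ζ : β → F := fun j => c (Pi.single j 1)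
  have h1 : Z = rc ζ := by
    refine linearMap_ext_ten fun u y => ?_
    rw [eq_sum_ten_right, map_sum, map_sum]
    refine Finset.sum_congr rfl fun j _ => ?_
    rw [map_smul, map_smul, ← Zy_mulVec, hc, rc_ten, smul_mulVec, one_mulVec]
    simp [ζ]
  have h2 : ζ ⬝ᵥ w = 0 := by
    obtain ⟨i⟩ := ‹Nonempty α›
    have h3 := hZ (Pi.single i 1)
    rw [h1, rc_ten] at h3
    have h4 := congrFun h3 i
    simpa using h4
  refine ⟨ζ, h2, ?_⟩
  apply gl_ext
  intro x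
  rw [hg, rt_mulVec, h1]

/-- Every element of `M` trivial on a column and the quotient is a root element. -/
def AllRt (M : Subgroup (GL (α × β) F)) : Prop :=
  ∀ w : β → F, w ≠ 0 → ∀ g ∈ M, IsUc w g → ∃ (ψ : β → F) (h : ψ ⬝ᵥ w = 0), g = rt w ψ h

section

variable {M : Subgroup (GL (α × β) F)}
  (hM : ∀ (A : GL α F) (B : GL β F), (A : Matrix α α F).det = 1 → (B : Matrix β β F).det = 1 →
    kr (A, B) ∈ M)

include hM

theorem sl_le_of_not_allRt (hα : 2 ≤ Fintype.card α) (hβ : 3 ≤ Fintype.card β)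
    (hF : 3 ≤ Fintype.card α ∨ ∃ t : F, t ≠ 0 ∧ t ≠ 1) (h : ¬ AllRt M) :
    Cfsg.Geo.specialLinear (α × β) F ≤ M := by
  have : Nonempty α := Fintype.card_pos_iff.1 (by omega)
  unfold AllRt at h
  push Not at h
  obtain ⟨w, hw, g, hg, hu, hne⟩ := h
  obtain ⟨Z, hZ1, hZ2⟩ := exists_Z hw hu
  have h1 : ∃ y, ¬ ∃ c : F, Zy Z y = c • (1 : Matrix α α F) := by
    by_contra hcon
    push Not at hcon
    obtain ⟨ψ, h0, h1⟩ := eq_rt_of_scalar hZ1 hZ2 hcon
    exact hne ψ h0 h1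
  obtain ⟨y, hy⟩ := h1
  obtain ⟨ψ, hψ, hψw, hψy⟩ := exists_kill_two (F := F) hβ w y
  have hk := kr_one_tv_mem hM hψy
  set k : GL (α × β) F := kr ((1 : GL α F), tv y ψ hψy) with hkdef
  have hkv : ∀ v, (k : Matrix (α × β) (α × β) F) *ᵥ v = v + ten (rc ψ v) y :=
    fun v => rt_mulVec y ψ hψy v
  have hkinv : ∀ v, ((k⁻¹ : GL (α × β) F) : Matrix (α × β) (α × β) F) *ᵥ v =
      v - ten (rc ψ v) y := by
    intro v
    have h2 : (k : Matrix (α × β) (α × β) F) *ᵥ (v - ten (rc ψ v) y) = v := by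
      rw [hkv, map_sub, rc_ten, hψy, zero_smul, sub_zero]
      abel
    conv_lhs => rw [← h2]
    rw [inv_mulVec_mulVec]
  have hginv : ∀ v, ((g⁻¹ : GL (α × β) F) : Matrix (α × β) (α × β) F) *ᵥ v =
      v - ten (Z v) w := by
    intro v
    have h2 : (g : Matrix (α × β) (α × β) F) *ᵥ (v - ten (Z v) w) = v := by
      rw [hZ1, map_sub, hZ2, sub_zero]
      abel
    conv_lhs => rw [← h2]
    rw [inv_mulVec_mulVec]
  have hmem : k * g * k⁻¹ * g⁻¹ ∈ M :=
    M.mul_mem (M.mul_mem (M.mul_mem hk hg) (M.inv_mem hk)) (M.inv_mem hg)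
  have hK : HasK M (- Zy Z y) w ψ := by
    refine ⟨hψw, _, hmem, ?_⟩
    apply Matrix.mulVec_injective
    funext v
    rw [add_mulVec, one_mulVec, kron_vecMulVec_mulVec, neg_mulVec, Zy_mulVec, ten_neg_left,
      Units.val_mul, Units.val_mul, Units.val_mul, ← mulVec_mulVec, ← mulVec_mulVec,
      ← mulVec_mulVec, hginv, hkinv, hZ1, hkv]
    simp only [map_sub, map_add, rc_ten, hψw, hψy, zero_smul, sub_zero, add_zero, hZ2]
    rw [ten_sub_left]
    abel
  refine sl_le_of_hasK hM hα hβ hF hw hψ hK ?_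
  rintro ⟨c, hc⟩
  exact hy ⟨-c, by rw [neg_smul, ← hc, neg_neg]⟩

/-- The stabiliser of a column in `M` consists of Kronecker products. -/
theorem mem_range_kr_of_stab (hα : 2 ≤ Fintype.card α)
    (hF : 3 ≤ Fintype.card α ∨ ∃ t : F, t ≠ 0 ∧ t ≠ 1) (hall : AllRt M) {w : β → F} (hw : w ≠ 0)
    {g : GL (α × β) F} (hg : g ∈ M)
    (hst : ∀ u, ∃ u', (g : Matrix (α × β) (α × β) F) *ᵥ ten u w = ten u' w) :
    ∃ x : GL α F × GL β F, kr x = g := by
  classical
  have : Nonempty α := Fintype.card_pos_iff.1 (by omega)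
  -- the action X on the column
  obtain ⟨ξ, hξ⟩ := exists_dot_one hw
  rw [dotProduct_comm] at hξ
  let Xl : (α → F) →ₗ[F] (α → F) := rc ξ ∘ₗ Matrix.toLin' (g : Matrix (α × β) (α × β) F) ∘ₗ
    { toFun := fun u => ten u w
      map_add' := fun u u' => ten_add_left u u' w
      map_smul' := fun c u => ten_smul_left c u w }
  have hX : ∀ u, (g : Matrix (α × β) (α × β) F) *ᵥ ten u w = ten (Xl u) w := by
    intro u
    obtain ⟨u', hu'⟩ := hst u
    have : Xl u = u' := by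
      change rc ξ (Matrix.toLin' (g : Matrix (α × β) (α × β) F) (ten u w)) = u'
      rw [Matrix.toLin'_apply, hu', rc_ten, hξ, one_smul]
    rw [this, hu']
  have hXinj : Function.Injective Xl := by
    rw [← LinearMap.ker_eq_bot, LinearMap.ker_eq_bot']
    intro u hu
    have h1 := hX u
    rw [hu, ten_zero_left] at h1
    have h2 : ten u w = 0 := by
      rw [← inv_mulVec_mulVec g (ten u w), h1, mulVec_zero]
    exact ten_left_injective hw (h2.trans (ten_zero_left w).symm)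
  let Xe : (α → F) ≃ₗ[F] (α → F) := LinearEquiv.ofInjectiveEndo Xl hXinj
  have hXe : ∀ u, Xe u = Xl u := fun u => rfl
  let X : GL α F := H905.glOf Xe
  have hXv : ∀ u, (X : Matrix α α F) *ᵥ u = Xl u := fun u => H905.glOf_mulVec Xe u
  -- g₁ = (X⁻¹ ⊗ 1) g
  let g₁ : GL (α × β) F := (kr (X, (1 : GL β F)))⁻¹ * g
  have hg₁ : ∀ v, (g₁ : Matrix (α × β) (α × β) F) *ᵥ v =
      (kr (X⁻¹, (1 : GL β F)) : Matrix (α × β) (α × β) F) *ᵥ
        ((g : Matrix (α × β) (α × β) F) *ᵥ v) := by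
    intro v
    rw [Units.val_mul, ← mulVec_mulVec]
    rfl
  have hg₁w : ∀ u, (g₁ : Matrix (α × β) (α × β) F) *ᵥ ten u w = ten u w := by
    intro u
    rw [hg₁, hX, kr_mulVec_ten, ← hXv, inv_mulVec_mulVec]
    simp
  -- the action on functionals killing w
  have hpsi : ∀ ψ : β → F, ψ ⬝ᵥ w = 0 → ∃ ψ' : β → F, ψ' ⬝ᵥ w = 0 ∧
      ∀ v, rc ψ' ((g₁ : Matrix (α × β) (α × β) F) *ᵥ v) = rc ψ v := by
    intro ψ hψ
    have hmem : g * rt w ψ hψ * g⁻¹ ∈ M :=
      M.mul_mem (M.mul_mem hg (kr_one_tv_mem hM hψ)) (M.inv_mem hg)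
    have hact : ∀ v, ((g * rt w ψ hψ * g⁻¹ : GL (α × β) F) : Matrix (α × β) (α × β) F) *ᵥ v =
        v + ten (Xl (rc ψ (((g⁻¹ : GL (α × β) F) : Matrix (α × β) (α × β) F) *ᵥ v))) w := by
      intro v
      rw [Units.val_mul, Units.val_mul, ← mulVec_mulVec, ← mulVec_mulVec, rt_mulVec, mulVec_add,
        mulVec_inv_mulVec, hX]
    have huc : IsUc w (g * rt w ψ hψ * g⁻¹) := by
      refine ⟨fun v => ?_, fun u => ?_⟩
      · rw [hact, add_sub_cancel_left]
        exact ten_mem_col _ _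
      · rw [hact]
        have h1 : ((g⁻¹ : GL (α × β) F) : Matrix (α × β) (α × β) F) *ᵥ ten u w =
            ten (Xe.symm u) w := by
          have h2 : ten u w = (g : Matrix (α × β) (α × β) F) *ᵥ ten (Xe.symm u) w := by
            rw [hX, ← hXe, LinearEquiv.apply_symm_apply]
          rw [h2, inv_mulVec_mulVec]
        rw [h1, rc_ten, hψ, zero_smul, map_zero, ten_zero_left, add_zero]
    obtain ⟨ψ', h0, h1⟩ := hall w hw _ hmem huc
    refine ⟨ψ', h0, fun v => ?_⟩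
    have h2 := hact ((g : Matrix (α × β) (α × β) F) *ᵥ v)
    rw [h1, rt_mulVec, inv_mulVec_mulVec] at h2
    have h3 := ten_left_injective hw (add_left_cancel h2)
    rw [hg₁, coe_kr, rc_kron, Units.val_one, vecMul_one, h3, ← hXv, inv_mulVec_mulVec]
  -- the map β on W
  have hα0 : 0 < Fintype.card α := by omega
  obtain ⟨i0⟩ := ‹Nonempty α›
  let e0 : α → F := Pi.single i0 1
  have he00 : e0 ⬝ᵥ e0 = 1 := by simp [e0]
  let Bl : (β → F) →ₗ[F] (β → F) := lc e0 ∘ₗ Matrix.toLin' (g₁ : Matrix (α × β) (α × β) F) ∘ₗ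
    { toFun := fun y => ten e0 y
      map_add' := fun u u' => ten_add_right e0 u u'
      map_smul' := fun c u => ten_smul_right c e0 u }
  have hBl : ∀ y, Bl y = lc e0 ((g₁ : Matrix (α × β) (α × β) F) *ᵥ ten e0 y) := by
    intro y
    change lc e0 (Matrix.toLin' (g₁ : Matrix (α × β) (α × β) F) (ten e0 y)) = _
    rw [Matrix.toLin'_apply]
  have hBw : Bl w = w := by
    rw [hBl, hg₁w, lc_ten, he00, one_smul]
  have hlcrc : ∀ (φ : α → F) (ψ : β → F) (v : α × β → F), ψ ⬝ᵥ lc φ v = φ ⬝ᵥ rc ψ v := by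
    intro φ ψ v
    simp only [dotProduct, lc_apply, rc_apply, Finset.mul_sum]
    rw [Finset.sum_comm]
    exact Finset.sum_congr rfl fun i _ => Finset.sum_congr rfl fun j _ => by ring
  have hBpsi : ∀ ψ ψ' : β → F,
      (∀ v, rc ψ' ((g₁ : Matrix (α × β) (α × β) F) *ᵥ v) = rc ψ v) →
      ∀ y, ψ' ⬝ᵥ Bl y = ψ ⬝ᵥ y := by
    intro ψ ψ' h y
    rw [hBl, hlcrc, h, rc_ten, dotProduct_smul, he00, smul_eq_mul, mul_one]
  have hBinj : Function.Injective Bl := by
    rw [← LinearMap.ker_eq_bot, LinearMap.ker_eq_bot']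
    intro y hy
    by_cases hyw : ∃ c : F, y = c • w
    · obtain ⟨c, hc⟩ := hyw
      rw [hc, map_smul, hBw] at hy
      rw [hc, hy]
    · exfalso
      obtain ⟨ψ, h1, h2⟩ := exists_dot_pair hyw
      obtain ⟨ψ', -, h3⟩ := hpsi ψ h2
      have h4 := hBpsi ψ ψ' h3 y
      rw [hy, dotProduct_zero, h1] at h4
      exact zero_ne_one h4
  let Be : (β → F) ≃ₗ[F] (β → F) := LinearEquiv.ofInjectiveEndo Bl hBinj
  let B : GL β F := H905.glOf Be
  have hBv : ∀ u, (B : Matrix β β F) *ᵥ u = Bl u := fun u => H905.glOf_mulVec Be u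
  -- g₂ = (1 ⊗ B⁻¹) g₁
  let g₂ : GL (α × β) F := (kr ((1 : GL α F), B))⁻¹ * g₁
  have hg₂ : ∀ v, (g₂ : Matrix (α × β) (α × β) F) *ᵥ v =
      (kr ((1 : GL α F), B⁻¹) : Matrix (α × β) (α × β) F) *ᵥ
        ((g₁ : Matrix (α × β) (α × β) F) *ᵥ v) := by
    intro v
    rw [Units.val_mul, ← mulVec_mulVec]
    rfl
  have hBiw : ((B⁻¹ : GL β F) : Matrix β β F) *ᵥ w = w := by
    conv_lhs => rw [← hBw, ← hBv]
    rw [inv_mulVec_mulVec]
  have hg₂w : ∀ u, (g₂ : Matrix (α × β) (α × β) F) *ᵥ ten u w = ten u w := by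
    intro u
    rw [hg₂, hg₁w, kr_mulVec_ten, hBiw]
    simp
  -- vectors with all rc ψ v = 0, ψ w = 0, lie in col w
  have hcol : ∀ v : α × β → F, (∀ ψ : β → F, ψ ⬝ᵥ w = 0 → rc ψ v = 0) → v ∈ col w := by
    intro v hv
    refine mem_col.2 ⟨rc ξ v, ?_⟩
    funext p
    -- ψ = e_p - w_p ξ
    have h1 := hv (Pi.single p.2 1 - w p.2 • ξ) (by
      rw [sub_dotProduct, smul_dotProduct, hξ]; simp)
    have h2 := congrFun h1 p.1
    rw [rc_apply] at h2
    simp only [Pi.sub_apply, Pi.smul_apply, smul_eq_mul, sub_mul, Finset.sum_sub_distrib,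
      Pi.zero_apply] at h2
    rw [Finset.sum_eq_single p.2 (by intro j _ hj; simp [hj]) (by
      intro h; exact absurd (Finset.mem_univ _) h)] at h2
    rw [ten_apply, rc_apply, Finset.sum_mul]
    simp only [Pi.single_eq_same, one_mul] at h2
    rw [sub_eq_zero] at h2
    change _ = v (p.1, p.2)
    rw [h2]
    exact Finset.sum_congr rfl fun j _ => by ring
  have huc : IsUc w g₂ := by
    refine ⟨fun v => ?_, hg₂w⟩
    -- first for g₁ and B
    have h1 : ∀ v, (g₁ : Matrix (α × β) (α × β) F) *ᵥ v -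
        (kr ((1 : GL α F), B) : Matrix (α × β) (α × β) F) *ᵥ v ∈ col w := by
      intro v
      refine hcol _ fun ψ' hψ' => ?_
      -- ψ' comes from some ψ: surjectivity
      rw [map_sub, coe_kr, rc_kron, Units.val_one, one_mulVec]
      -- set ψ := ψ' ∘ B
      set ψ := ψ' ᵥ* (B : Matrix β β F) with hψdef
      have hψw : ψ ⬝ᵥ w = 0 := by
        rw [hψdef, ← dotProduct_mulVec, hBv, hBw, hψ']
      obtain ⟨ψ'', h0, h2⟩ := hpsi ψ hψw
      have h3 : ψ'' = ψ' := by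
        have h4 : ∀ y, ψ'' ⬝ᵥ y = ψ' ⬝ᵥ y := by
          intro y
          obtain ⟨z, rfl⟩ := Be.surjective y
          have h5 : Be z = Bl z := rfl
          rw [h5, hBpsi ψ ψ'' h2, hψdef, ← dotProduct_mulVec, hBv]
        funext j
        simpa using h4 (Pi.single j 1)
      rw [← h3, h2, sub_self]
    obtain ⟨x, hx⟩ := mem_col.1 (h1 v)
    refine mem_col.2 ⟨x, ?_⟩
    have h2 : (g₁ : Matrix (α × β) (α × β) F) *ᵥ v =
        (kr ((1 : GL α F), B) : Matrix (α × β) (α × β) F) *ᵥ v + ten x w := by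
      rw [hx]; abel
    rw [hg₂, h2, mulVec_add, kr_mulVec_ten, hBiw]
    have h3 : (kr ((1 : GL α F), B⁻¹) : Matrix (α × β) (α × β) F) *ᵥ
        ((kr ((1 : GL α F), B) : Matrix (α × β) (α × β) F) *ᵥ v) = v := by
      rw [mulVec_mulVec, ← Units.val_mul, ← map_mul]
      simp [kr_one_one]
    rw [h3]
    simp
  obtain ⟨Z, hZ1, hZ2⟩ := exists_Z hw huc
  have hg₂inv : ∀ v, ((g₂⁻¹ : GL (α × β) F) : Matrix (α × β) (α × β) F) *ᵥ v =
      v - ten (Z v) w := by
    intro v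
    have h2 : (g₂ : Matrix (α × β) (α × β) F) *ᵥ (v - ten (Z v) w) = v := by
      rw [hZ1, map_sub, hZ2, sub_zero]
      abel
    conv_lhs => rw [← h2]
    rw [inv_mulVec_mulVec]
  have hgeq : g = kr (X, B) * g₂ := by
    have h1 : kr (X, B) = kr (X, (1 : GL β F)) * kr ((1 : GL α F), B) := by
      rw [← map_mul]; simp
    rw [h1]
    change g = kr (X, (1 : GL β F)) * kr ((1 : GL α F), B) *
      ((kr ((1 : GL α F), B))⁻¹ * ((kr (X, (1 : GL β F)))⁻¹ * g))
    group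
  have hscal : ∀ y, ∃ c : F, Zy Z y = c • (1 : Matrix α α F) := by
    intro y
    refine scalar_of_comm_scalar hF fun u φ hφu => ?_
    set A : GL α F := tv u φ hφu with hA
    have hAdet : (A : Matrix α α F).det = 1 := by rw [hA, coe_tv]; exact det_tv u φ hφu
    -- m = g⁻¹ (X A X⁻¹ ⊗ 1) g (A ⊗ 1)⁻¹
    have hm1 : kr (X * A * X⁻¹, (1 : GL β F)) ∈ M := by
      refine hM _ _ ?_ (by simp)
      rw [Units.val_mul, Units.val_mul, det_mul, det_mul, hAdet, mul_one, ← det_mul,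
        ← Units.val_mul, mul_inv_cancel, Units.val_one, det_one]
    have hm2 : kr (A, (1 : GL β F)) ∈ M := hM _ _ hAdet (by simp)
    have hm : g⁻¹ * kr (X * A * X⁻¹, (1 : GL β F)) * g * (kr (A, (1 : GL β F)))⁻¹ ∈ M :=
      M.mul_mem (M.mul_mem (M.mul_mem (M.inv_mem hg) hm1) hg) (M.inv_mem hm2)
    have hmeq : g⁻¹ * kr (X * A * X⁻¹, (1 : GL β F)) * g * (kr (A, (1 : GL β F)))⁻¹ =
        g₂⁻¹ * kr (A, (1 : GL β F)) * g₂ * kr (A⁻¹, (1 : GL β F)) := by
      have h1 : (kr (X, B))⁻¹ * kr (X * A * X⁻¹, (1 : GL β F)) * kr (X, B) =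
          kr (A, (1 : GL β F)) := by
        rw [← map_inv, ← map_mul, ← map_mul]
        congr 1
        ext : 1
        · simp [mul_assoc]
        · simp
      have h2 : (kr (A, (1 : GL β F)))⁻¹ = kr (A⁻¹, (1 : GL β F)) := by
        rw [← map_inv]; simp
      calc g⁻¹ * kr (X * A * X⁻¹, (1 : GL β F)) * g * (kr (A, (1 : GL β F)))⁻¹
          = g₂⁻¹ * ((kr (X, B))⁻¹ * kr (X * A * X⁻¹, (1 : GL β F)) * kr (X, B)) * g₂ *
              (kr (A, (1 : GL β F)))⁻¹ := by rw [hgeq]; group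
        _ = _ := by rw [h1, h2]
    rw [hmeq] at hm
    set m := g₂⁻¹ * kr (A, (1 : GL β F)) * g₂ * kr (A⁻¹, (1 : GL β F)) with hmdef
    have hmv : ∀ v, (m : Matrix (α × β) (α × β) F) *ᵥ v = v +
        ten ((A : Matrix α α F) *ᵥ
          Z ((kr (A⁻¹, (1 : GL β F)) : Matrix (α × β) (α × β) F) *ᵥ v) - Z v) w := by
      intro v
      rw [hmdef, Units.val_mul, Units.val_mul, Units.val_mul, ← mulVec_mulVec, ← mulVec_mulVec,
        ← mulVec_mulVec, hZ1, mulVec_add, kr_mulVec_ten]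
      have h3 : (kr (A, (1 : GL β F)) : Matrix (α × β) (α × β) F) *ᵥ
          ((kr (A⁻¹, (1 : GL β F)) : Matrix (α × β) (α × β) F) *ᵥ v) = v := by
        rw [mulVec_mulVec, ← Units.val_mul, ← map_mul]
        simp [kr_one_one]
      rw [h3, hg₂inv, map_add, Units.val_one, one_mulVec, hZ2, add_zero, ten_sub_left]
      abel
    have hmuc : IsUc w m := by
      refine ⟨fun v => ?_, fun u' => ?_⟩
      · rw [hmv, add_sub_cancel_left]; exact ten_mem_col _ _
      · rw [hmv, kr_mulVec_ten, Units.val_one, one_mulVec, hZ2, hZ2, mulVec_zero, sub_zero,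
          ten_zero_left, add_zero]
    obtain ⟨ψ, h0, h1⟩ := hall w hw m hm hmuc
    refine ⟨ψ ⬝ᵥ y, ?_⟩
    -- evaluate at u' ⊗ y
    have h2 : ∀ u' : α → F, (A : Matrix α α F) *ᵥ (Zy Z y *ᵥ
        (((A⁻¹ : GL α F) : Matrix α α F) *ᵥ u')) - Zy Z y *ᵥ u' = (ψ ⬝ᵥ y) • u' := by
      intro u'
      have h3 := hmv (ten u' y)
      rw [h1, rt_mulVec, rc_ten, kr_mulVec_ten, Units.val_one, one_mulVec] at h3
      have h4 := ten_left_injective hw (add_left_cancel h3)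
      rw [Zy_mulVec, Zy_mulVec]
      exact h4.symm
    have hAeq : (A : Matrix α α F) = 1 + vecMulVec u φ := by rw [hA, coe_tv]
    rw [← hAeq]
    apply Matrix.mulVec_injective
    funext x
    have h5 := h2 ((A : Matrix α α F) *ᵥ x)
    rw [inv_mulVec_mulVec] at h5
    rw [add_mulVec, ← mulVec_mulVec, ← mulVec_mulVec, smul_mulVec, ← h5]
    abel
  obtain ⟨ψ, h0, h1⟩ := eq_rt_of_scalar hZ1 hZ2 hscal
  refine ⟨(X, B * tv w ψ h0), ?_⟩
  rw [hgeq, h1, rt, ← map_mul]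
  simp

end

end Cfsg.Agent.H872
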