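import Cfsg.Agent.H872.KronTv

/-!
A subgroup `M` of `GL (α × β) F` containing `SL(α) ⊗ SL(β)` and an element `1 + Y ⊗ w ψ` with `Y` not
scalar and `ψ w = 0` contains `SL(α × β)`.
-/

set_option autoImplicit false
set_option linter.unusedSectionVars false

namespace Cfsg.Agent.H872

open Matrix Cfsg.Agent.H873
open scoped Kronecker

variable {α β : Type} [Fintype α] [DecidableEq α] [Fintype β] [DecidableEq β] {F : Type*} [Field F]

theorem vecMulVec_kronecker (u φ : α → F) (w ψ : β → F) :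
    vecMulVec u φ ⊗ₖ vecMulVec w ψ = vecMulVec (ten u w) (ten φ ψ) := by
  ext ⟨i, k⟩ ⟨j, l⟩
  simp only [kroneckerMap_apply, vecMulVec_apply, ten_apply]
  ring

theorem ten_single (i : α) (k : β) (c d : F) :
    ten (Pi.single i c) (Pi.single k d) = Pi.single (i, k) (c * d) := by
  funext ⟨j, l⟩
  simp only [ten_apply, Pi.single_apply, Prod.mk.injEq]
  by_cases h1 : j = i <;> by_cases h2 : l = k <;> simp [h1, h2]

section

variable {M : Subgroup (GL (α × β) F)}
  (hM : ∀ (A : GL α F) (B : GL β F), (A : Matrix α α F).det = 1 → (B : Matrix β β F).det = 1 →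
    kr (A, B) ∈ M)

include hM

/-- All root elements `e_i e_jᵀ`. -/
theorem allK_single (hα : 2 ≤ Fintype.card α) {u φ : α → F} (hu : u ≠ 0) (hφ : φ ≠ 0)
    (h0 : φ ⬝ᵥ u = 0) (h : AllK M (vecMulVec u φ)) {i j : α} (hij : i ≠ j) (c : F) :
    AllK M (vecMulVec (Pi.single i c) (Pi.single j 1)) := by
  -- move u to e_i
  have hi0 : (Pi.single i 1 : α → F) ≠ 0 := by
    intro h; have := congrFun h i; simp at this
  obtain ⟨A, hA, hAu⟩ := H905.exists_sl_vec (F := F) hu hi0 hα
  rw [H905.mem_sl_iff] at hA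
  have h1 := AllK.conj hM h hA
  rw [mul_vecMulVec, hAu, vecMulVec_mul] at h1
  set φ1 := φ ᵥ* ((A⁻¹ : GL α F) : Matrix α α F) with hφ1
  have hφ1i : φ1 ⬝ᵥ Pi.single i 1 = 0 := by
    rw [hφ1, ← hAu, ← dotProduct_mulVec, mulVec_mulVec, ← Units.val_mul, inv_mul_cancel,
      Units.val_one, one_mulVec, h0]
  have hφ10 : φ1 ≠ 0 := by
    intro h2
    apply hφ
    have h3 : φ = φ1 ᵥ* (A : Matrix α α F) := by
      rw [hφ1, vecMul_vecMul, ← Units.val_mul, inv_mul_cancel, Units.val_one, vecMul_one]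
    rw [h3, h2, zero_vecMul]
  have key : AllK M (vecMulVec (Pi.single i 1) (Pi.single j 1)) := by
    by_cases hne : ∃ d : F, φ1 = d • (Pi.single j 1 : α → F)
    · obtain ⟨d, hd⟩ := hne
      have hd0 : d ≠ 0 := by rintro rfl; exact hφ10 (by rw [hd, zero_smul])
      have h2 := h1.smul d⁻¹
      rwa [hd, vecMulVec_smul, smul_smul, inv_mul_cancel₀ hd0, one_smul] at h2
    · obtain ⟨z, hz1, hz2⟩ := exists_dot_pair hne
      have h2 := AllK.comm_tv hM h1 (u := z) (φ := Pi.single j 1) (by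
        rw [dotProduct_comm]; exact hz2)
      have h3 : (Pi.single j 1 : α → F) ⬝ᵥ (vecMulVec (Pi.single i 1) φ1 *ᵥ z) = 0 := by
        rw [vecMulVec_mulVec, op_smul_eq_smul, dotProduct_smul]
        simp [hij]
      have h4 : (Pi.single j 1 : α → F) ᵥ* vecMulVec (Pi.single i 1) φ1 = 0 := by
        rw [vecMul_vecMulVec]
        simp [hij]
      have h5 : vecMulVec (Pi.single i 1) φ1 *ᵥ z = (Pi.single i 1 : α → F) := by
        rw [vecMulVec_mulVec, op_smul_eq_smul, dotProduct_comm, hz1, one_smul]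
      rw [h3, h4, h5, vecMulVec_zero, zero_smul, sub_zero, zero_sub] at h2
      simpa using h2.neg
  have h6 := key.smul c
  have h7 : c • vecMulVec (Pi.single i (1 : F)) (Pi.single j (1 : F)) =
      vecMulVec (Pi.single i c) (Pi.single j 1) := by
    rw [← smul_vecMulVec]
    congr 1
    funext k
    simp [Pi.single_apply]
  rwa [h7] at h6

/-- `M` contains `SL`. -/
theorem sl_le_of_allK (hα : 2 ≤ Fintype.card α) (hβ : 3 ≤ Fintype.card β) {u φ : α → F}
    (hu : u ≠ 0) (hφ : φ ≠ 0) (h0 : φ ⬝ᵥ u = 0) (h : AllK M (vecMulVec u φ)) :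
    Cfsg.Geo.specialLinear (α × β) F ≤ M := by
  -- base case
  have base : ∀ (i j : α) (k l : β), i ≠ j → k ≠ l → ∀ c : F,
      HasTv M (c • Pi.single (i, k) 1) (Pi.single (j, l) 1) := by
    intro i j k l hij hkl c
    obtain ⟨h1, g, hg, he⟩ := allK_single hM hα hu hφ h0 h hij c (Pi.single k 1) (Pi.single l 1)
      (by simp [hkl])
    refine ⟨by simp [hij], g, hg, ?_⟩
    rw [he, vecMulVec_kronecker, ten_single, ten_single, mul_one, one_mul]
    congr 2
    funext p
    simp [Pi.single_apply]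
  have hcomm : ∀ (x y z : α × β), x ≠ y → (∀ c : F, HasTv M (c • Pi.single x 1) (Pi.single z 1)) →
      (∀ c : F, HasTv M (c • Pi.single z 1) (Pi.single y 1)) →
      ∀ c : F, HasTv M (c • Pi.single x 1) (Pi.single y 1) := by
    intro x y z hxy h1 h2 c
    have h3 := (h2 1).comm (h1 c) (by simp [hxy])
    rw [one_smul] at h3
    simpa using h3
  have : Nonempty α := Fintype.card_pos_iff.1 (by omega)
  have : Nonempty β := Fintype.card_pos_iff.1 (by omega)
  have hex2 : ∀ i : α, ∃ j, j ≠ i := fun i => by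
    have := Fintype.one_lt_card_iff_nontrivial.1 (show 1 < Fintype.card α by omega)
    exact exists_ne i
  have hex3 : ∀ k l : β, ∃ m, m ≠ k ∧ m ≠ l := by
    intro k l
    have h1 : ({k, l} : Finset β).card < Fintype.card β := by
      have := Finset.card_le_two (a := k) (b := l)
      omega
    obtain ⟨m, hm⟩ := Finset.exists_mem_notMem_of_card_lt_card (s := {k, l})
      (t := (Finset.univ : Finset β)) (by rwa [Finset.card_univ])
    refine ⟨m, ?_, ?_⟩
    · rintro rfl; exact hm.2 (by simp)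
    · rintro rfl; exact hm.2 (by simp)
  have case2 : ∀ (i : α) (k l : β), k ≠ l → ∀ c : F,
      HasTv M (c • Pi.single (i, k) 1) (Pi.single (i, l) 1) := by
    intro i k l hkl
    obtain ⟨i', hi'⟩ := hex2 i
    obtain ⟨k', hk'1, hk'2⟩ := hex3 k l
    exact hcomm (i, k) (i, l) (i', k') (by simp [hkl]) (base i i' k k' hi'.symm hk'1.symm)
      (base i' i k' l hi' hk'2)
  have : Nontrivial (α × β) := by
    have : Nontrivial β := Fintype.one_lt_card_iff_nontrivial.1 (show 1 < Fintype.card β by omega)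
    infer_instance
  refine specialLinear_le_of_hasTv ?_
  rintro ⟨i, k⟩ ⟨j, l⟩ hne
  by_cases hij : i = j
  · subst hij
    exact case2 i k l (by rintro rfl; exact hne rfl)
  · by_cases hkl : k = l
    · subst hkl
      obtain ⟨k', hk', -⟩ := hex3 k k
      exact hcomm (i, k) (j, k) (i, k') hne (case2 i k k' hk'.symm) (base i j k' k hij hk')
    · exact base i j k l hij hkl

/-- **From a non-scalar `Y` to `SL`.** -/
theorem sl_le_of_hasK (hα : 2 ≤ Fintype.card α) (hβ : 3 ≤ Fintype.card β)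
    (hF : 3 ≤ Fintype.card α ∨ ∃ t : F, t ≠ 0 ∧ t ≠ 1) {Y : Matrix α α F} {w ψ : β → F}
    (hw : w ≠ 0) (hψ : ψ ≠ 0) (h : HasK M Y w ψ)
    (hY : ¬ ∃ c : F, Y = c • (1 : Matrix α α F)) :
    Cfsg.Geo.specialLinear (α × β) F ≤ M := by
  obtain ⟨u, φ, hu, hφ, h0, h1⟩ := exists_rankOne hM (HasK.all hM hβ hw hψ h) hY hF
  exact sl_le_of_allK hM hα hβ hu hφ h0 h1

end

end Cfsg.Agent.H872
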