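import Mathlib
import Cfsg.Agent.H905.SLProper
import Cfsg.Agent.H872.SingCases
import Cfsg.Agent.H872.AutArith

/-!
# The normaliser of a Singer torus is maximal in `SL_n(q)`, `n ≥ 11` prime (helper872)

KNOWN-GROUP FACT (uses the classification of the finite simple groups as a hypothesis).
-/

set_option autoImplicit false

namespace Cfsg.Agent.H872.Sing

open Matrix Cfsg Cfsg.Geo Subgroup Cfsg.Agent.H907 Cfsg.Agent.OrdDiv Cfsg.Agent.H436
open scoped MatrixGroups

universe u

/-- the image of a core is simple -/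
theorem simple_map {ι : Type} [Fintype ι] [DecidableEq ι] {F : Type*} [Field F] {M P : Subgroup (GL ι F)}
    (hP : PreCore M P) : IsSimpleGroup (P.map (pr ι F)) ∧
      ∃ a ∈ P.map (pr ι F), ∃ b ∈ P.map (pr ι F), a * b ≠ b * a := by
  let f : P →* GL ι F ⧸ scalars ι F := (pr ι F).domRestrict P
  have hker : f.ker = (scalars ι F).subgroupOf P := by
    rw [MonoidHom.ker_domRestrict, QuotientGroup.ker_mk']
  have e1 : (P ⧸ (scalars ι F).subgroupOf P) ≃* f.range :=
    (QuotientGroup.quotientMulEquivOfEq hker.symm).trans (QuotientGroup.quotientKerEquivRange f)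
  have hran : f.range = P.map (pr ι F) := MonoidHom.domRestrict_range _ _
  have e2 : (P ⧸ (scalars ι F).subgroupOf P) ≃* P.map (pr ι F) := e1.trans (MulEquiv.subgroupCongr hran)
  refine ⟨e2.isSimpleGroup_congr.1 hP.simple, ?_⟩
  by_contra hcon
  push Not at hcon
  apply hP.nonabelian
  rw [isMulCommutative_iff]
  intro a b
  apply e2.injective
  rw [map_mul, map_mul]
  exact Subtype.ext (hcon _ (e2 a).2 _ (e2 b).2)

/-- a field subalgebra as an abstract field -/
theorem exists_sigma {ι : Type} [Fintype ι] [DecidableEq ι] [Nonempty ι] {F : Type u} [Field F] {r : ℕ}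
    {K : Subalgebra F (Matrix ι ι F)} (hK : IsFieldSubalgebra r K) :
    ∃ (E : Type u) (_ : Field E) (_ : Algebra F E) (σ : E →ₐ[F] Matrix ι ι F), (∀ m, m ∈ K ↔ ∃ e, σ e = m) ∧
      Module.finrank F E = r := by
  have hf : IsField K :=
    { exists_pair_ne := ⟨0, 1, zero_ne_one⟩
      mul_comm := fun a b => Subtype.ext (hK.comm a a.2 b b.2)
      mul_inv_cancel := by
        intro a ha
        obtain ⟨y, hy, hxy⟩ := hK.inv a a.2 (fun h => ha (Subtype.ext h))
        exact ⟨⟨y, hy⟩, Subtype.ext hxy⟩ }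
  let _ : Field K := hf.toField
  refine ⟨K, inferInstance, inferInstance, K.val, ?_, hK.finrank_eq⟩
  intro m
  constructor
  · intro h
    exact ⟨⟨m, h⟩, rfl⟩
  · rintro ⟨e, rfl⟩
    exact e.2

variable {F : Type u} [Field F] [Fintype F]

theorem card_gl (n : ℕ) : Nat.card (GL (Fin n) F) = glN n (Fintype.card F) := by
  rw [Matrix.card_GL_field]
  unfold glN
  rw [prod_list, Fin.prod_univ_eq_prod_range (fun i => Fintype.card F ^ n - Fintype.card F ^ i) n]

theorem card_sl_mul {n : ℕ} (hn : 1 ≤ n) :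
    Nat.card (specialLinear (Fin n) F) * (Fintype.card F - 1) = glN n (Fintype.card F) := by
  have : Nonempty (Fin n) := ⟨⟨0, hn⟩⟩
  have h1 := (Matrix.GeneralLinearGroup.det : GL (Fin n) F →* Fˣ).ker.card_eq_card_quotient_mul_card_subgroup
  have h2 : Nat.card (GL (Fin n) F ⧸ (Matrix.GeneralLinearGroup.det : GL (Fin n) F →* Fˣ).ker) = Nat.card Fˣ :=
    Nat.card_congr (QuotientGroup.quotientKerEquivOfSurjective _ Matrix.GeneralLinearGroup.det_surjective).toEquiv
  rw [h2, Nat.card_units, Nat.card_eq_fintype_card (α := F), card_gl] at h1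
  rw [h1, mul_comm]
  rfl

variable {E : Type*} [Field E] [Algebra F E] [FiniteDimensional F E] {n : ℕ}
  (σ : E →ₐ[F] Matrix (Fin n) (Fin n) F)

/-- case 4: the almost simple case -/
theorem core_case (hS : ∀ (G : Type u) [Group G] [Finite G] [IsSimpleGroup G], IsKnownSimple' G)
    (T : OrderTable.{u}) (hn : n.Prime) (hn11 : 11 ≤ n) (hE : Module.finrank F E = n)
    {M P : Subgroup (GL (Fin n) F)} (hMS : M ≤ specialLinear (Fin n) F)
    (hNM : subalgebraNormalizer σ.range ⊓ specialLinear (Fin n) F ≤ M) (hP : PreCore M P) :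
    M = specialLinear (Fin n) F := by
  classical
  have hne : Nonempty (Fin n) := ⟨⟨0, by omega⟩⟩
  have hι : Fintype.card (Fin n) = n := Fintype.card_fin n
  have hR := relAuto_sl σ hn hn11 hι hE
  have hRM : RelAuto (M.map (pr (Fin n) F)) ((tor σ).map (pr (Fin n) F)) n := by
    refine hR.restrict (map_mono hMS) ?_
    rw [← map_norm σ hn hn11 hι hE]
    exact map_mono hNM
  obtain ⟨hsimp, hna⟩ := simple_map hP
  have hRT := hRM.simple (map_mono hP.le) (by
    rintro _ ⟨g, hg, rfl⟩ _ ⟨x, hx, rfl⟩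
    rw [← map_inv, ← map_mul, ← map_mul]
    exact ⟨_, hP.normal g hg x hx, rfl⟩) hsimp hna
  obtain ⟨g, hg⟩ := exists_named T (hS (P.map (pr (Fin n) F))) (by
    intro h
    obtain ⟨a, ha, b, hb, hab⟩ := hna
    exact hab (congrArg Subtype.val (h ⟨a, ha⟩ ⟨b, hb⟩)))
  have hA := hRT.toAuto
  have hcardC : Nat.card (((tor σ).map (pr (Fin n) F)).subgroupOf (P.map (pr (Fin n) F))) =
      Nat.card ((tor σ).map (pr (Fin n) F)) := Nat.card_congr (subgroupOfEquivOfLe hRT.le).toEquiv
  obtain ⟨m, Q, D, hcls, hnm, hQ, hlt⟩ := auto_class hg hA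
  rw [hcardC] at hlt
  obtain ⟨p, hp⟩ := CharP.exists F
  obtain ⟨a, hpp, ha⟩ := FiniteField.card F p
  have hv := card_torus σ (hE.trans hι.symm)
  rw [hι] at hv
  have hcq : Nat.card (P.map (pr (Fin n) F)) ∣ glN n (Fintype.card F) := by
    rw [← card_gl]
    exact (Subgroup.card_subgroup_dvd_card _).trans (Subgroup.card_quotient_dvd_card (scalars (Fin n) F))
  have hvc : Nat.card ((tor σ).map (pr (Fin n) F)) ∣ Nat.card (P.map (pr (Fin n) F)) := Subgroup.card_dvd_of_le hRT.le
  have hfin := numeric hcls hg.cond hQ hg.eq hn hn11 hnm hpp a.ne_zero ha hcq hvc hv hlt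
  subst hfin
  -- the orders agree
  have h1 : Nat.gcd n (Fintype.card F - 1) * (Fintype.card F - 1) * Nat.card (P.map (pr (Fin n) F)) =
      glN n (Fintype.card F) := hg.eq
  have h2 := card_map_mul (pr (Fin n) F) (specialLinear (Fin n) F)
  rw [QuotientGroup.ker_mk', card_scalars_inf, hι] at h2
  have h3 := card_sl_mul (F := F) (n := n) (by omega)
  rw [← h2, ← h1] at h3
  have hq : 2 ≤ Fintype.card F := Fintype.one_lt_card
  have h4 : Nat.card ((specialLinear (Fin n) F).map (pr (Fin n) F)) = Nat.card (P.map (pr (Fin n) F)) := by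
    have h5 : 0 < Nat.gcd n (Fintype.card F - 1) * (Fintype.card F - 1) :=
      Nat.mul_pos (Nat.gcd_pos_of_pos_left _ (by omega)) (by omega)
    apply Nat.eq_of_mul_eq_mul_left h5
    rw [← h3]
    ring
  have h5 : P.map (pr (Fin n) F) = (specialLinear (Fin n) F).map (pr (Fin n) F) :=
    Subgroup.eq_of_le_of_card_ge (map_mono (hP.le.trans hMS)) h4.le
  refine le_antisymm hMS fun s hs => ?_
  have h6 : pr (Fin n) F s ∈ P.map (pr (Fin n) F) := by
    rw [h5]
    exact ⟨s, hs, rfl⟩
  obtain ⟨x, hx, hxs⟩ := h6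
  have h7 : s * x⁻¹ ∈ scalars (Fin n) F := by
    rw [← pr_eq_one, map_mul, map_inv, hxs, mul_inv_cancel]
  have hxM := hP.le hx
  have h8 : s * x⁻¹ ∈ M := by
    refine hNM ⟨?_, (specialLinear (Fin n) F).mul_mem hs ((specialLinear (Fin n) F).inv_mem (hMS hxM))⟩
    apply norm_of_forall σ
    intro k
    refine ⟨k, ?_⟩
    obtain ⟨c, hc⟩ := (mem_scalars_iff _).1 h7
    have h3 : ((s * x⁻¹ : GL (Fin n) F) : Matrix (Fin n) (Fin n) F) * σ k =
        σ k * ((s * x⁻¹ : GL (Fin n) F) : Matrix (Fin n) (Fin n) F) := by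
      rw [hc, smul_mul_assoc, one_mul, mul_smul_comm, mul_one]
    rw [h3, mul_assoc, ← Units.val_mul, mul_inv_cancel, Units.val_one, mul_one]
  have h9 := M.mul_mem h8 hxM
  rwa [inv_mul_cancel_right] at h9

/-- the overgroups -/
theorem eq_or_eq (hS : ∀ (G : Type u) [Group G] [Finite G] [IsSimpleGroup G], IsKnownSimple' G)
    (T : OrderTable.{u}) (hn : n.Prime) (hn11 : 11 ≤ n) (hE : Module.finrank F E = n)
    {M : Subgroup (GL (Fin n) F)} (hMS : M ≤ specialLinear (Fin n) F)
    (hNM : subalgebraNormalizer σ.range ⊓ specialLinear (Fin n) F ≤ M) :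
    M = subalgebraNormalizer σ.range ⊓ specialLinear (Fin n) F ∨ M = specialLinear (Fin n) F := by
  classical
  have hne : Nonempty (Fin n) := ⟨⟨0, by omega⟩⟩
  have hι : Fintype.card (Fin n) = n := Fintype.card_fin n
  have hE' : Module.finrank F E = Fintype.card (Fin n) := hE.trans hι.symm
  have hpE : (Module.finrank F E).Prime := hE ▸ hn
  have hR := relAuto_sl σ hn hn11 hι hE
  obtain ⟨s, hs, hsd⟩ := hR.exists_prime
  have hsn := hR.le_prime hs hsd
  obtain ⟨u, huS, hus⟩ := exists_elem σ hs hsd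
  have huN : uG σ u ∈ subalgebraNormalizer σ.range ⊓ specialLinear (Fin n) F := by
    refine ⟨norm_of_forall σ (fun k => ⟨k, ?_⟩), huS⟩
    have h3 : ((uG σ u : GL (Fin n) F) : Matrix (Fin n) (Fin n) F) * σ k =
        σ k * ((uG σ u : GL (Fin n) F) : Matrix (Fin n) (Fin n) F) := by
      rw [coe_uG, ← map_mul, ← map_mul, mul_comm]
    rw [h3, mul_assoc, ← Units.val_mul, mul_inv_cancel, Units.val_one, mul_one]
  have huM := hNM huN
  have hu1 : pr (Fin n) F (uG σ u) ≠ 1 := by
    intro h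
    rw [h, orderOf_one] at hus
    exact hs.one_lt.ne hus
  have hirr := irreducible σ hE' hpE huM (pr_uG_ne_one σ hu1)
  rcases struct_prime hn (by omega) hι hirr with h | h | h | h
  · exfalso
    obtain ⟨N, -, -, D, hD, hMD, -⟩ := h
    exact not_monomial σ hs (by omega) huM hus (by omega) hD hMD
  · left
    obtain ⟨N, -, -, -, -, hK', hMK'⟩ := h
    obtain ⟨E', _, _, σ', hσ', hE''⟩ := exists_sigma hK'
    have hfin : FiniteDimensional F E' := Module.finite_of_finrank_pos (by rw [hE'']; omega)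
    have hran : Algebra.adjoin F (matrixSet N) = σ'.range := by
      ext m
      rw [hσ']
      rfl
    rw [hran] at hMK'
    have h1 := card_norm σ hn hn11 hι hE
    have h2 := card_norm σ' hn hn11 hι hE''
    have hq : 2 ≤ Fintype.card F := Fintype.one_lt_card
    have h3 : Nat.card (subalgebraNormalizer σ'.range ⊓ specialLinear (Fin n) F : Subgroup (GL (Fin n) F)) =
        Nat.card (subalgebraNormalizer σ.range ⊓ specialLinear (Fin n) F : Subgroup (GL (Fin n) F)) :=
      Nat.eq_of_mul_eq_mul_right (by omega) (h2.trans h1.symm)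
    refine (Subgroup.eq_of_le_of_card_ge hNM ?_).symm
    rw [← h3]
    exact Subgroup.card_le_of_le (le_inf hMK' hMS)
  · exfalso
    obtain ⟨R, -, hRn, -, habs, hRc, hRz, hRe, -⟩ := h
    exact not_extraspecial σ hE' hpE hn hs hsn huM hus hRn habs hRc hRz hRe
  · right
    obtain ⟨P, hP⟩ := h
    exact core_case σ hS T hn hn11 hE hMS hNM hP
/-- **The normaliser of a Singer torus is maximal**, for `n ≥ 11` prime. -/
theorem singer_isMaximalIn (hS : ∀ (G : Type u) [Group G] [Finite G] [IsSimpleGroup G], IsKnownSimple' G)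
    (T : OrderTable.{u}) (hn : n.Prime) (hn11 : 11 ≤ n) {K : Subalgebra F (Matrix (Fin n) (Fin n) F)}
    (hK : IsFieldSubalgebra n K) :
    IsMaximalIn (specialLinear (Fin n) F) (subalgebraNormalizer K ⊓ specialLinear (Fin n) F) := by
  classical
  have hne : Nonempty (Fin n) := ⟨⟨0, by omega⟩⟩
  obtain ⟨E, _, _, σ, hσ, hE⟩ := exists_sigma hK
  have hfin : FiniteDimensional F E := Module.finite_of_finrank_pos (by rw [hE]; omega)
  have hran : K = σ.range := by
    ext m
    rw [hσ]
    rfl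
  refine ⟨lt_of_le_of_ne inf_le_right fun h => ?_, fun M hNM hMS => ?_⟩
  · refine H905.not_sl_le_subalgebraNormalizer (ι := Fin n) (by rw [Fintype.card_fin]; omega) (r := n) (by omega) hK ?_
    rw [← h]
    exact inf_le_left
  · rw [hran] at hNM ⊢
    exact eq_or_eq σ hS T hn hn11 hE hMS hNM

end Cfsg.Agent.H872.Sing
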