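import Mathlib

/-!
# Arithmetic of `(q ^ n - 1) / ((q - 1) (n, q - 1))` (helper872)
-/

set_option autoImplicit false

namespace Cfsg.Agent.H872.SingNum

open Finset

theorem geom {q n v : ℕ} (hq : 2 ≤ q) (hv : v * ((q - 1) * Nat.gcd n (q - 1)) = q ^ n - 1) :
    v * Nat.gcd n (q - 1) = ∑ i ∈ range n, q ^ i := by
  have h1 : (∑ i ∈ range n, q ^ i) * (q - 1) = q ^ n - 1 := by
    have := Nat.geomSum_eq hq n
    rw [this]
    apply Nat.div_mul_cancel
    exact Nat.sub_one_dvd_pow_sub_one q n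
  rw [← hv] at h1
  have h2 : (v * Nat.gcd n (q - 1)) * (q - 1) = (∑ i ∈ range n, q ^ i) * (q - 1) := by
    rw [h1]; ring
  exact Nat.eq_of_mul_eq_mul_right (by omega) h2

theorem odd {q n v : ℕ} (hq : 2 ≤ q) (hn : Odd n) (hv : v * ((q - 1) * Nat.gcd n (q - 1)) = q ^ n - 1) : Odd v := by
  have h1 := geom hq hv
  have h2 : Odd (∑ i ∈ range n, q ^ i) := by
    obtain ⟨k, rfl⟩ := hn
    rcases Nat.even_or_odd q with he | ho
    · rw [Finset.sum_range_succ']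
      rw [pow_zero]
      apply Even.add_one
      apply Finset.even_sum
      intro i _
      exact (Nat.even_pow.2 ⟨he, by omega⟩)
    · rw [Finset.odd_sum_iff_odd_card_odd]
      have : (range (2 * k + 1)).filter (fun x => Odd (q ^ x)) = range (2 * k + 1) := by
        apply Finset.filter_true_of_mem
        intro i _
        exact ho.pow
      rw [this, card_range]
      exact ⟨k, rfl⟩
  rw [← h1] at h2
  exact (Nat.odd_mul.1 h2).1

theorem not_dvd {q n v : ℕ} (hq : 2 ≤ q) (hn : n.Prime) (hn2 : n ≠ 2)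
    (hv : v * ((q - 1) * Nat.gcd n (q - 1)) = q ^ n - 1) : ¬ n ∣ v := by
  intro h
  have : Fact n.Prime := ⟨hn⟩
  have hq0 : 1 ≤ q ^ n := Nat.one_le_pow _ _ (by omega)
  have h1 : n ∣ q ^ n - 1 := by
    rw [← hv]
    exact Dvd.dvd.mul_right h _
  have h2 : ((q : ℕ) : ZMod n) = 1 := by
    have h3 := (ZMod.natCast_eq_zero_iff (q ^ n - 1) n).2 h1
    rw [Nat.cast_sub hq0, Nat.cast_pow, ZMod.pow_card, Nat.cast_one, sub_eq_zero] at h3
    exact h3
  have h3 : n ∣ q - 1 := by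
    apply (ZMod.natCast_eq_zero_iff (q - 1) n).1
    rw [Nat.cast_sub (by omega), h2, Nat.cast_one, sub_self]
  rw [Nat.gcd_eq_left h3] at hv
  have h4 := padicValNat.pow_sub_pow (p := n) (hn.odd_of_ne_two hn2) (x := q) (y := 1) (by omega) h3
    (fun h5 => by
      have h6 : n ∣ q - (q - 1) := Nat.dvd_sub h5 h3
      rw [Nat.sub_sub_self (by omega)] at h6
      exact hn.one_lt.ne' (Nat.dvd_one.1 h6)) (n := n) hn.ne_zero
  have hv0 : v ≠ 0 := by
    rintro rfl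
    rw [zero_mul] at hv
    have : q ^ 1 ≤ q ^ n := Nat.pow_le_pow_right (by omega) hn.one_lt.le
    rw [pow_one] at this
    omega
  rw [one_pow, ← hv, padicValNat.mul hv0 (Nat.mul_ne_zero (by omega) hn.ne_zero),
    padicValNat.mul (by omega) hn.ne_zero] at h4
  have h5 := one_le_padicValNat_of_dvd hv0 h
  omega

theorem orderOf_eq {q n v s : ℕ} (hq : 2 ≤ q) (hn : n.Prime) (hn2 : n ≠ 2)
    (hv : v * ((q - 1) * Nat.gcd n (q - 1)) = q ^ n - 1) (hs : s.Prime) (hsv : s ∣ v) : orderOf (q : ZMod s) = n := by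
  have : Fact s.Prime := ⟨hs⟩
  have hq0 : 1 ≤ q ^ n := Nat.one_le_pow _ _ (by omega)
  have h1 : s ∣ q ^ n - 1 := by
    rw [← hv]
    exact Dvd.dvd.mul_right hsv _
  have h2 : (q : ZMod s) ^ n = 1 := by
    have h3 := (ZMod.natCast_eq_zero_iff (q ^ n - 1) s).2 h1
    rw [Nat.cast_sub hq0, Nat.cast_pow, Nat.cast_one, sub_eq_zero] at h3
    exact h3
  rcases (Nat.dvd_prime hn).1 (orderOf_dvd_of_pow_eq_one h2) with h3 | h3
  · exfalso
    rw [orderOf_eq_one_iff] at h3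
    have h4 := geom hq hv
    have h5 : ((∑ i ∈ range n, q ^ i : ℕ) : ZMod s) = (n : ZMod s) := by
      rw [Nat.cast_sum]
      simp [h3]
    rw [← h4, Nat.cast_mul, (ZMod.natCast_eq_zero_iff v s).2 hsv, zero_mul] at h5
    have h6 := (ZMod.natCast_eq_zero_iff n s).1 h5.symm
    have h7 := (Nat.prime_dvd_prime_iff_eq hs hn).1 h6
    rw [h7] at hsv
    exact not_dvd hq hn hn2 hv hsv
  · exact h3

theorem ge {v q n : ℕ} (hq : 2 ≤ q) (hn : 2 ≤ n) (hv : v * ((q - 1) * Nat.gcd n (q - 1)) = q ^ n - 1) :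
    q ^ (n - 2) ≤ v := by
  by_contra hlt
  rw [not_le] at hlt
  have h1 : Nat.gcd n (q - 1) ≤ q - 1 := Nat.le_of_dvd (by omega) (Nat.gcd_dvd_right _ _)
  obtain ⟨k, rfl⟩ : ∃ k, q = k + 2 := ⟨q - 2, by omega⟩
  have h0 : k + 2 - 1 = k + 1 := by omega
  rw [h0] at h1 hv
  have h3 : (k + 2) ^ n = (k + 2) ^ (n - 2) * (k + 2) ^ 2 := by
    rw [← pow_add]
    congr 1
    omega
  have h4 : v * ((k + 1) * Nat.gcd n (k + 1)) ≤ v * ((k + 1) * (k + 1)) :=
    Nat.mul_le_mul_left _ (Nat.mul_le_mul_left _ h1)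
  have h5 : (v + 1) * ((k + 1) * (k + 1)) ≤ (k + 2) ^ (n - 2) * ((k + 1) * (k + 1)) :=
    Nat.mul_le_mul_right _ hlt
  have h6 : 1 ≤ (k + 2) ^ (n - 2) := Nat.one_le_pow _ _ (by omega)
  have h7 : 1 ≤ (k + 2) ^ n := Nat.one_le_pow _ _ (by omega)
  have h8 : (k + 2) ^ n ≤ v * ((k + 1) * (k + 1)) + 1 := by omega
  rw [h3] at h8
  generalize (k + 2) ^ (n - 2) = X at *
  nlinarith

theorem ten_lt {n : ℕ} (hn : 11 ≤ n) : 10 * n < 2 ^ (n - 2) := by
  obtain ⟨t, rfl⟩ : ∃ t, n = t + 11 := ⟨n - 11, by omega⟩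
  have h0 : t + 11 - 2 = t + 9 := by omega
  rw [h0]
  clear hn h0
  induction t with
  | zero => norm_num
  | succ t ih =>
    calc 10 * (t + 1 + 11) < 2 * (10 * (t + 11)) := by omega
      _ ≤ 2 * 2 ^ (t + 9) := Nat.mul_le_mul_left 2 ih.le
      _ = 2 ^ (t + 1 + 9) := by rw [← pow_succ']

theorem big {v q n : ℕ} (hq : 2 ≤ q) (hn : 11 ≤ n) (hv : v * ((q - 1) * Nat.gcd n (q - 1)) = q ^ n - 1) :
    10 * n < v :=
  calc 10 * n < 2 ^ (n - 2) := ten_lt hn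
    _ ≤ q ^ (n - 2) := Nat.pow_le_pow_left hq _
    _ ≤ v := ge hq (by omega) hv

end Cfsg.Agent.H872.SingNum
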