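import Mathlib
import Cfsg.Prelude.Def_GeometricClasses
import Cfsg.Agent.H872.AutRelMk
import Cfsg.Agent.H872.SingNum
import Cfsg.Agent.H872.SingBasic

/-!
# The Singer torus of `PSL_n(q)`, `n` prime (helper872)

`relAuto_sl` : in prime degree `n ≥ 11` the image of the norm one group of a maximal field in `PSL_n(q)` satisfies
`RelAuto`; its order `v` satisfies `v * ((q - 1) * gcd n (q - 1)) = q ^ n - 1`.
-/

set_option autoImplicit false

namespace Cfsg.Agent.H872.Sing

open Matrix Cfsg.Geo Subgroup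
open scoped MatrixGroups

variable {ι : Type} [Fintype ι] [DecidableEq ι] {F : Type*} [Field F] {E : Type*} [Field E] [Algebra F E]
  (σ : E →ₐ[F] Matrix ι ι F)

/-- units of the field as invertible matrices -/
def uG : Eˣ →* GL ι F := Units.map (σ : E →* Matrix ι ι F)

theorem coe_uG (u : Eˣ) : ((uG σ u : GL ι F) : Matrix ι ι F) = σ u := rfl

theorem uG_injective [Nonempty ι] : Function.Injective (uG σ) :=
  Units.map_injective σ.toRingHom.injective

theorem mem_range_uG {g : GL ι F} {k : E} (h : σ k = (g : Matrix ι ι F)) [Nonempty ι] : ∃ u, uG σ u = g := by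
  have hk : k ≠ 0 := by
    rintro rfl
    rw [map_zero] at h
    have h1 := g.isUnit
    rw [← h] at h1
    exact not_isUnit_zero h1
  exact ⟨Units.mk0 k hk, Units.ext h⟩

/-- the norm one group -/
def tor : Subgroup (GL ι F) := (uG σ).range ⊓ specialLinear ι F

theorem mem_sl {g : GL ι F} : g ∈ specialLinear ι F ↔ (g : Matrix ι ι F).det = 1 := by
  change g ∈ (Matrix.GeneralLinearGroup.det : GL ι F →* Fˣ).ker ↔ _
  rw [MonoidHom.mem_ker]
  constructor
  · intro h
    have := congrArg Units.val h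
    simpa using this
  · intro h
    apply Units.ext
    simpa using h

/-- the projection -/
abbrev pr (ι : Type) [Fintype ι] [DecidableEq ι] (F : Type*) [Field F] : GL ι F →* GL ι F ⧸ scalars ι F :=
  QuotientGroup.mk' (scalars ι F)

theorem pr_eq_one {g : GL ι F} : pr ι F g = 1 ↔ g ∈ scalars ι F := QuotientGroup.eq_one_iff g

theorem pr_eq_pr {g h : GL ι F} : pr ι F g = pr ι F h ↔ ∃ c : Fˣ, (g : Matrix ι ι F) = (c : F) • (h : Matrix ι ι F) := by
  rw [← mul_inv_eq_one (b := pr ι F h), ← map_inv, ← map_mul, pr_eq_one, mem_scalars_iff]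
  constructor
  · rintro ⟨c, hc⟩
    refine ⟨c, ?_⟩
    have h1 : g = (g * h⁻¹) * h := by group
    conv_lhs => rw [h1]
    rw [Units.val_mul, hc, Matrix.smul_mul, one_mul]
  · rintro ⟨c, hc⟩
    refine ⟨c, ?_⟩
    rw [Units.val_mul, hc, Matrix.smul_mul, ← Units.val_mul, mul_inv_cancel, Units.val_one]

/-- cardinality of an image -/
theorem card_map_mul {G G' : Type*} [Group G] [Group G'] [Finite G] (f : G →* G') (H : Subgroup G) :
    Nat.card (H.map f) * Nat.card (f.ker ⊓ H : Subgroup G) = Nat.card H := by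
  have h1 := (f.domRestrict H).ker.card_eq_card_quotient_mul_card_subgroup
  have h2 : Nat.card (H ⧸ (f.domRestrict H).ker) = Nat.card (H.map f) := by
    rw [← MonoidHom.domRestrict_range]
    exact Nat.card_congr (QuotientGroup.quotientKerEquivRange _).toEquiv
  have h3 : Nat.card (f.domRestrict H).ker = Nat.card (f.ker ⊓ H : Subgroup G) := by
    rw [MonoidHom.ker_domRestrict, ← subgroupOf_map_subtype]
    exact Nat.card_congr ((f.ker.subgroupOf H).equivMapOfInjective H.subtype H.subtype_injective).toEquiv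
  rw [h2, h3] at h1
  exact h1.symm

section Finite

variable [Fintype F]

/-- the order of the group of scalars of determinant one -/
theorem card_scalars_inf [Nonempty ι] :
    Nat.card (scalars ι F ⊓ specialLinear ι F : Subgroup (GL ι F)) =
      Nat.gcd (Fintype.card ι) (Fintype.card F - 1) := by
  classical
  let f : Fˣ →* GL ι F := Units.map (Matrix.scalar ι : F →+* Matrix ι ι F).toMonoidHom
  have hf : Function.Injective f := Units.map_injective (Matrix.scalar ι : F →+* Matrix ι ι F).injective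
  have h1 : (scalars ι F ⊓ specialLinear ι F : Subgroup (GL ι F)) =
      (powMonoidHom (Fintype.card ι) : Fˣ →* Fˣ).ker.map f := by
    ext g
    rw [mem_inf, Subgroup.mem_map, mem_sl]
    constructor
    · rintro ⟨⟨c, rfl⟩, h2⟩
      refine ⟨c, ?_, rfl⟩
      rw [MonoidHom.mem_ker, powMonoidHom_apply]
      apply Units.ext
      have h3 : (Matrix.scalar ι (c : F)).det = 1 := h2
      rw [Matrix.scalar_apply, Matrix.det_diagonal, Finset.prod_const, Finset.card_univ] at h3
      rw [Units.val_pow_eq_pow_val, h3, Units.val_one]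
    · rintro ⟨c, hc, rfl⟩
      refine ⟨⟨c, rfl⟩, ?_⟩
      rw [MonoidHom.mem_ker, powMonoidHom_apply] at hc
      change (Matrix.scalar ι (c : F)).det = 1
      rw [Matrix.scalar_apply, Matrix.det_diagonal, Finset.prod_const, Finset.card_univ,
        ← Units.val_pow_eq_pow_val, hc, Units.val_one]
  rw [h1, ← Nat.card_congr ((powMonoidHom (Fintype.card ι) : Fˣ →* Fˣ).ker.equivMapOfInjective f hf).toEquiv,
    IsCyclic.card_powMonoidHom_ker, Nat.card_units, Nat.card_eq_fintype_card, Nat.gcd_comm]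

variable [FiniteDimensional F E]

theorem card_tor [Nonempty ι] (hE : Module.finrank F E = Fintype.card ι) :
    Nat.card (tor σ) * (Fintype.card F - 1) = Fintype.card F ^ Fintype.card ι - 1 := by
  classical
  have : Finite E := Module.finite_of_finite F
  let N : Eˣ →* Fˣ := Units.map (Algebra.norm F)
  have hN : Function.Surjective N := FiniteField.unitsMap_norm_surjective F E
  have h1 : tor σ = N.ker.map (uG σ) := by
    ext g
    rw [tor, mem_inf, Subgroup.mem_map, mem_sl]
    constructor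
    · rintro ⟨⟨u, rfl⟩, h2⟩
      refine ⟨u, ?_, rfl⟩
      rw [MonoidHom.mem_ker]
      apply Units.ext
      rw [coe_uG, det_eq_norm σ hE] at h2
      exact h2
    · rintro ⟨u, hu, rfl⟩
      refine ⟨⟨u, rfl⟩, ?_⟩
      rw [coe_uG, det_eq_norm σ hE]
      exact congrArg Units.val (MonoidHom.mem_ker.1 hu)
  rw [h1, ← Nat.card_congr (N.ker.equivMapOfInjective _ (uG_injective σ)).toEquiv]
  have h2 := N.ker.card_eq_card_quotient_mul_card_subgroup
  have h3 : Nat.card (Eˣ ⧸ N.ker) = Nat.card Fˣ :=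
    Nat.card_congr (QuotientGroup.quotientKerEquivOfSurjective N hN).toEquiv
  rw [h3, Nat.card_units, Nat.card_units, Nat.card_eq_fintype_card (α := F)] at h2
  have h4 : Nat.card E = Fintype.card F ^ Fintype.card ι := by
    rw [Module.natCard_eq_pow_finrank (K := F), hE, Nat.card_eq_fintype_card]
  rw [h4] at h2
  rw [h2, mul_comm]

theorem card_torus [Nonempty ι] (hE : Module.finrank F E = Fintype.card ι) :
    Nat.card ((tor σ).map (pr ι F)) * ((Fintype.card F - 1) * Nat.gcd (Fintype.card ι) (Fintype.card F - 1)) =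
      Fintype.card F ^ Fintype.card ι - 1 := by
  classical
  rw [← card_tor σ hE, ← card_map_mul (pr ι F) (tor σ)]
  have h1 : ((pr ι F).ker ⊓ tor σ : Subgroup (GL ι F)) = scalars ι F ⊓ specialLinear ι F := by
    rw [QuotientGroup.ker_mk']
    apply le_antisymm
    · exact inf_le_inf_left _ inf_le_right
    · rintro g ⟨hg1, hg2⟩
      refine ⟨hg1, ?_, hg2⟩
      obtain ⟨c, hc⟩ := (mem_scalars_iff g).1 hg1
      refine mem_range_uG σ (k := algebraMap F E c) ?_
      rw [AlgHom.commutes, hc, Algebra.algebraMap_eq_smul_one]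
  rw [h1, card_scalars_inf]
  ring

/-- the Frobenius element of determinant one -/
theorem exists_frob [Nonempty ι] (hE : Module.finrank F E = Fintype.card ι) :
    ∃ φ ∈ specialLinear ι F, ∀ k : E, (φ : Matrix ι ι F) * σ k * ((φ⁻¹ : GL ι F) : Matrix ι ι F) =
      σ (k ^ Fintype.card F) := by
  have : Finite E := Module.finite_of_finite F
  obtain ⟨φ, hφ⟩ := exists_conj σ hE (FiniteField.frobeniusAlgEquivOfAlgebraic F E)
  obtain ⟨u, hu⟩ := FiniteField.unitsMap_norm_surjective F E (Matrix.GeneralLinearGroup.det φ)⁻¹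
  refine ⟨uG σ u * φ, ?_, fun k => ?_⟩
  · rw [mem_sl, Units.val_mul, Matrix.det_mul, coe_uG, det_eq_norm σ hE]
    have h1 := congrArg Units.val hu
    have h2 : ((Matrix.GeneralLinearGroup.det φ)⁻¹ : Fˣ) * Matrix.GeneralLinearGroup.det φ = 1 := inv_mul_cancel _
    have h3 := congrArg Units.val h2
    rw [Units.val_mul] at h3
    rw [← h1] at h3
    exact h3
  · have h1 := hφ k
    rw [FiniteField.frobeniusAlgEquivOfAlgebraic_apply] at h1
    have h2 : ((uG σ u * φ)⁻¹ : GL ι F) = φ⁻¹ * (uG σ u)⁻¹ := mul_inv_rev _ _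
    rw [h2, Units.val_mul, Units.val_mul, coe_uG]
    calc σ u * (φ : Matrix ι ι F) * σ k * (((φ⁻¹ : GL ι F) : Matrix ι ι F) * (((uG σ u)⁻¹ : GL ι F) : Matrix ι ι F))
        = σ u * ((φ : Matrix ι ι F) * σ k * ((φ⁻¹ : GL ι F) : Matrix ι ι F)) *
          (((uG σ u)⁻¹ : GL ι F) : Matrix ι ι F) := by simp only [mul_assoc]
      _ = σ u * σ (k ^ Fintype.card F) * (((uG σ u)⁻¹ : GL ι F) : Matrix ι ι F) := by rw [h1]
      _ = σ (k ^ Fintype.card F) * (σ u * (((uG σ u)⁻¹ : GL ι F) : Matrix ι ι F)) := by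
          rw [← map_mul, mul_comm, map_mul, mul_assoc]
      _ = σ (k ^ Fintype.card F) := by
          rw [← coe_uG, ← Units.val_mul, mul_inv_cancel, Units.val_one, mul_one]

/-- an element conjugating a generator into the field acts as a power of Frobenius -/
theorem exists_pow [Nonempty ι] (hp : (Module.finrank F E).Prime) {e k0 : E} (he : e ∉ Set.range (algebraMap F E))
    {g : GL ι F} (hg : (g : Matrix ι ι F) * σ e * ((g⁻¹ : GL ι F) : Matrix ι ι F) = σ k0) :
    ∃ j : ℕ, ∀ k : E, (g : Matrix ι ι F) * σ k * ((g⁻¹ : GL ι F) : Matrix ι ι F) = σ (k ^ (Fintype.card F) ^ j) := by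
  have : Finite E := Module.finite_of_finite F
  let c : Matrix ι ι F →ₐ[F] Matrix ι ι F := AlgHom.ofLinearMap
    { toFun := fun m => (g : Matrix ι ι F) * m * ((g⁻¹ : GL ι F) : Matrix ι ι F)
      map_add' := fun a b => by rw [mul_add, add_mul]
      map_smul' := fun a b => by rw [mul_smul_comm, smul_mul_assoc]; rfl }
    (by
      change (g : Matrix ι ι F) * 1 * ((g⁻¹ : GL ι F) : Matrix ι ι F) = 1
      rw [mul_one, ← Units.val_mul, mul_inv_cancel, Units.val_one])
    (fun a b => by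
      change (g : Matrix ι ι F) * (a * b) * ((g⁻¹ : GL ι F) : Matrix ι ι F) =
        (g : Matrix ι ι F) * a * ((g⁻¹ : GL ι F) : Matrix ι ι F) *
        ((g : Matrix ι ι F) * b * ((g⁻¹ : GL ι F) : Matrix ι ι F))
      have h1 : ((g⁻¹ : GL ι F) : Matrix ι ι F) * (g : Matrix ι ι F) = 1 := by
        rw [← Units.val_mul, inv_mul_cancel, Units.val_one]
      calc (g : Matrix ι ι F) * (a * b) * ((g⁻¹ : GL ι F) : Matrix ι ι F)
          = (g : Matrix ι ι F) * a * 1 * b * ((g⁻¹ : GL ι F) : Matrix ι ι F) := by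
            rw [mul_one]; simp only [mul_assoc]
        _ = _ := by rw [← h1]; simp only [mul_assoc])
  have hc : ∀ m, c m = (g : Matrix ι ι F) * m * ((g⁻¹ : GL ι F) : Matrix ι ι F) := fun m => rfl
  have hinj : Function.Injective σ := σ.toRingHom.injective
  have hran : ∀ k : E, c (σ k) ∈ σ.range := by
    intro k
    have h1 : k ∈ Algebra.adjoin F {e} := by
      rw [adjoin_top hp he]
      trivial
    have h2 : Algebra.adjoin F {e} ≤ (σ.range).comap (c.comp σ) := by
      rw [Algebra.adjoin_le_iff, Set.singleton_subset_iff]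
      change c (σ e) ∈ σ.range
      rw [hc, hg]
      exact ⟨k0, rfl⟩
    exact h2 h1
  let τ : E →ₐ[F] E := ((AlgEquiv.ofInjective σ hinj).symm : σ.range →ₐ[F] E).comp
    ((c.comp σ).codRestrict σ.range hran)
  have hτ : ∀ k, σ (τ k) = c (σ k) := by
    intro k
    have h1 : AlgEquiv.ofInjective σ hinj (τ k) = (c.comp σ).codRestrict σ.range hran k :=
      AlgEquiv.apply_symm_apply _ _
    exact congrArg Subtype.val h1
  obtain ⟨j, hj⟩ := (FiniteField.bijective_frobeniusAlgHom_pow F E).2 τ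
  refine ⟨j, fun k => ?_⟩
  rw [← hc, ← hτ, ← hj]
  congr 1
  change (FiniteField.frobeniusAlgHom F E ^ (j : ℕ)) k = _
  rw [AlgHom.coe_pow, FiniteField.coe_frobeniusAlgHom, pow_iterate]

omit [Fintype F] [FiniteDimensional F E] in
theorem conj_pr {g : GL ι F} {u : Eˣ} {m : ℕ}
    (h : (g : Matrix ι ι F) * σ u * ((g⁻¹ : GL ι F) : Matrix ι ι F) = σ ((u : E) ^ m)) :
    pr ι F g * pr ι F (uG σ u) * (pr ι F g)⁻¹ = pr ι F (uG σ u) ^ m := by
  rw [← map_inv, ← map_mul, ← map_mul, ← map_pow, ← map_pow]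
  congr 1
  apply Units.ext
  rw [Units.val_mul, Units.val_mul, coe_uG, h, coe_uG, Units.val_pow_eq_pow_val]

omit [Fintype F] [FiniteDimensional F E] in
theorem pr_uG_ne_one {u : Eˣ} (h : pr ι F (uG σ u) ≠ 1) : (u : E) ∉ Set.range (algebraMap F E) := by
  rintro ⟨c, hc⟩
  apply h
  rw [pr_eq_one, mem_scalars_iff]
  have hc0 : c ≠ 0 := by
    rintro rfl
    rw [map_zero] at hc
    exact u.ne_zero hc.symm
  refine ⟨Units.mk0 c hc0, ?_⟩
  rw [coe_uG, ← hc, AlgHom.commutes, Algebra.algebraMap_eq_smul_one]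
  rfl

/-- **The Singer torus.** -/
theorem relAuto_sl {n : ℕ} (hn : n.Prime) (hn11 : 11 ≤ n) (hι : Fintype.card ι = n) (hE : Module.finrank F E = n) :
    RelAuto ((specialLinear ι F).map (pr ι F)) ((tor σ).map (pr ι F)) n := by
  classical
  have : Nonempty ι := by
    rw [← Fintype.card_pos_iff]
    omega
  have : Finite E := Module.finite_of_finite F
  have hE' : Module.finrank F E = Fintype.card ι := hE.trans hι.symm
  have hv := card_torus σ hE'
  rw [hι] at hv
  have hq : 2 ≤ Fintype.card F := Fintype.one_lt_card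
  have hcyc : IsCyclic ((tor σ).map (pr ι F)) := by
    have h1 : IsCyclic Eˣ := inferInstance
    have h2 : IsCyclic (uG σ).range :=
      isCyclic_of_surjective (uG σ).rangeRestrict (MonoidHom.rangeRestrict_surjective _)
    have h3 : IsCyclic (tor σ) :=
      isCyclic_of_injective (Subgroup.inclusion (inf_le_left : tor σ ≤ (uG σ).range))
        (Subgroup.inclusion_injective _)
    exact isCyclic_of_surjective ((pr ι F).subgroupMap (tor σ)) ((pr ι F).subgroupMap_surjective _)
  obtain ⟨φ, hφS, hφ⟩ := exists_frob σ hE'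
  have hcc : ∀ x ∈ (tor σ).map (pr ι F), x ≠ 1 → ∀ g ∈ (specialLinear ι F).map (pr ι F), g * x = x * g →
      g ∈ (tor σ).map (pr ι F) := by
    rintro _ ⟨_, ⟨⟨u, rfl⟩, huS⟩, rfl⟩ hx1 _ ⟨g, hgS, rfl⟩ hgx
    rw [← map_mul, ← map_mul] at hgx
    obtain ⟨c, hc⟩ := pr_eq_pr.1 hgx
    rw [Units.val_mul, Units.val_mul, coe_uG] at hc
    -- `c ^ n = 1`
    have hcn : (c : F) ^ n = 1 := by
      have h1 := congrArg Matrix.det hc
      rw [Matrix.det_smul, Matrix.det_mul, Matrix.det_mul, mul_comm (σ (u : E)).det, hι] at h1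
      have h2 : (g : Matrix ι ι F).det * (σ (u : E)).det ≠ 0 := by
        rw [mem_sl.1 hgS, one_mul]
        have h3 := mem_sl.1 huS
        rw [coe_uG] at h3
        rw [h3]
        exact one_ne_zero
      exact (mul_right_cancel₀ h2 (by rw [one_mul]; exact h1)).symm
    have hpow : ∀ m : ℕ, (g : Matrix ι ι F) * σ ((u : E) ^ m) = ((c : F) ^ m) • (σ ((u : E) ^ m) * g) := by
      intro m
      induction m with
      | zero => simp
      | succ m ih =>
        rw [pow_succ (u : E), map_mul, ← mul_assoc, ih, smul_mul_assoc, mul_assoc, hc, mul_smul_comm, smul_smul,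
          ← pow_succ, ← mul_assoc]
    have h4 := hpow n
    rw [hcn, one_smul] at h4
    by_cases hun : (u : E) ^ n ∈ Set.range (algebraMap F E)
    · exfalso
      have h5 : pr ι F (uG σ u) ^ n = 1 := by
        by_contra hne
        rw [← map_pow, ← map_pow] at hne
        have := pr_uG_ne_one σ hne
        rw [Units.val_pow_eq_pow_val] at this
        exact this hun
      have h6 := orderOf_dvd_of_pow_eq_one h5
      rcases (Nat.dvd_prime hn).1 h6 with h7 | h7
      · exact hx1 (orderOf_eq_one_iff.1 h7)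
      · have h8 : n ∣ Nat.card ((tor σ).map (pr ι F)) := by
          rw [← h7]
          exact Subgroup.orderOf_dvd_natCard _ ⟨_, ⟨⟨u, rfl⟩, huS⟩, rfl⟩
        exact SingNum.not_dvd hq hn (by omega) hv h8
    · obtain ⟨k, hk⟩ := mem_of_commute_single σ hE' (hE ▸ hn) hun h4
      obtain ⟨w, hw⟩ := mem_range_uG σ hk
      exact ⟨g, ⟨⟨w, hw⟩, hgS⟩, rfl⟩
  have hbig := SingNum.big hq hn11 hv
  refine RelAuto.mk' (H := (specialLinear ι F).map (pr ι F)) (map_mono inf_le_right) hn hn11 hcyc hcc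
    (SingNum.odd hq (hn.odd_of_ne_two (by omega)) hv) hbig (φ := pr ι F φ) ⟨φ, hφS, rfl⟩ (q := Fintype.card F) ?_ ?_ ?_ ?_
  · rintro _ ⟨_, ⟨⟨u, rfl⟩, huS⟩, rfl⟩
    exact conj_pr σ (hφ u)
  · intro s hs hsd
    exact SingNum.orderOf_eq hq hn (by omega) hv hs hsd
  · rintro _ ⟨_, ⟨⟨u, rfl⟩, huS⟩, rfl⟩
    rw [← map_pow, ← map_pow]
    congr 2
    apply Units.ext
    rw [Units.val_pow_eq_pow_val]
    have := Fintype.ofFinite E
    have h4 : Fintype.card E = Fintype.card F ^ n := by
      rw [← Nat.card_eq_fintype_card, Module.natCard_eq_pow_finrank (K := F), hE, Nat.card_eq_fintype_card]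
    rw [← h4]
    exact FiniteField.pow_card _
  · rintro _ ⟨hgN, g, hgS, rfl⟩
    have hnt : Nontrivial ((tor σ).map (pr ι F)) := by
      rw [← Finite.one_lt_card_iff_nontrivial]
      omega
    obtain ⟨⟨x, hx⟩, hx1⟩ := exists_ne (1 : (tor σ).map (pr ι F))
    have hx1' : x ≠ 1 := fun h => hx1 (Subtype.ext h)
    have hgx := ((mem_normalizer_iff.1 hgN) x).1 hx
    obtain ⟨_, ⟨⟨u, rfl⟩, huS⟩, rfl⟩ := hx
    obtain ⟨_, ⟨⟨w, rfl⟩, hwS⟩, hw⟩ := hgx
    rw [← map_inv, ← map_mul, ← map_mul] at hw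
    obtain ⟨c, hc⟩ := pr_eq_pr.1 hw.symm
    rw [Units.val_mul, Units.val_mul, coe_uG, coe_uG, ← map_smul] at hc
    obtain ⟨j, hj⟩ := exists_pow σ (hE ▸ hn) (pr_uG_ne_one σ hx1') hc
    refine ⟨j, ?_⟩
    rintro _ ⟨_, ⟨⟨u', rfl⟩, -⟩, rfl⟩
    exact conj_pr σ (hj u')

/-- the normaliser of the torus in `PSL` comes from the normaliser of the field -/
theorem normalizer_le [Nonempty ι] {n : ℕ} (hn : n.Prime) (hn11 : 11 ≤ n) (hι : Fintype.card ι = n)
    (hE : Module.finrank F E = n) {M : Subgroup (GL ι F)}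
    (hM : ∀ g ∈ specialLinear ι F, (∀ k, ∃ k', (g : Matrix ι ι F) * σ k * ((g⁻¹ : GL ι F) : Matrix ι ι F) = σ k') → g ∈ M) :
    normalizer (((tor σ).map (pr ι F) : Subgroup (GL ι F ⧸ scalars ι F)) : Set (GL ι F ⧸ scalars ι F)) ⊓
      (specialLinear ι F).map (pr ι F) ≤ M.map (pr ι F) := by
  classical
  have : Finite E := Module.finite_of_finite F
  have hE' : Module.finrank F E = Fintype.card ι := hE.trans hι.symm
  have hv := card_torus σ hE'
  rw [hι] at hv
  have hq : 2 ≤ Fintype.card F := Fintype.one_lt_card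
  have hbig := SingNum.big hq hn11 hv
  rintro _ ⟨hgN, g, hgS, rfl⟩
  have hnt : Nontrivial ((tor σ).map (pr ι F)) := by
    rw [← Finite.one_lt_card_iff_nontrivial]
    omega
  obtain ⟨⟨x, hx⟩, hx1⟩ := exists_ne (1 : (tor σ).map (pr ι F))
  have hx1' : x ≠ 1 := fun h => hx1 (Subtype.ext h)
  have hgx := ((mem_normalizer_iff.1 hgN) x).1 hx
  obtain ⟨_, ⟨⟨u, rfl⟩, huS⟩, rfl⟩ := hx
  obtain ⟨_, ⟨⟨w, rfl⟩, hwS⟩, hw⟩ := hgx
  rw [← map_inv, ← map_mul, ← map_mul] at hw
  obtain ⟨c, hc⟩ := pr_eq_pr.1 hw.symm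
  rw [Units.val_mul, Units.val_mul, coe_uG, coe_uG, ← map_smul] at hc
  obtain ⟨j, hj⟩ := exists_pow σ (hE ▸ hn) (pr_uG_ne_one σ hx1') hc
  exact ⟨g, hM g hgS (fun k => ⟨_, hj k⟩), rfl⟩

end Finite

end Cfsg.Agent.H872.Sing
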