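import Cfsg.Agent.H872.KronStab
import Cfsg.Agent.H872.KronPres
import Cfsg.Agent.H880.TI
import Cfsg.Agent.H872.TensorBasic
import Cfsg.Agent.H905.SLProper3

/-!
Overgroups of `SL(α) ⊗ SL(β)` in `GL (α × β) F`, `F` finite, `2 ≤ |α| < |β|`, `(|α|, |F|) ≠ (2, 2)`:
either all elements are Kronecker products or `SL` is contained.
-/

set_option autoImplicit false
set_option linter.unusedSectionVars false

namespace Cfsg.Agent.H872

open Matrix Cfsg.Agent.H873
open scoped Kronecker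

variable {α β : Type} [Fintype α] [DecidableEq α] [Fintype β] [DecidableEq β] {F : Type*} [Field F]

/-- The stabiliser of a vector. -/
def vecStab {ι : Type} [Fintype ι] [DecidableEq ι] (x : ι → F) : Subgroup (GL ι F) where
  carrier := {g | (g : Matrix ι ι F) *ᵥ x = x}
  mul_mem' {a b} ha hb := by
    change ((a * b : GL ι F) : Matrix ι ι F) *ᵥ x = x
    rw [Units.val_mul, ← mulVec_mulVec, show (b : Matrix ι ι F) *ᵥ x = x from hb,
      show (a : Matrix ι ι F) *ᵥ x = x from ha]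
  one_mem' := by
    change ((1 : GL ι F) : Matrix ι ι F) *ᵥ x = x
    rw [Units.val_one, one_mulVec]
  inv_mem' {a} ha := by
    change ((a⁻¹ : GL ι F) : Matrix ι ι F) *ᵥ x = x
    conv_lhs => rw [← show (a : Matrix ι ι F) *ᵥ x = x from ha]
    exact inv_mulVec_mulVec a x

theorem mem_vecStab {ι : Type} [Fintype ι] [DecidableEq ι] {x : ι → F} {g : GL ι F} :
    g ∈ vecStab x ↔ (g : Matrix ι ι F) *ᵥ x = x := Iff.rfl

theorem rt_pow_mulVec {w ψ : β → F} (h : ψ ⬝ᵥ w = 0) (n : ℕ) (v : α × β → F) :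
    (((rt w ψ h : GL (α × β) F) ^ n : GL (α × β) F) : Matrix (α × β) (α × β) F) *ᵥ v =
      v + (n : F) • ten (rc ψ v) w := by
  induction n with
  | zero => simp
  | succ n ih =>
    rw [pow_succ', Units.val_mul, ← mulVec_mulVec, ih, rt_mulVec, map_add, map_smul, rc_ten, h,
      zero_smul, smul_zero, add_zero, Nat.cast_succ, add_smul, one_smul, add_assoc]

theorem rt_pow_eq_one {p : ℕ} [CharP F p] {w ψ : β → F} (h : ψ ⬝ᵥ w = 0) :
    (rt w ψ h : GL (α × β) F) ^ p = 1 := by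
  apply gl_ext
  intro x
  rw [rt_pow_mulVec, CharP.cast_eq_zero, zero_smul, add_zero, Units.val_one, one_mulVec]

/-- Some functional kills a vector when `card α < card β`. -/
theorem exists_rc_eq_zero (hab : Fintype.card α < Fintype.card β) (x : α × β → F) :
    ∃ ψ : β → F, ψ ≠ 0 ∧ rc ψ x = 0 := by
  let f : (β → F) →ₗ[F] (α → F) :=
    { toFun := fun ψ => rc ψ x
      map_add' := fun ψ ψ' => by
        funext i
        simp only [rc_apply, Pi.add_apply, add_mul, Finset.sum_add_distrib]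
      map_smul' := fun c ψ => by
        funext i
        simp only [rc_apply, Pi.smul_apply, smul_eq_mul, RingHom.id_apply, Finset.mul_sum]
        exact Finset.sum_congr rfl fun j _ => by ring }
  have hker : LinearMap.ker f ≠ ⊥ := by
    intro hbot
    have h3 := LinearMap.finrank_le_finrank_of_injective (LinearMap.ker_eq_bot.1 hbot)
    rw [Module.finrank_fintype_fun_eq_card, Module.finrank_fintype_fun_eq_card] at h3
    omega
  obtain ⟨ψ, hψ, hψ0⟩ := Submodule.exists_mem_ne_zero_of_ne_bot hker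
  exact ⟨ψ, hψ0, LinearMap.mem_ker.1 hψ⟩

theorem kron_dichotomy [Finite F] {M : Subgroup (GL (α × β) F)}
    (hM : ∀ (A : GL α F) (B : GL β F), (A : Matrix α α F).det = 1 → (B : Matrix β β F).det = 1 →
      kr (A, B) ∈ M)
    (hα : 2 ≤ Fintype.card α) (hab : Fintype.card α < Fintype.card β)
    (hF : 3 ≤ Fintype.card α ∨ ∃ t : F, t ≠ 0 ∧ t ≠ 1) :
    Cfsg.Geo.specialLinear (α × β) F ≤ M ∨ ∀ g ∈ M, ∃ x : GL α F × GL β F, kr x = g := by
  have hβ : 3 ≤ Fintype.card β := by omega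
  have : Nonempty α := Fintype.card_pos_iff.1 (by omega)
  by_cases hall : AllRt M
  swap
  · exact Or.inl (sl_le_of_not_allRt hM hα hβ hF hall)
  right
  have _hft : Fintype F := Fintype.ofFinite F
  obtain ⟨p, hchar⟩ := CharP.exists F
  have hp : p.Prime := CharP.char_is_prime F p
  have hfin : Finite (GL (α × β) F) := inferInstance
  let H : Subgroup (GL (α × β) F) := M ⊓ (kr (α := α) (β := β) (F := F)).range
  let D : Set (GL (α × β) F) := {x | ∃ (w ψ : β → F) (h : ψ ⬝ᵥ w = 0), w ≠ 0 ∧ ψ ≠ 0 ∧ x = rt w ψ h}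
  have hD : ∀ s ∈ D, s ∈ H ∧ ∃ k : ℕ, s ^ p ^ k = 1 := by
    rintro s ⟨w, ψ, h, hw, hψ, rfl⟩
    exact ⟨⟨kr_one_tv_mem hM h, ⟨_, rfl⟩⟩, 1, by rw [pow_one]; exact rt_pow_eq_one h⟩
  have hTI : ∀ s ∈ D, ∀ g ∈ M, g * s * g⁻¹ ∈ H → g ∈ H := by
    rintro s ⟨w, ψ, h, hw, hψ, rfl⟩ g hg hgs
    obtain ⟨-, ⟨A, B⟩, hAB⟩ := hgs
    obtain ⟨w', ψ', h', hw', hψ', he⟩ := rt_of_conj hab h hw hψ hAB.symm
    obtain ⟨y, hy⟩ := exists_dot_one hψ
    have hgw : ∀ u, ∃ u', (g : Matrix (α × β) (α × β) F) *ᵥ ten u w = ten u' w' := by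
      intro u
      have h1 : g * rt w ψ h = rt w' ψ' h' * g := by rw [← he]; group
      have h2 := congrArg (fun N : GL (α × β) F => (N : Matrix (α × β) (α × β) F) *ᵥ ten u y) h1
      simp only [Units.val_mul, ← mulVec_mulVec, rt_mulVec, mulVec_add, rc_ten, hy,
        one_smul] at h2
      exact ⟨_, add_left_cancel h2⟩
    obtain ⟨B', hB', hB'w⟩ := H905.exists_sl_vec (F := F) hw' hw (by omega)
    rw [H905.mem_sl_iff] at hB'
    have hk : kr ((1 : GL α F), B') ∈ M := hM _ _ (by simp) hB'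
    obtain ⟨x, hx⟩ := mem_range_kr_of_stab hM hα hF hall hw (g := kr ((1 : GL α F), B') * g)
      (M.mul_mem hk hg) (fun u => by
        obtain ⟨u', hu'⟩ := hgw u
        refine ⟨u', ?_⟩
        rw [Units.val_mul, ← mulVec_mulVec, hu', kr_mulVec_ten, hB'w]
        simp)
    refine ⟨hg, ((1 : GL α F), B')⁻¹ * x, ?_⟩
    rw [map_mul, map_inv, hx]
    group
  have hHM : H ≤ M := inf_le_left
  have hroot : ∀ x : α × β → F, ∃ s ∈ D, s ∈ vecStab x := by
    intro x
    obtain ⟨ψ, hψ, hψx⟩ := exists_rc_eq_zero hab x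
    obtain ⟨w, hw, hwψ, -⟩ := exists_kill_two (F := F) hβ ψ ψ
    rw [dotProduct_comm] at hwψ
    exact ⟨rt w ψ hwψ, ⟨w, ψ, hwψ, hw, hψ, rfl⟩, by
      rw [mem_vecStab, rt_mulVec, hψx, ten_zero_left, add_zero]⟩
  have hpres : ∀ g ∈ M, ∀ x : α × β → F, ∃ y : GL α F × GL β F,
      ((g⁻¹ : GL (α × β) F) : Matrix (α × β) (α × β) F) *ᵥ x =
        (kr y : Matrix (α × β) (α × β) F) *ᵥ x := by
    intro g hg x
    obtain ⟨s, hs, hsx⟩ := hroot x
    obtain ⟨t, ht, htx⟩ := hroot (((g⁻¹ : GL (α × β) F) : Matrix (α × β) (α × β) F) *ᵥ x)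
    have h2 : g * t * g⁻¹ ∈ vecStab x := by
      rw [mem_vecStab, Units.val_mul, Units.val_mul, ← mulVec_mulVec, ← mulVec_mulVec]
      rw [mem_vecStab] at htx
      rw [htx, mulVec_inv_mulVec]
    have hfM : Finite M := inferInstance
    obtain ⟨m, hm, h, hh, e⟩ := H880.ti_transfer_one hp M H hHM D hD hTI (vecStab x) hs ht hg hsx h2
    obtain ⟨-, y, hy⟩ := hh
    refine ⟨y⁻¹, ?_⟩
    rw [e, _root_.mul_inv_rev, Units.val_mul, ← mulVec_mulVec, map_inv, hy]
    have h3 : ((m⁻¹ : GL (α × β) F) : Matrix (α × β) (α × β) F) *ᵥ x = x :=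
      mem_vecStab.1 (Subgroup.inv_mem _ hm)
    rw [h3]
  intro g hg
  refine mem_range_kr_of_pres hab fun u w => ?_
  obtain ⟨y, hy⟩ := hpres g⁻¹ (M.inv_mem hg) (ten u w)
  rw [inv_inv, kr_mulVec_ten] at hy
  exact ⟨_, _, hy⟩

/-! ### The theorem for `Geo.tensorProductSubgroup` -/

theorem two_elements [Fintype F] (h : Fintype.card F ≠ 2) : ∃ t : F, t ≠ 0 ∧ t ≠ 1 := by
  classical
  by_contra hcon
  push Not at hcon
  have h1 : (Finset.univ : Finset F) ⊆ {0, 1} := by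
    intro t _
    by_cases ht : t = 0
    · simp [ht]
    · simp [hcon t ht]
  have h2 := (Finset.card_le_card h1).trans Finset.card_le_two
  have h3 : 1 < Fintype.card F := Fintype.one_lt_card
  rw [Finset.card_univ] at h2
  omega

theorem isMaximalIn_map {G G' : Type*} [Group G] [Group G'] (f : G ≃* G') {K H : Subgroup G}
    (h : Cfsg.Geo.IsMaximalIn K H) :
    Cfsg.Geo.IsMaximalIn (K.map f.toMonoidHom) (H.map f.toMonoidHom) := by
  refine ⟨(Subgroup.map_lt_map_iff_of_injective f.injective).2 h.1, fun M h1 h2 => ?_⟩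
  have h3 : M = (M.comap f.toMonoidHom).map f.toMonoidHom := by
    rw [Subgroup.map_comap_eq_self_of_surjective f.surjective]
  have h4 : H ≤ M.comap f.toMonoidHom := Subgroup.map_le_iff_le_comap.1 h1
  have h5 : M.comap f.toMonoidHom ≤ K := by
    rw [h3] at h2
    exact (Subgroup.map_le_map_iff_of_injective f.injective).1 h2
  rcases h.2 _ h4 h5 with h6 | h6
  · left; rw [h3, h6]
  · right; rw [h3, h6]

/-- **Tensor product subgroups are maximal in `SL`.** -/
theorem tensorProductSubgroup_isMaximalIn {ι : Type} [Fintype ι] [DecidableEq ι] [Fintype F]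
    {n₁ n₂ : ℕ} (h1 : 2 ≤ n₁) (h12 : n₁ < n₂) (hex : ¬ (n₁ = 2 ∧ Fintype.card F = 2))
    (e : ι ≃ Fin n₁ × Fin n₂) (P : GL ι F) :
    Cfsg.Geo.IsMaximalIn (Cfsg.Geo.specialLinear ι F)
      (Cfsg.Geo.tensorProductSubgroup n₁ n₂ e P ⊓ Cfsg.Geo.specialLinear ι F) := by
  have hdet : ∀ g : GL (Fin n₁ × Fin n₂) F, embGL e P g ∈ Cfsg.Geo.specialLinear ι F ↔
      g ∈ Cfsg.Geo.specialLinear (Fin n₁ × Fin n₂) F := by
    intro g
    rw [mem_specialLinear_iff, mem_specialLinear_iff, coe_embGL, det_emb]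
  have hSL : (Cfsg.Geo.specialLinear (Fin n₁ × Fin n₂) F).map (embGL e P).toMonoidHom =
      Cfsg.Geo.specialLinear ι F := by
    ext g
    constructor
    · rintro ⟨x, hx, rfl⟩
      exact (hdet x).2 hx
    · intro hg
      refine ⟨(embGL e P).symm g, (hdet _).1 ?_, ?_⟩
      · rw [MulEquiv.apply_symm_apply]; exact hg
      · exact MulEquiv.apply_symm_apply _ _
  have hT : (Cfsg.Geo.kroneckerSubgroup n₁ n₂ F ⊓
      Cfsg.Geo.specialLinear (Fin n₁ × Fin n₂) F).map (embGL e P).toMonoidHom =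
      Cfsg.Geo.tensorProductSubgroup n₁ n₂ e P ⊓ Cfsg.Geo.specialLinear ι F := by
    rw [Subgroup.map_inf _ _ (embGL e P).toMonoidHom (embGL e P).injective, hSL, tensorProductSubgroup_eq]
  rw [← hT, ← hSL]
  apply isMaximalIn_map
  have hmem : ∀ x : GL (Fin n₁) F × GL (Fin n₂) F, kr x ∈ Cfsg.Geo.kroneckerSubgroup n₁ n₂ F :=
    fun x => ⟨x.1, x.2, rfl⟩
  have hsl : ∀ (A : GL (Fin n₁) F) (B : GL (Fin n₂) F), (A : Matrix (Fin n₁) (Fin n₁) F).det = 1 →
      (B : Matrix (Fin n₂) (Fin n₂) F).det = 1 →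
      kr (A, B) ∈ Cfsg.Geo.specialLinear (Fin n₁ × Fin n₂) F := by
    intro A B hA hB
    rw [mem_specialLinear_iff, coe_kr, det_kronecker, hA, hB]
    simp
  refine ⟨lt_of_le_of_ne inf_le_right fun h => ?_, fun M h2 h3 => ?_⟩
  · have h5 : Cfsg.Geo.specialLinear (Fin n₁ × Fin n₂) F ≤ Cfsg.Geo.kroneckerSubgroup n₁ n₂ F := by
      rw [← h]; exact inf_le_left
    exact H905.not_sl_le_kroneckerSubgroup h1 (by omega) h5
  · have hM : ∀ (A : GL (Fin n₁) F) (B : GL (Fin n₂) F),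
        (A : Matrix (Fin n₁) (Fin n₁) F).det = 1 → (B : Matrix (Fin n₂) (Fin n₂) F).det = 1 →
        kr (A, B) ∈ M := fun A B hA hB => h2 ⟨hmem _, hsl A B hA hB⟩
    have hF : 3 ≤ Fintype.card (Fin n₁) ∨ ∃ t : F, t ≠ 0 ∧ t ≠ 1 := by
      by_cases h : 3 ≤ n₁
      · left; simpa using h
      · right
        exact two_elements fun h4 => hex ⟨by omega, h4⟩
    rcases kron_dichotomy hM (by simpa using h1) (by simpa using h12) hF with h4 | h4
    · right
      exact le_antisymm h3 h4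
    · left
      refine le_antisymm (fun g hg => ⟨?_, h3 hg⟩) h2
      obtain ⟨x, rfl⟩ := h4 g hg
      exact hmem x

end Cfsg.Agent.H872
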